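/-
A solvable group of order 6048 with degrees divisible by 42.
-/
import Cfsg.Prelude.Def_DegreeGraph
import Cfsg.Agent.Chars.Linear
import Cfsg.Agent.Chars.GlaubermanSolvable
import Cfsg.Agent.Chars2.Clifford
import Cfsg.Agent.OddChar.ProdChar
import Cfsg.Agent.Core.BurnsidePQ
import Mathlib.NumberTheory.LegendreSymbol.Complex

set_option autoImplicit false
set_option linter.style.haveILetI false

namespace Cfsg.Agent.Core.Degree6048Model

open Cfsg Cfsg.Agent

/-- Above a linear character of a normal subgroup the index of the inertia group divides the degree. -/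
theorem exists_dvd {G : Type*} [Group G] [Finite G] (N T : Subgroup G) [hN : N.Normal] (lam : N →* ℂˣ)
    (hT : ∀ g : G, g ∈ T ↔ ∀ n : N, lam ⟨g * n * g⁻¹, hN.conj_mem (n : G) n.2 g⟩ = lam n) :
    ∃ χ : IrrCharacter G, T.index ∣ charDegree (χ : G → ℂ) := by
  classical
  haveI := Fintype.ofFinite G
  haveI : Fintype N := Fintype.ofFinite _
  have hθ : IsIrrCharacter N (fun n => ((lam n : ℂˣ) : ℂ)) := Chars.isIrrCharacter_hom lam
  obtain ⟨χ, hχ⟩ := Chars.exists_irr_above N hθ
  obtain ⟨m, hm⟩ := Chars.exists_classInner_eq_nat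
    (Chars.isCharacter_restrict (Chars.irr_isCharacter χ) N) (Chars.isCharacter_of_isIrr hθ)
  have hd := Chars2.clifford_degree χ.2 hθ hχ
  rw [hm, ← Chars2.inertiaSub_eq T (fun g => by
    rw [hT]; exact forall_congr' fun n => Units.val_inj.symm)] at hd
  refine ⟨χ, ⟨m, ?_⟩⟩
  rw [map_one, Units.val_one, mul_one] at hd
  have : charDegree (χ : G → ℂ) = T.index * m := by
    rw [charDegree, hd, show (T.index : ℂ) * (m : ℂ) = ((T.index * m : ℕ) : ℂ) from
      (Nat.cast_mul _ _).symm, Complex.natCast_re, Nat.floor_natCast]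
  exact this

/-- Triples over the field with three elements, extended by two signs. -/
@[ext] structure Borel where
  α : (ZMod 3)ˣ
  β : (ZMod 3)ˣ
  a : ZMod 3
  b : ZMod 3
  c : ZMod 3
deriving DecidableEq, Fintype

namespace Borel

instance : Mul Borel :=
  ⟨fun g h => ⟨g.α * h.α, g.β * h.β, g.α * h.a + g.a * h.β, g.β * h.b + g.b, g.α * h.c + g.a * h.b + g.c⟩⟩

instance : One Borel := ⟨⟨1, 1, 0, 0, 0⟩⟩

instance : Inv Borel :=
  ⟨fun g => ⟨g.α⁻¹, g.β⁻¹, -((g.α⁻¹ : (ZMod 3)ˣ) * g.a * (g.β⁻¹ : (ZMod 3)ˣ)),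
    -((g.β⁻¹ : (ZMod 3)ˣ) * g.b),
    (g.α⁻¹ : (ZMod 3)ˣ) * (g.a * (g.β⁻¹ : (ZMod 3)ˣ) * g.b - g.c)⟩⟩

@[simp] theorem mul_α (g h : Borel) : (g * h).α = g.α * h.α := rfl
@[simp] theorem mul_β (g h : Borel) : (g * h).β = g.β * h.β := rfl
@[simp] theorem mul_a (g h : Borel) : (g * h).a = g.α * h.a + g.a * h.β := rfl
@[simp] theorem mul_b (g h : Borel) : (g * h).b = g.β * h.b + g.b := rfl
@[simp] theorem mul_c (g h : Borel) : (g * h).c = g.α * h.c + g.a * h.b + g.c := rfl
@[simp] theorem one_α : (1 : Borel).α = 1 := rfl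
@[simp] theorem one_β : (1 : Borel).β = 1 := rfl
@[simp] theorem one_a : (1 : Borel).a = 0 := rfl
@[simp] theorem one_b : (1 : Borel).b = 0 := rfl
@[simp] theorem one_c : (1 : Borel).c = 0 := rfl
@[simp] theorem inv_α (g : Borel) : g⁻¹.α = g.α⁻¹ := rfl
@[simp] theorem inv_β (g : Borel) : g⁻¹.β = g.β⁻¹ := rfl
@[simp] theorem inv_a (g : Borel) :
    g⁻¹.a = -((g.α⁻¹ : (ZMod 3)ˣ) * g.a * (g.β⁻¹ : (ZMod 3)ˣ)) := rfl
@[simp] theorem inv_b (g : Borel) : g⁻¹.b = -((g.β⁻¹ : (ZMod 3)ˣ) * g.b) := rfl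
@[simp] theorem inv_c (g : Borel) :
    g⁻¹.c = (g.α⁻¹ : (ZMod 3)ˣ) * (g.a * (g.β⁻¹ : (ZMod 3)ˣ) * g.b - g.c) := rfl

instance : Group Borel where
  mul_assoc x y z := by
    ext <;> simp only [mul_α, mul_β, mul_a, mul_b, mul_c, Units.val_mul, mul_assoc] <;> ring
  one_mul x := by ext <;> simp
  mul_one x := by ext <;> simp
  inv_mul_cancel x := by
    ext <;> simp only [mul_α, mul_β, mul_a, mul_b, mul_c, inv_α, inv_β, inv_a, inv_b, inv_c, one_α,
      one_β, one_a, one_b, one_c, inv_mul_cancel] <;>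
      first
        | linear_combination (-(((x.α⁻¹ : (ZMod 3)ˣ) : ZMod 3) * x.a)) * Units.inv_mul x.β
        | ring

/-- The abelian normal subgroup. -/
def N : Subgroup Borel where
  carrier := {g | g.α = 1 ∧ g.β = 1 ∧ g.a = 0}
  one_mem' := by simp
  mul_mem' := fun {g h} hg hh => by
    obtain ⟨h1, h2, h3⟩ := hg
    obtain ⟨k1, k2, k3⟩ := hh
    simp [h1, h2, h3, k1, k2, k3]
  inv_mem' := fun {g} hg => by
    obtain ⟨h1, h2, h3⟩ := hg
    simp [h1, h2, h3]

instance : N.Normal := ⟨fun n hn g => by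
  obtain ⟨h1, h2, h3⟩ := hn
  refine ⟨by simp [h1], by simp [h2], ?_⟩
  simp only [mul_a, mul_α, mul_β, inv_a, inv_β, h1, h2, h3, mul_one, Units.val_one, mul_zero,
    zero_mul, zero_add]
  linear_combination (-(g.a * (g.β⁻¹ : (ZMod 3)ˣ))) * Units.mul_inv g.α⟩

/-- The stabiliser. -/
def T : Subgroup Borel where
  carrier := {g | g.α = 1 ∧ g.a = 0}
  one_mem' := by simp
  mul_mem' := fun {g h} hg hh => by
    obtain ⟨h1, h3⟩ := hg
    obtain ⟨k1, k3⟩ := hh
    exact ⟨by rw [mul_α, h1, k1, mul_one], by rw [mul_a, h3, k3, mul_zero, zero_mul, add_zero]⟩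
  inv_mem' := fun {g} hg => by
    obtain ⟨h1, h3⟩ := hg
    exact ⟨by rw [inv_α, h1, inv_one], by rw [inv_a, h3, mul_zero, zero_mul, neg_zero]⟩

theorem conj_c (g : Borel) {n : Borel} (hn : n ∈ N) : (g * n * g⁻¹).c = g.α * n.c + g.a * n.b := by
  obtain ⟨h1, h2, h3⟩ := hn
  simp only [mul_c, mul_α, mul_a, inv_b, inv_c, h1, h2, h3, mul_one, mul_zero, zero_add,
    Units.val_one]
  linear_combination (g.a * (g.β⁻¹ : (ZMod 3)ˣ) * g.b - g.c) * Units.mul_inv g.α

theorem card_eq : Nat.card Borel = 108 := by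
  rw [Nat.card_congr (⟨fun g => (g.α, g.β, g.a, g.b, g.c),
    fun p => ⟨p.1, p.2.1, p.2.2.1, p.2.2.2.1, p.2.2.2.2⟩, fun _ => rfl, fun _ => rfl⟩ :
      Borel ≃ (ZMod 3)ˣ × (ZMod 3)ˣ × ZMod 3 × ZMod 3 × ZMod 3)]
  simp [Nat.card_prod, Nat.card_eq_fintype_card, ZMod.card_units_eq_totient, ZMod.card, Nat.totient_prime Nat.prime_three]

theorem exists_six : ∃ χ : IrrCharacter Borel, 6 ∣ charDegree (χ : Borel → ℂ) := by
  haveI : Fact (Nat.Prime 3) := ⟨Nat.prime_three⟩
  set ψ := AddChar.FiniteField.primitiveChar_to_Complex (ZMod 3)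
  have hψ : ψ.IsPrimitive := AddChar.FiniteField.primitiveChar_to_Complex_isPrimitive (ZMod 3)
  let f : N →* ℂ :=
    { toFun := fun n => ψ n.1.c
      map_one' := by simp
      map_mul' := fun x y => by
        rw [← AddChar.map_add_eq_mul]
        congr 1
        show (x.1 * y.1).c = x.1.c + y.1.c
        rw [mul_c, x.2.1, x.2.2.2, Units.val_one]
        ring }
  obtain ⟨χ, hχ⟩ := exists_dvd N T f.toHomUnits (fun g => by
    constructor
    · rintro ⟨hα, ha⟩ n
      refine Units.ext ?_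
      show ψ (g * n.1 * g⁻¹).c = ψ n.1.c
      rw [conj_c g n.2, hα, ha, Units.val_one]
      congr 1
      ring
    · intro h
      have key : ∀ b c : ZMod 3, ψ (g.α * c + g.a * b) = ψ c := fun b c => by
        have h' : (⟨1, 1, 0, b, c⟩ : Borel) ∈ N := ⟨rfl, rfl, rfl⟩
        have h1 : ψ (g * ⟨1, 1, 0, b, c⟩ * g⁻¹).c = ψ c := congrArg Units.val (h ⟨_, h'⟩)
        rwa [conj_c g h'] at h1
      refine ⟨?_, ?_⟩
      · by_contra hne
        refine hψ (sub_ne_zero.2 fun h0 => hne (Units.ext h0) : ((g.α : ZMod 3) - 1) ≠ 0) ?_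
        ext v
        have h1 := key 0 v
        rw [mul_zero, add_zero, show (g.α : ZMod 3) * v = ((g.α : ZMod 3) - 1) * v + v by ring,
          AddChar.map_add_eq_mul] at h1
        rw [AddChar.mulShift_apply, AddChar.one_apply]
        exact mul_right_cancel₀ (AddChar.val_isUnit ψ v).ne_zero (h1.trans (one_mul _).symm)
      · by_contra hne
        refine hψ hne ?_
        ext v
        have h1 := key v 0
        rw [mul_zero, zero_add, AddChar.map_zero_eq_one] at h1
        rw [AddChar.mulShift_apply, AddChar.one_apply]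
        exact h1)
  refine ⟨χ, ?_⟩
  have hT : Nat.card T = 18 := by
    rw [Nat.card_congr (⟨fun g => (g.1.β, g.1.b, g.1.c),
      fun p => ⟨⟨1, p.1, 0, p.2.1, p.2.2⟩, rfl, rfl⟩,
      fun g => Subtype.ext (Borel.ext g.2.1.symm rfl g.2.2.symm rfl rfl), fun _ => rfl⟩ :
        T ≃ (ZMod 3)ˣ × ZMod 3 × ZMod 3)]
    simp [Nat.card_prod, Nat.card_eq_fintype_card, ZMod.card_units_eq_totient, ZMod.card, Nat.totient_prime Nat.prime_three]
  have h := T.card_mul_index
  rw [hT, card_eq] at h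
  rwa [show T.index = 6 by omega] at hχ

end Borel

/-- The affine maps of a field. -/
@[ext] structure Affine (K : Type) [Field K] where
  u : Kˣ
  v : K

namespace Affine

variable {K : Type} [Field K]

instance : Mul (Affine K) := ⟨fun g h => ⟨g.u * h.u, g.u * h.v + g.v⟩⟩
instance : One (Affine K) := ⟨⟨1, 0⟩⟩
instance : Inv (Affine K) := ⟨fun g => ⟨g.u⁻¹, -((g.u⁻¹ : Kˣ) * g.v)⟩⟩

@[simp] theorem mul_u (g h : Affine K) : (g * h).u = g.u * h.u := rfl
@[simp] theorem mul_v (g h : Affine K) : (g * h).v = g.u * h.v + g.v := rfl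
@[simp] theorem one_u : (1 : Affine K).u = 1 := rfl
@[simp] theorem one_v : (1 : Affine K).v = 0 := rfl
@[simp] theorem inv_u (g : Affine K) : g⁻¹.u = g.u⁻¹ := rfl
@[simp] theorem inv_v (g : Affine K) : g⁻¹.v = -((g.u⁻¹ : Kˣ) * g.v) := rfl

instance : Group (Affine K) where
  mul_assoc x y z := by
    ext <;> simp only [mul_u, mul_v, Units.val_mul] <;> ring
  one_mul x := by ext <;> simp
  mul_one x := by ext <;> simp
  inv_mul_cancel x := by ext <;> simp

/-- The translations. -/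
def V (K : Type) [Field K] : Subgroup (Affine K) where
  carrier := {g | g.u = 1}
  one_mem' := by simp
  mul_mem' := fun {g h} (hg : g.u = 1) (hh : h.u = 1) => by simp [hg, hh]
  inv_mem' := fun {g} (hg : g.u = 1) => by simp [hg]

instance : (V K).Normal := ⟨fun n (hn : n.u = 1) g => by simp [V, hn]⟩

variable [Fintype K]

instance : Finite (Affine K) :=
  Finite.of_injective (fun g => (g.u, g.v)) fun g h e => by
    simp only [Prod.mk.injEq] at e
    exact Affine.ext e.1 e.2

theorem card_eq : Nat.card (Affine K) = (Fintype.card K - 1) * Fintype.card K := by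
  rw [Nat.card_congr (⟨fun g => (g.u, g.v), fun p => ⟨p.1, p.2⟩, fun _ => rfl, fun _ => rfl⟩ :
      Affine K ≃ Kˣ × K), Nat.card_prod, Nat.card_units, Nat.card_eq_fintype_card]

theorem exists_pred : ∃ χ : IrrCharacter (Affine K), (Fintype.card K - 1) ∣ charDegree (χ : Affine K → ℂ) := by
  set ψ := AddChar.FiniteField.primitiveChar_to_Complex K
  have hψ : ψ.IsPrimitive := AddChar.FiniteField.primitiveChar_to_Complex_isPrimitive K
  let f : V K →* ℂ :=
    { toFun := fun n => ψ n.1.v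
      map_one' := by simp
      map_mul' := fun x y => by
        rw [← AddChar.map_add_eq_mul]
        congr 1
        show (x.1 * y.1).v = x.1.v + y.1.v
        rw [mul_v, (x.2 : x.1.u = 1), Units.val_one]
        ring }
  have hconj : ∀ (g n : Affine K), n.u = 1 → (g * n * g⁻¹).v = g.u * n.v := fun g n hn => by
    simp only [mul_v, mul_u, inv_v, hn, mul_one]
    linear_combination (-g.v) * Units.mul_inv g.u
  obtain ⟨χ, hχ⟩ := exists_dvd (V K) (V K) f.toHomUnits (fun g => by
    constructor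
    · intro hg n
      refine Units.ext ?_
      show ψ (g * n.1 * g⁻¹).v = ψ n.1.v
      rw [hconj g n.1 n.2, (hg : g.u = 1), Units.val_one, one_mul]
    · intro h
      show g.u = 1
      by_contra hne
      refine hψ (sub_ne_zero.2 fun h0 => hne (Units.ext h0) : ((g.u : K) - 1) ≠ 0) ?_
      ext v
      have h1 : ψ (g * ⟨1, v⟩ * g⁻¹).v = ψ v := congrArg Units.val (h ⟨⟨1, v⟩, rfl⟩)
      rw [hconj g _ rfl, show (g.u : K) * v = ((g.u : K) - 1) * v + v by ring,
        AddChar.map_add_eq_mul] at h1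
      rw [AddChar.mulShift_apply, AddChar.one_apply]
      exact mul_right_cancel₀ (AddChar.val_isUnit ψ v).ne_zero (h1.trans (one_mul _).symm))
  refine ⟨χ, ?_⟩
  have hV : Nat.card (V K) = Fintype.card K := by
    rw [← Nat.card_eq_fintype_card]
    exact Nat.card_congr ⟨fun g => g.1.v, fun v => ⟨⟨1, v⟩, rfl⟩,
      fun g => Subtype.ext (Affine.ext (g.2 : g.1.u = 1).symm rfl), fun _ => rfl⟩
  have h := (V K).card_mul_index
  rw [hV, card_eq, mul_comm (Fintype.card K - 1)] at h
  rwa [Nat.eq_of_mul_eq_mul_left Fintype.card_pos h] at hχ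

end Affine

theorem isSolvable_prod {A B : Type*} [Group A] [Group B] (hA : Group.IsSolvable A) (hB : Group.IsSolvable B) :
    Group.IsSolvable (A × B) := by
  haveI := hA
  haveI := hB
  infer_instance

/-- The model. -/
theorem exists_model : ∃ (H : Type) (_ : Group H) (_ : Fintype H), Group.IsSolvable H ∧
    Nat.card H = 6048 ∧ ∃ χ : IrrCharacter H, 2 * 3 * 7 ∣ charDegree (χ : H → ℂ) := by
  classical
  let K := GaloisField 2 3
  haveI : Fintype K := Fintype.ofFinite K
  have hK : Fintype.card K = 8 := by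
    rw [← Nat.card_eq_fintype_card, GaloisField.card 2 3 (by norm_num)]; norm_num
  haveI : Fintype (Affine K) := Fintype.ofFinite _
  have hA : Nat.card (Affine K) = 56 := by rw [Affine.card_eq, hK]
  refine ⟨Borel × Affine K, inferInstance, inferInstance, ?_, by rw [Nat.card_prod, Borel.card_eq, hA], ?_⟩
  · exact isSolvable_prod
      (isSolvable_of_card_dvd_two_primes (a := 2) (b := 3) Nat.prime_two Nat.prime_three
        (by rw [Borel.card_eq]; norm_num))
      (isSolvable_of_card_dvd_two_primes (a := 3) (b := 1) Nat.prime_two (by norm_num : Nat.Prime 7)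
        (by rw [hA]; norm_num))
  · obtain ⟨χ1, h1⟩ := Borel.exists_six
    obtain ⟨χ2, h2⟩ := Affine.exists_pred (K := K)
    rw [hK] at h2
    refine ⟨⟨_, OddChar.isIrr_outer χ1.2 χ2.2⟩, ?_⟩
    obtain ⟨a, ha⟩ := Chars.exists_apply_one_eq (Chars.irr_isCharacter χ1)
    obtain ⟨b, hb⟩ := Chars.exists_apply_one_eq (Chars.irr_isCharacter χ2)
    simp only [charDegree, ha, hb] at h1 h2
    simp only [Complex.natCast_re, Nat.floor_natCast] at h1 h2
    have e : charDegree (OddChar.outer (χ1 : Borel → ℂ) (χ2 : Affine K → ℂ)) = a * b := by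
      rw [charDegree]
      show ⌊((χ1 : Borel → ℂ) 1 * (χ2 : Affine K → ℂ) 1).re⌋₊ = a * b
      rw [ha, hb, show (a : ℂ) * (b : ℂ) = ((a * b : ℕ) : ℂ) from (Nat.cast_mul _ _).symm,
        Complex.natCast_re, Nat.floor_natCast]
    rw [e]
    exact mul_dvd_mul h1 h2

end Cfsg.Agent.Core.Degree6048Model
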