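/-
Finite groups in which every non-identity element fixes exactly two points, and their linear sources.
-/
import Mathlib.GroupTheory.GroupAction.Quotient
import Mathlib.LinearAlgebra.Projectivization.Action
import Mathlib.LinearAlgebra.Eigenspace.Triangularizable
import Mathlib.FieldTheory.IsAlgClosed.Basic

set_option autoImplicit false
set_option linter.style.haveILetI false
set_option linter.unusedSectionVars false

namespace Cfsg.Agent.Core.PlaneCount

open MulAction
open scoped LinearAlgebra.Projectivization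

theorem arith {N a b c na nb nc : ℕ} (hN : 0 < N) (hs : a + b + c = N + 2) (ha : a * na = N)
    (hb : b * nb = N) (hc : c * nc = N) (hna : 4 ≤ na) (hnb : 2 ≤ nb) (hnc : 2 ≤ nc) :
    4 * b > N ∧ 4 * c > N ∧ a ≤ 12 ∧ (6 ≤ na → a ≤ 2) := by
  have ha4 : 4 * a ≤ N := by nlinarith
  have hb2 : 2 * b ≤ N := by nlinarith
  have hc2 : 2 * c ≤ N := by nlinarith
  have h1 : 4 * b > N := by omega
  have h2 : 4 * c > N := by omega
  have hb3 : nb ≤ 3 := by nlinarith
  have hc3 : nc ≤ 3 := by nlinarith
  refine ⟨h1, h2, ?_⟩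
  by_cases h6 : 6 ≤ na
  · have : 6 * a ≤ N := by nlinarith
    interval_cases nb <;> interval_cases nc <;> omega
  · interval_cases na <;> interval_cases nb <;> interval_cases nc <;> omega

variable {W Ω : Type*} [Group W] [Finite W] [MulAction W Ω]

theorem stab_bound (hfix : ∀ w : W, w ≠ 1 → Set.ncard {x : Ω | w • x = x} = 2)
    {ι : Type*} [Finite ι] (f : ι → Ω) (hf : Function.Injective f) (e : ℕ) (he4 : 4 ≤ e)
    (he : ∀ i, e ≤ Nat.card (stabilizer W (f i))) :
    Nat.card ι ≤ 12 ∧ (6 ≤ e → Nat.card ι ≤ 2) := by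
  classical
  rcases isEmpty_or_nonempty ι with hι | ⟨⟨i₀⟩⟩
  · simp
  haveI := Fintype.ofFinite W
  set N := Fintype.card W with hN
  have hN4 : 4 ≤ N := by
    have := le_trans he4 (he i₀)
    have h2 := (stabilizer W (f i₀)).card_le_card_group
    rw [Nat.card_eq_fintype_card (α := W)] at h2
    omega
  let S : SubMulAction W Ω :=
    { carrier := {x | ∃ w : W, w ≠ 1 ∧ w • x = x}
      smul_mem' := by
        rintro g x ⟨w, hw, hx⟩
        refine ⟨g * w * g⁻¹, ?_, ?_⟩
        · intro h
          exact hw (conj_eq_one_iff.1 h)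
        · rw [smul_smul, inv_mul_cancel_right, mul_smul, hx] }
  haveI : Finite S := by
    have : (⋃ w ∈ ({1}ᶜ : Set W), {x : Ω | w • x = x}).Finite :=
      (Set.toFinite _).biUnion fun w hw => Set.finite_of_ncard_ne_zero (by rw [hfix w hw]; norm_num)
    exact (this.subset fun x hx => by
      obtain ⟨w, hw, hx⟩ := hx
      exact Set.mem_biUnion hw hx).to_subtype
  haveI := Fintype.ofFinite S
  have hmem : ∀ i, f i ∈ S := fun i => by
    have h1 : 1 < Nat.card (stabilizer W (f i)) := by have := he i; omega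
    haveI := Finite.one_lt_card_iff_nontrivial.1 h1
    obtain ⟨w, hw⟩ := exists_ne (1 : stabilizer W (f i))
    exact ⟨(w : W), fun h => hw (Subtype.ext h), w.2⟩
  set Q := Quotient (orbitRel W S)
  haveI : Fintype Q := Fintype.ofFinite _
  have hb := MulAction.sum_card_fixedBy_eq_card_orbits_mul_card_group W S
  rw [← Finset.add_sum_erase _ _ (Finset.mem_univ (1 : W))] at hb
  have h1 : Fintype.card (fixedBy S (1 : W)) = Fintype.card S :=
    Fintype.card_congr (Equiv.subtypeUnivEquiv fun x => one_smul W x)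
  have h2 : ∀ w ∈ (Finset.univ : Finset W).erase 1, Fintype.card (fixedBy S w) = 2 := by
    intro w hw
    have hw1 : w ≠ 1 := (Finset.mem_erase.1 hw).1
    rw [← Nat.card_eq_fintype_card, ← hfix w hw1]
    exact Nat.card_congr
      { toFun := fun x => ⟨((x : S) : Ω), congrArg Subtype.val x.2⟩
        invFun := fun x => ⟨⟨x.1, w, hw1, x.2⟩, Subtype.ext x.2⟩
        left_inv := fun x => rfl
        right_inv := fun x => rfl }
  rw [h1, Finset.sum_congr rfl h2, Finset.sum_const, Finset.card_erase_of_mem (Finset.mem_univ _),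
    Finset.card_univ, ← hN, smul_eq_mul] at hb
  let o : Q → ℕ := fun q => Nat.card (MulAction.orbit W q.out)
  let n : Q → ℕ := fun q => Nat.card (stabilizer W q.out)
  have hon : ∀ q, o q * n q = N := fun q => by
    rw [hN, ← Nat.card_eq_fintype_card (α := W)]
    show Nat.card (MulAction.orbit W q.out) * Nat.card (stabilizer W q.out) = _
    rw [← Nat.card_congr (MulAction.orbitProdStabilizerEquivGroup W q.out), Nat.card_prod]
  have hn2 : ∀ q, 2 ≤ n q := fun q => by
    obtain ⟨w, hw, hx⟩ := (q.out : S).2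
    refine Finite.one_lt_card_iff_nontrivial.2 ⟨⟨w, Subtype.ext hx⟩, 1, fun h => hw (congrArg Subtype.val h)⟩
  have hsum : Fintype.card S = ∑ q, o q := by
    rw [← Nat.card_eq_fintype_card, Nat.card_congr (MulAction.selfEquivSigmaOrbits W S), Nat.card_sigma]
  have hQ : Fintype.card Q * N = ∑ q, o q + (N - 1) * 2 := by
    rw [← hsum]; exact hb.symm
  have hQ3 : Fintype.card Q ≤ 3 := by
    have : ∑ q, 2 * o q ≤ ∑ _q : Q, N := Finset.sum_le_sum fun q _ => by
      have := hon q; have := hn2 q; nlinarith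
    rw [← Finset.mul_sum, Finset.sum_const, Finset.card_univ, smul_eq_mul] at this
    by_contra h4
    have : 4 * N ≤ Fintype.card Q * N := Nat.mul_le_mul_right N (by omega)
    omega
  -- each marked point lies in an orbit with large stabiliser
  let q : ι → Q := fun i => Quotient.mk (orbitRel W S) (⟨f i, hmem i⟩ : S)
  have hqn : ∀ i, e ≤ n (q i) := by
    intro i
    refine le_trans (he i) (le_of_eq ?_)
    have hst : stabilizer W (⟨f i, hmem i⟩ : S) = stabilizer W (f i) := by
      ext w
      simp [mem_stabilizer_iff, Subtype.ext_iff]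
    rw [← hst]
    obtain ⟨g, hg⟩ := MulAction.orbitRel_apply.1 (Quotient.mk_out (s := orbitRel W S) (⟨f i, hmem i⟩ : S))
    show _ = Nat.card (stabilizer W (q i).out)
    rw [show (q i).out = g • (⟨f i, hmem i⟩ : S) from hg.symm, stabilizer_smul_eq_stabilizer_map_conj]
    exact Nat.card_congr (Subgroup.equivMapOfInjective _ _ (MulAut.conj g).injective).toEquiv
  have hsingle : ∀ q₀, (∀ i, q i = q₀) → Nat.card ι ≤ o q₀ := by
    intro q₀ h
    refine Nat.card_le_card_of_injective
      (fun i => (⟨⟨f i, hmem i⟩, ?_⟩ : MulAction.orbit W q₀.out)) fun i j hij => hf ?_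
    · rw [← h i]
      exact MulAction.orbitRel_apply.1 ((orbitRel W S).symm (Quotient.mk_out (s := orbitRel W S) (⟨f i, hmem i⟩ : S)))
    · exact congrArg (fun x => ((x.1 : S) : Ω)) hij
  rcases (show Fintype.card Q = 0 ∨ Fintype.card Q = 1 ∨ Fintype.card Q = 2 ∨ Fintype.card Q = 3 by omega)
    with hc | hc | hc | hc
  · exact ((Fintype.card_eq_zero_iff.1 hc).false (q i₀)).elim
  · rw [hc] at hQ; omega
  · rw [hc] at hQ
    obtain ⟨a, b, hab, huniv⟩ := Finset.card_eq_two.1 (Finset.card_univ.trans hc)
    rw [huniv, Finset.sum_pair hab] at hQ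
    have hab' : o a + o b ≤ 2 := by omega
    have hle : Nat.card ι ≤ Nat.card S := Nat.card_le_card_of_injective (fun i => (⟨f i, hmem i⟩ : S))
      fun i j h => hf (congrArg Subtype.val h)
    rw [Nat.card_eq_fintype_card (α := S), hsum, huniv, Finset.sum_pair hab] at hle
    exact ⟨by omega, fun _ => by omega⟩
  · rw [hc] at hQ
    set a := q i₀
    obtain ⟨b, c, hbc, herase⟩ := Finset.card_eq_two.1
      (show ((Finset.univ : Finset Q).erase a).card = 2 by
        rw [Finset.card_erase_of_mem (Finset.mem_univ _), Finset.card_univ, hc])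
    rw [← Finset.add_sum_erase _ _ (Finset.mem_univ a), herase, Finset.sum_pair hbc] at hQ
    obtain ⟨h4b, h4c, h12, h6⟩ := arith (N := N) (a := o a) (b := o b) (c := o c) (by omega) (by omega)
      (hon a) (hon b) (hon c) (le_trans he4 (hqn i₀)) (hn2 b) (hn2 c)
    have hall : ∀ i, q i = a := by
      intro i
      by_contra hne
      have hi : q i ∈ ({b, c} : Finset Q) := herase ▸ Finset.mem_erase.2 ⟨hne, Finset.mem_univ _⟩
      have h1 := hon (q i)
      have h2 := hqn i
      have h3 : 4 * o (q i) ≤ N := by nlinarith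
      rcases Finset.mem_insert.1 hi with h | h
      · rw [h] at h3; omega
      · rw [Finset.mem_singleton.1 h] at h3; omega
    exact ⟨(hsingle a hall).trans h12, fun he6 => (hsingle a hall).trans (h6 (he6.trans (hqn i₀)))⟩

variable {K : Type*} [Field K] [IsAlgClosed K]

theorem pow_triangular {V : Type*} [AddCommGroup V] [Module K V] (g : V ≃ₗ[K] V) {a b : V} {lam mu k : K}
    (ha : g a = lam • a) (hb : g b = mu • b + k • a) :
    ∀ n : ℕ, (g ^ n) a = lam ^ n • a ∧ ∃ k' : K, (g ^ n) b = mu ^ n • b + k' • a ∧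
      (mu = lam → k' * lam = (n : K) * k * lam ^ n) := by
  intro n
  induction n with
  | zero => exact ⟨by simp, 0, by simp, fun _ => by simp⟩
  | succ n ih =>
    obtain ⟨h1, k', h2, h3⟩ := ih
    refine ⟨?_, lam * k' + mu ^ n * k, ?_, fun h => ?_⟩
    · rw [pow_succ', LinearEquiv.mul_apply, h1, map_smul, ha, smul_smul, pow_succ]
    · rw [pow_succ', LinearEquiv.mul_apply, h2, map_add, map_smul, map_smul, ha, hb, smul_add,
        smul_smul, smul_smul, smul_smul, pow_succ', add_assoc, ← add_smul]
      congr 1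
      · rw [mul_comm]
      · rw [add_comm, mul_comm k']
    · rw [h]
      have := h3 h
      push_cast
      rw [pow_succ]
      linear_combination lam * this

theorem exists_basis_two {a : Fin 2 → K} (ha : a ≠ 0) :
    ∃ b : Fin 2 → K, (∀ v, ∃ r s : K, v = r • a + s • b) ∧ (∀ r s : K, r • a + s • b = 0 → r = 0 ∧ s = 0) := by
  obtain ⟨b, hb⟩ := exists_linearIndependent_pair_of_one_lt_finrank
    (R := K) (M := Fin 2 → K) (by rw [Module.finrank_fin_fun]; norm_num) ha
  refine ⟨b, fun v => ?_, fun r s h => LinearIndependent.pair_iff.1 hb r s h⟩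
  let B := basisOfLinearIndependentOfCardEqFinrank hb (by simp)
  have h := B.sum_repr v
  refine ⟨B.repr v 0, B.repr v 1, ?_⟩
  rw [Fin.sum_univ_two] at h
  simp only [B, coe_basisOfLinearIndependentOfCardEqFinrank, Matrix.cons_val_zero, Matrix.cons_val_one] at h
  exact h.symm

/-- A finite group of `2 × 2` matrices of order prime to the characteristic: at most two lines, or
at most twelve, can have stabilisers with large projective image. -/
theorem line_bound (R : Subgroup ((Fin 2 → K) ≃ₗ[K] (Fin 2 → K))) [Finite R] (hR : (Nat.card R : K) ≠ 0)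
    {ι : Type*} [Finite ι] (u : ι → Fin 2 → K) (hu : ∀ i, u i ≠ 0)
    (hind : ∀ i j, ∀ c : K, u j = c • u i → i = j) (e : ℕ) (he4 : 4 ≤ e)
    (helt : ∀ i, ∃ g ∈ R, ∃ (v : Fin 2 → K) (t k : K), (∀ c : K, v ≠ c • u i) ∧ g (u i) = t⁻¹ • u i ∧
      g v = t ^ 2 • v + k • u i ∧ t ≠ 0 ∧ e ≤ orderOf (t ^ 3)) :
    Nat.card ι ≤ 12 ∧ (6 ≤ e → Nat.card ι ≤ 2) := by
  let V := Fin 2 → K
  let Φ : R →* Equiv.Perm (ℙ K V) :=
    { toFun := fun g =>
        { toFun := Projectivization.map (g.1 : V ≃ₗ[K] V).toLinearMap g.1.injective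
          invFun := Projectivization.map (g.1 : V ≃ₗ[K] V).symm.toLinearMap g.1.symm.injective
          left_inv := fun x => by
            induction x using Projectivization.ind with
            | h v hv => simp [Projectivization.map_mk]
          right_inv := fun x => by
            induction x using Projectivization.ind with
            | h v hv => simp [Projectivization.map_mk] }
      map_one' := Equiv.ext fun x => by
        induction x using Projectivization.ind with
        | h v hv => simp [Projectivization.map_mk]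
      map_mul' := fun g g' => Equiv.ext fun x => by
        induction x using Projectivization.ind with
        | h v hv => rfl }
  have happ : ∀ (g : R) (v : V) (hv : v ≠ 0), Φ g (Projectivization.mk K v hv) =
      Projectivization.mk K (g.1 v) (fun h => hv (g.1.injective (h.trans (map_zero g.1).symm))) :=
    fun g v hv => rfl
  have hscal : ∀ (g : R) (c : K), (∀ v, g.1 v = c • v) → Φ g = 1 := by
    intro g c hc
    refine Equiv.ext fun x => ?_
    induction x using Projectivization.ind with
    | h v hv =>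
      rw [happ, Equiv.Perm.one_apply, Projectivization.mk_eq_mk_iff']
      exact ⟨c, (hc v).symm⟩
  have hfixed : ∀ (g : R) (v : V) (hv : v ≠ 0), Φ g (Projectivization.mk K v hv) = Projectivization.mk K v hv ↔
      ∃ c : K, g.1 v = c • v := fun g v hv => by
    rw [happ, Projectivization.mk_eq_mk_iff']
    exact ⟨fun ⟨c, hc⟩ => ⟨c, hc.symm⟩, fun ⟨c, hc⟩ => ⟨c, hc.symm⟩⟩
  have hfix : ∀ w : Φ.range, w ≠ 1 → Set.ncard {x : ℙ K V | w • x = x} = 2 := by
    rintro ⟨w, g, rfl⟩ hw
    have hns : ¬ ∃ c : K, ∀ v, g.1 v = c • v := fun ⟨c, hc⟩ => hw (Subtype.ext (hscal g c hc))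
    obtain ⟨lam, hlam⟩ := Module.End.exists_eigenvalue (g.1 : V ≃ₗ[K] V).toLinearMap
    obtain ⟨a, ha⟩ := hlam.exists_hasEigenvector
    have haa : g.1 a = lam • a := ha.apply_eq_smul
    obtain ⟨b, hspan, hli⟩ := exists_basis_two ha.2
    obtain ⟨k, mu, hb⟩ := hspan (g.1 b)
    rw [add_comm] at hb
    have hlm : mu ≠ lam := by
      intro h
      obtain ⟨h1, k', h2, h3⟩ := pow_triangular g.1 haa hb (Nat.card R)
      have hg : g.1 ^ Nat.card R = 1 := by
        rw [← SubmonoidClass.coe_pow, pow_card_eq_one']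
        rfl
      rw [hg, show (1 : V ≃ₗ[K] V) a = a from rfl] at h1
      rw [hg, show (1 : V ≃ₗ[K] V) b = b from rfl] at h2
      have e1 : lam ^ Nat.card R = 1 := by
        have : (lam ^ Nat.card R - 1) • a = 0 := by rw [sub_smul, one_smul, ← h1, sub_self]
        exact sub_eq_zero.1 ((smul_eq_zero.1 this).resolve_right ha.2)
      have e2 := hli k' (mu ^ Nat.card R - 1) (by rw [sub_smul, one_smul, add_comm, sub_add_eq_add_sub, ← h2, sub_self])
      have e3 := h3 h
      rw [e2.1, zero_mul, e1, mul_one, eq_comm, mul_eq_zero] at e3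
      refine hns ⟨lam, fun v => ?_⟩
      obtain ⟨r, s, rfl⟩ := hspan v
      rw [map_add, map_smul, map_smul, haa, hb, e3.resolve_left hR, h, zero_smul, add_zero, smul_add,
        smul_comm, smul_comm s]
    set b' := b + (k / (mu - lam)) • a with hb'
    have hbb : g.1 b' = mu • b' := by
      rw [hb', map_add, map_smul, haa, hb, smul_add, smul_smul, smul_smul, add_assoc, ← add_smul]
      congr 2
      field_simp [sub_ne_zero.2 hlm]
      ring
    have hb0 : b' ≠ 0 := fun h => one_ne_zero (hli (k / (mu - lam)) 1 (by rw [one_smul, add_comm]; exact h)).2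
    have hne : Projectivization.mk K a ha.2 ≠ Projectivization.mk K b' hb0 := by
      rw [Ne, Projectivization.mk_eq_mk_iff']
      rintro ⟨c, hc⟩
      have h := hli (c * (k / (mu - lam)) - 1) c (by
        rw [sub_smul, one_smul, sub_add_eq_add_sub, add_comm, sub_eq_zero, ← smul_smul, ← smul_add]
        exact hc)
      rw [h.2, zero_mul, zero_sub, neg_eq_zero] at h
      exact one_ne_zero h.1
    rw [Set.ncard_eq_two]
    refine ⟨_, _, hne, Set.ext fun x => ?_⟩
    induction x using Projectivization.ind with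
    | h v hv =>
      show Φ g _ = _ ↔ _
      rw [hfixed]
      constructor
      · rintro ⟨c, hc⟩
        obtain ⟨r₀, s, rfl⟩ := hspan v
        have hv' : r₀ • a + s • b = (r₀ - s * (k / (mu - lam))) • a + s • b' := by
          rw [hb', smul_add, smul_smul, sub_smul]; abel
        set r := r₀ - s * (k / (mu - lam)) with hr
        have hc' : (r * (lam - c)) • a + (s * (mu - c)) • b' = 0 := by
          rw [hv', map_add, map_smul, map_smul, haa, hbb, ← sub_eq_zero] at hc
          rw [← hc]
          simp only [mul_sub, sub_smul, smul_smul, smul_add, mul_comm c]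
          abel
        have h2 := hli (r * (lam - c) + s * (mu - c) * (k / (mu - lam))) (s * (mu - c)) (by
          rw [← hc', hb', smul_add, smul_smul, add_smul]; abel)
        have e2 := h2.2
        have e1 := h2.1
        rw [e2, zero_mul, add_zero] at e1
        rcases mul_eq_zero.1 e2 with hs | hs
        · left
          rw [Projectivization.mk_eq_mk_iff']
          exact ⟨r₀, by rw [hs, zero_smul, add_zero]⟩
        · rcases mul_eq_zero.1 e1 with hr0 | hr0
          · right
            rw [Set.mem_singleton_iff, Projectivization.mk_eq_mk_iff']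
            exact ⟨s, by rw [hv', hr0, zero_smul, zero_add]⟩
          · exact absurd (by linear_combination hs - hr0) hlm
      · rintro (h | h) <;>
          [skip; rw [Set.mem_singleton_iff] at h] <;>
          obtain ⟨c, hc⟩ := (Projectivization.mk_eq_mk_iff' K _ _ _ _).1 h
        · exact ⟨lam, by rw [← hc, map_smul, haa, smul_comm]⟩
        · exact ⟨mu, by rw [← hc, map_smul, hbb, smul_comm]⟩
  haveI : Finite Φ.range := Finite.of_surjective _ Φ.rangeRestrict_surjective
  refine stab_bound hfix (fun i => Projectivization.mk K (u i) (hu i)) (fun i j h => ?_) e he4 fun i => ?_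
  · obtain ⟨c, hc⟩ := (Projectivization.mk_eq_mk_iff' K _ _ _ _).1 h.symm
    exact hind i j c hc.symm
  · obtain ⟨g, hg, v, t, k, hv, h1, h2, ht, hord⟩ := helt i
    set w : Φ.range := ⟨Φ ⟨g, hg⟩, _, rfl⟩
    have hw : w ∈ stabilizer Φ.range (Projectivization.mk K (u i) (hu i)) :=
      mem_stabilizer_iff.2 ((hfixed ⟨g, hg⟩ _ _).2 ⟨t⁻¹, h1⟩)
    refine hord.trans (le_trans ?_ (Nat.le_of_dvd Nat.card_pos (Subgroup.orderOf_dvd_natCard _ hw)))
    refine Nat.le_of_dvd (orderOf_pos _) (orderOf_dvd_of_pow_eq_one ?_)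
    set n := orderOf w
    have hn : Φ (⟨g, hg⟩ ^ n) = 1 := by
      rw [map_pow]
      exact congrArg Subtype.val (pow_orderOf_eq_one w)
    obtain ⟨p1, k', p2, -⟩ := pow_triangular g h1 h2 n
    have hsum : u i + v ≠ 0 := fun h => hv (-1) (by rw [neg_one_smul]; exact (eq_neg_of_add_eq_zero_right h))
    have hv0 : v ≠ 0 := fun h => hv 0 (by rw [h, zero_smul])
    obtain ⟨c1, hc1⟩ := (hfixed (⟨g, hg⟩ ^ n) v hv0).1 (by rw [hn]; rfl)
    obtain ⟨c2, hc2⟩ := (hfixed (⟨g, hg⟩ ^ n) (u i + v) hsum).1 (by rw [hn]; rfl)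
    rw [SubmonoidClass.coe_pow] at hc1 hc2
    rw [map_add, p1, hc1] at hc2
    have hz : ∀ r s : K, r • u i + s • v = 0 → r = 0 ∧ s = 0 := by
      intro r s h
      by_cases hs : s = 0
      · subst hs
        rw [zero_smul, add_zero, smul_eq_zero] at h
        exact ⟨h.resolve_right (hu i), rfl⟩
      · refine absurd ?_ (hv (-(r / s)))
        rw [eq_neg_of_add_eq_zero_right h |> fun e => show v = s⁻¹ • (s • v) from (inv_smul_smul₀ hs v).symm,
          eq_neg_of_add_eq_zero_right h, smul_neg, smul_smul, neg_smul, div_eq_inv_mul]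
    have e1 := hz (t⁻¹ ^ n - c2) (c1 - c2) (by
      rw [sub_smul, sub_smul, sub_add_sub_comm, hc2, smul_add, sub_self])
    have e2 := hz k' ((t ^ 2) ^ n - c1) (by
      rw [sub_smul, add_comm, sub_add_eq_add_sub, ← p2, hc1, sub_self])
    have e3 : (t ^ 2) ^ n = t⁻¹ ^ n := by linear_combination e2.2 + e1.2 - e1.1
    calc (t ^ 3) ^ n = (t ^ 2) ^ n * t ^ n := by rw [← mul_pow]; ring
      _ = 1 := by rw [e3, ← mul_pow, inv_mul_cancel₀ ht, one_pow]

end Cfsg.Agent.Core.PlaneCount
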