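/-
A Sylow subgroup that is extraspecial of order p³ and exponent p: the lines of its central quotient
whose planes carry a transvection not fixing the centre.
-/
import Cfsg.Agent.Core.PlaneCount
import Cfsg.Prelude.Def_Transfer
import Mathlib

set_option autoImplicit false
set_option linter.unusedSectionVars false
set_option linter.style.haveILetI false

namespace Cfsg.Agent.Core.ExtraspecialPlane

open Subgroup
open scoped commutatorElement

variable {p : ℕ} [hp : Fact p.Prime]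

theorem pow_val_add {H : Type*} [Monoid H] {z : H} (hz : z ^ p = 1) (a b : ZMod p) :
    z ^ (a + b).val = z ^ a.val * z ^ b.val := by
  rw [← pow_add, ZMod.val_add, ← pow_eq_pow_mod _ hz]

theorem pow_val_mul {H : Type*} [Monoid H] {z : H} (hz : z ^ p = 1) (a b : ZMod p) :
    z ^ (a * b).val = (z ^ a.val) ^ b.val := by
  rw [← pow_mul, ZMod.val_mul, ← pow_eq_pow_mod _ hz]

theorem pow_val_natCast {H : Type*} [Monoid H] {z : H} (hz : z ^ p = 1) (n : ℕ) :
    z ^ (n : ZMod p).val = z ^ n := by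
  rw [ZMod.val_natCast, ← pow_eq_pow_mod _ hz]

variable {G : Type*} [Group G]

structure Frame (p : ℕ) (z x : G) : Prop where
  zp : z ^ p = 1
  xp : x ^ p = 1
  comm : Commute z x

def ev (z x : G) (a c : ZMod p) : G := z ^ a.val * x ^ c.val

variable {z x : G}

theorem ev_add (F : Frame p z x) (a c a' c' : ZMod p) :
    ev z x (a + a') (c + c') = ev z x a c * ev z x a' c' := by
  unfold ev
  rw [pow_val_add F.zp, pow_val_add F.xp]
  exact (F.comm.pow_pow _ _).mul_mul_mul_comm _ _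

theorem ev_smul (F : Frame p z x) (a c b : ZMod p) :
    ev z x (a * b) (c * b) = ev z x a c ^ b.val := by
  unfold ev
  rw [pow_val_mul F.zp, pow_val_mul F.xp, (F.comm.pow_pow _ _).mul_pow]

theorem ev_one_zero : ev (p := p) z x 1 0 = z := by
  haveI : Fact (1 < p) := ⟨hp.out.one_lt⟩
  simp [ev, ZMod.val_one]

theorem ev_zero_one : ev (p := p) z x 0 1 = x := by
  haveI : Fact (1 < p) := ⟨hp.out.one_lt⟩
  simp [ev, ZMod.val_one]

def Acts (z x g : G) (α β γ δ : ZMod p) : Prop :=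
  g * z * g⁻¹ = ev z x α β ∧ g * x * g⁻¹ = ev z x γ δ

theorem Acts.conj_ev (F : Frame p z x) {g : G} {α β γ δ : ZMod p} (h : Acts z x g α β γ δ) (a c : ZMod p) :
    g * ev z x a c * g⁻¹ = ev z x (α * a + γ * c) (β * a + δ * c) := by
  rw [ev_add F, ev_smul F, ev_smul F, ← h.1, ← h.2, conj_pow, conj_pow, conj_mul]
  rfl

theorem Acts.mul (F : Frame p z x) {g g' : G} {α β γ δ α' β' γ' δ' : ZMod p}
    (h : Acts z x g α β γ δ) (h' : Acts z x g' α' β' γ' δ') :
    Acts z x (g * g') (α * α' + γ * β') (β * α' + δ * β') (α * γ' + γ * δ') (β * γ' + δ * δ') := by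
  constructor
  · rw [← h.conj_ev F, ← h'.1]; group
  · rw [← h.conj_ev F, ← h'.2]; group

theorem Acts.one : Acts (p := p) z x 1 1 0 0 1 := by
  simp [Acts, ev_one_zero, ev_zero_one]

theorem Acts.pow_U (F : Frame p z x) {g : G} {i : ZMod p} (h : Acts z x g 1 0 i 1) :
    ∀ n : ℕ, Acts z x (g ^ n) 1 0 ((n : ZMod p) * i) 1 := by
  intro n
  induction n with
  | zero => simpa using Acts.one
  | succ n ih =>
    have := h.mul F ih
    rw [← pow_succ'] at this
    push_cast
    ring_nf at this ⊢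
    exact this

theorem Acts.pow_L (F : Frame p z x) {g : G} {j : ZMod p} (h : Acts z x g 1 j 0 1) :
    ∀ n : ℕ, Acts z x (g ^ n) 1 ((n : ZMod p) * j) 0 1 := by
  intro n
  induction n with
  | zero => simpa using Acts.one
  | succ n ih =>
    have := h.mul F ih
    rw [← pow_succ'] at this
    push_cast
    ring_nf at this ⊢
    exact this

theorem Acts.inv_diag (F : Frame p z x) {d : G} {t t' u u' : ZMod p} (h : Acts z x d t 0 0 u)
    (ht : t * t' = 1) (hu : u * u' = 1) : Acts z x d⁻¹ t' 0 0 u' := by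
  have h1 := h.conj_ev F t' 0
  have h2 := h.conj_ev F 0 u'
  simp only [mul_zero, zero_mul, add_zero, zero_add, ht, hu, ev_one_zero, ev_zero_one] at h1 h2
  constructor
  · nth_rewrite 1 [← h1]; group
  · nth_rewrite 1 [← h2]; group

theorem exists_U (F : Frame p z x) {g : G} {i : ZMod p} (hi : i ≠ 0) (h : Acts z x g 1 0 i 1) (s : ZMod p) :
    ∃ g' : G, Acts z x g' 1 0 s 1 :=
  ⟨g ^ (s / i).val, by
    have := h.pow_U F (s / i).val
    rwa [ZMod.natCast_zmod_val, div_mul_cancel₀ s hi] at this⟩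

theorem exists_L (F : Frame p z x) {g : G} {j : ZMod p} (hj : j ≠ 0) (h : Acts z x g 1 j 0 1) (s : ZMod p) :
    ∃ g' : G, Acts z x g' 1 s 0 1 :=
  ⟨g ^ (s / j).val, by
    have := h.pow_L F (s / j).val
    rwa [ZMod.natCast_zmod_val, div_mul_cancel₀ s hj] at this⟩

theorem exists_diag (F : Frame p z x) {g g' : G} {i j : ZMod p} (hi : i ≠ 0) (hj : j ≠ 0)
    (h : Acts z x g 1 0 i 1) (h' : Acts z x g' 1 j 0 1) (t : ZMod p) (ht : t ≠ 0) :
    ∃ d : G, Acts z x d t 0 0 t⁻¹ := by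
  obtain ⟨a, ha⟩ := exists_U F hi h t
  obtain ⟨b, hb⟩ := exists_L F hj h' (-t⁻¹)
  obtain ⟨a', ha'⟩ := exists_U F hi h (-1)
  obtain ⟨b', hb'⟩ := exists_L F hj h' 1
  refine ⟨a * b * a * (a' * b' * a'), ?_⟩
  have := ((ha.mul F hb).mul F ha).mul F ((ha'.mul F hb').mul F ha')
  field_simp at this
  ring_nf at this ⊢
  exact this

variable [Finite G]

/-- The elements fixing `z` and the coset `x⟨z⟩` form a subgroup. -/
def fixSubgroup (F : Frame p z x) : Subgroup G where
  carrier := {g | ∃ s : ZMod p, Acts z x g 1 0 s 1}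
  mul_mem' := by
    rintro g g' ⟨s, h⟩ ⟨s', h'⟩
    refine ⟨s' + s, ?_⟩
    simpa using h.mul F h'
  one_mem' := ⟨0, Acts.one⟩
  inv_mem' := by
    rintro g ⟨s, h⟩
    refine ⟨_, (show g⁻¹ = g ^ (orderOf g - 1) from ?_) ▸ h.pow_U F (orderOf g - 1)⟩
    rw [inv_eq_iff_mul_eq_one, ← pow_succ', Nat.sub_add_cancel (orderOf_pos g), pow_orderOf_eq_one]

theorem exists_normalizer_diag (F : Frame p z x) (P : Sylow p G)
    (hP : ∀ u ∈ P, ∃ s : ZMod p, Acts z x u 1 0 s 1) {π : G} (hπ : π ∈ P) {g' : G} {i j : ZMod p}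
    (hi : i ≠ 0) (hj : j ≠ 0) (h : Acts z x π 1 0 i 1) (h' : Acts z x g' 1 j 0 1)
    (t : ZMod p) (ht : t ≠ 0) :
    ∃ h ∈ normalizer (P : Set G), ∃ s : ZMod p, Acts z x h t 0 s t⁻¹ := by
  obtain ⟨d, hd⟩ := exists_diag F hi hj h h' t ht
  set S := fixSubgroup F
  have hPS : (P : Subgroup G) ≤ S := hP
  have hdS : ((d • P : Sylow p G) : Subgroup G) ≤ S := by
    rintro v hv
    obtain ⟨u, hu, rfl⟩ := Subgroup.mem_map.1 hv
    obtain ⟨s, hs⟩ := hP u hu
    refine ⟨t * t * s, ?_⟩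
    have := (hd.mul F hs).mul F (hd.inv_diag F (mul_inv_cancel₀ ht) (inv_mul_cancel₀ ht))
    simp [ht] at this
    rw [mul_assoc t t s, mul_left_comm t t s, mul_comm t (t * s)]
    exact this
  obtain ⟨b, hb⟩ := MulAction.exists_smul_eq S ((d • P).subtype hdS) (P.subtype hPS)
  rw [Sylow.smul_subtype] at hb
  have hb' : ((b : G) * d) • P = P := by
    rw [mul_smul]
    exact Sylow.subtype_injective hb
  refine ⟨(b : G) * d, Sylow.smul_eq_iff_mem_normalizer.1 hb', ?_⟩
  obtain ⟨s, hs⟩ := b.2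
  exact ⟨s * t⁻¹, by simpa using hs.mul F hd⟩

theorem exists_coordsK {K A : Type*} [Field K] [Finite K] [AddCommGroup A] [Module K A] [Finite A]
    (hc : Nat.card A = Nat.card K ^ 2) : Nonempty (A ≃+ (Fin 2 → K)) := by
  haveI : Module.Finite K A := Module.Finite.of_finite
  rw [Module.natCard_eq_pow_finrank (K := K)] at hc
  have hfr : Module.finrank K A = 2 := Nat.pow_right_injective Finite.one_lt_card hc
  exact ⟨(Module.finBasisOfFinrankEq K A hfr).equivFun.toAddEquiv⟩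

theorem exists_coords {A : Type*} [AddCommGroup A] [Finite A] (hA : ∀ a : A, p • a = 0)
    (hc : Nat.card A = p ^ 2) : Nonempty (A ≃+ (Fin 2 → ZMod p)) := by
  refine @exists_coordsK (ZMod p) A _ _ _ (AddCommGroup.zmodModule hA) _ ?_
  rw [Nat.card_zmod, hc]

/-- Coordinates on the central quotient. -/
theorem setup (P : Sylow p G) (hE : Cfsg.IsExtraspecial p ↥P) (hcard : Nat.card P = p ^ 3)
    (hexp : Monoid.exponent ↥P = p) :
    ∃ (z : ↥P) (φ : ↥P →* Multiplicative (Fin 2 → ZMod p)),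
      z ≠ 1 ∧ zpowers z = center ↥P ∧ Function.Surjective φ ∧ φ.ker = center ↥P := by
  obtain ⟨⟨-, -, hder⟩, hZ⟩ := hE
  obtain ⟨z, hz, hz1⟩ : ∃ z ∈ center ↥P, z ≠ 1 := by
    by_contra hcon
    push Not at hcon
    rw [(eq_bot_iff_forall _).2 hcon, Subgroup.card_bot] at hZ
    exact hp.out.one_lt.ne hZ
  have hpow : ∀ u : ↥P, u ^ p = 1 := fun u => by
    have h := Monoid.pow_exponent_eq_one u; rwa [hexp] at h
  have hzz : zpowers z = center ↥P := by
    refine Subgroup.eq_of_le_of_card_ge (zpowers_le.2 hz) ?_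
    rw [hZ, Nat.card_zpowers, orderOf_eq_prime (hpow z) hz1]
  let Q := Abelianization ↥P
  have hof : Function.Surjective (Abelianization.of : ↥P →* Q) := QuotientGroup.mk_surjective
  have hcQ : Nat.card (Additive Q) = p ^ 2 := by
    have h := card_eq_card_quotient_mul_card_subgroup (_root_.commutator ↥P)
    rw [show Nat.card ↥P = p ^ 3 from hcard, hder, hZ, pow_succ] at h
    rw [show Nat.card (Additive Q) = Nat.card (↥P ⧸ _root_.commutator ↥P) from rfl, hder]
    exact (Nat.eq_of_mul_eq_mul_right hp.out.pos h).symm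
  haveI : Finite (Additive Q) := inferInstanceAs (Finite Q)
  obtain ⟨B⟩ := exists_coords (A := Additive Q) (fun a => by
    obtain ⟨u, hu⟩ := hof (Additive.toMul a)
    apply Additive.toMul.injective
    rw [toMul_nsmul, toMul_zero, ← hu, ← map_pow, hpow, map_one]) hcQ
  refine ⟨z, (AddMonoidHom.toMultiplicativeRight B.toAddMonoidHom).comp
    Abelianization.of, hz1, hzz, fun w => ?_, ?_⟩
  · obtain ⟨u, hu⟩ := hof (Additive.toMul (B.symm w.toAdd))
    refine ⟨u, ?_⟩
    show Multiplicative.ofAdd (B (Additive.ofMul (Abelianization.of u))) = w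
    rw [hu, ofMul_toMul, AddEquiv.apply_symm_apply, ofAdd_toAdd]
  · ext u
    rw [MonoidHom.mem_ker]
    show Multiplicative.ofAdd (B (Additive.ofMul (Abelianization.of u))) = 1 ↔ _
    rw [ofAdd_eq_one, AddEquiv.map_eq_zero_iff, ofMul_eq_zero, ← MonoidHom.mem_ker, Abelianization.ker_of, hder]

variable {P : Sylow p G} (φ : ↥P →* Multiplicative (Fin 2 → ZMod p))

theorem map_pow_val (u : ↥P) (c : ZMod p) : (φ (u ^ c.val)).toAdd = c • (φ u).toAdd := by
  rw [map_pow, toAdd_pow, ← Nat.cast_smul_eq_nsmul (ZMod p), ZMod.natCast_zmod_val]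

theorem ev_coe (z x : ↥P) (a c : ZMod p) : ev (z : G) x a c = ((z ^ a.val * x ^ c.val : ↥P) : G) := rfl

theorem exists_pow_val {H : Type*} [Group H] [Finite H] {z w : H} (hz : z ^ p = 1) (hw : w ∈ zpowers z) :
    ∃ a : ZMod p, z ^ a.val = w := by
  obtain ⟨n, rfl⟩ := (mem_powers_iff_mem_zpowers.2 hw)
  exact ⟨(n : ZMod p), pow_val_natCast hz n⟩

set_option maxHeartbeats 800000 in
/-- The count. -/
theorem bound (hexp : Monoid.exponent ↥P = p) (z : ↥P) (hz1 : z ≠ 1) (hzz : zpowers z = center ↥P)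
    (hφ : Function.Surjective φ) (hker : φ.ker = center ↥P)
    {ι : Type} [Finite ι] (x : ι → ↥P) (hx : ∀ i, φ (x i) ≠ 1)
    (hind : ∀ i j (c : ZMod p), φ (x j) = φ (x i ^ c.val) → i = j)
    (hg : ∀ i, ∃ (g : G) (j : ZMod p), j ≠ 0 ∧ g * (x i : G) * g⁻¹ = x i ∧
      g * (z : G) * g⁻¹ = z * (x i : G) ^ j.val)
    (he4 : 4 ≤ (p - 1) / Nat.gcd (p - 1) 3) :
    Nat.card ι ≤ 12 ∧ (6 ≤ (p - 1) / Nat.gcd (p - 1) 3 → Nat.card ι ≤ 2) := by
  classical
  have hpow : ∀ u : ↥P, u ^ p = 1 := fun u => by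
    have h := Monoid.pow_exponent_eq_one u; rwa [hexp] at h
  have hzc : z ∈ center ↥P := hzz ▸ mem_zpowers z
  have hφz : ∀ a : ℕ, φ (z ^ a) = 1 := fun a => MonoidHom.mem_ker.1 (hker ▸ pow_mem hzc a)
  set N : Subgroup G := normalizer (P : Set G)
  have hPN : (P : Subgroup G) ≤ N := le_normalizer
  have hmem : ∀ (n : N) (u : ↥P), (n : G) * u * (n : G)⁻¹ ∈ P := fun n u =>
    (mem_normalizer_iff.1 n.2 _).1 u.2
  let cj : N → ↥P →* ↥P := fun n =>
    { toFun := fun u => ⟨(n : G) * u * (n : G)⁻¹, hmem n u⟩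
      map_one' := Subtype.ext (by simp)
      map_mul' := fun u v => Subtype.ext (by simp) }
  have hcj : ∀ n : N, φ.ker ≤ (φ.comp (cj n)).ker := by
    intro n u hu
    rw [hker] at hu
    rw [MonoidHom.mem_ker, MonoidHom.comp_apply, ← MonoidHom.mem_ker, hker, mem_center_iff]
    intro v
    have h1 := mem_center_iff.1 hu ⟨(n⁻¹ : N) * v * ((n⁻¹ : N) : G)⁻¹, hmem n⁻¹ v⟩
    have h2 := congrArg (fun w : ↥P => (n : G) * w * (n : G)⁻¹) h1
    refine Subtype.ext ?_
    simpa [cj, mul_assoc] using h2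
  let L : N → (Fin 2 → ZMod p) →ₗ[ZMod p] (Fin 2 → ZMod p) := fun n =>
    (AddMonoidHom.toMultiplicative.symm (φ.liftOfSurjective hφ ⟨φ.comp (cj n), hcj n⟩)).toZModLinearMap p
  have hL : ∀ (n : N) (u : ↥P), L n (φ u).toAdd = (φ (cj n u)).toAdd := fun n u =>
    congrArg Multiplicative.toAdd
      (MonoidHom.liftOfRightInverse_comp_apply φ _ _ ⟨φ.comp (cj n), hcj n⟩ u)
  have hL1 : L 1 = LinearMap.id := LinearMap.ext fun w => by
    obtain ⟨u, hu⟩ := hφ (Multiplicative.ofAdd w)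
    rw [show w = (φ u).toAdd by rw [hu]; rfl, hL, LinearMap.id_apply]
    congr 2
    exact Subtype.ext (by simp [cj])
  have hLm : ∀ n n', L (n * n') = (L n).comp (L n') := fun n n' => LinearMap.ext fun w => by
    obtain ⟨u, hu⟩ := hφ (Multiplicative.ofAdd w)
    rw [show w = (φ u).toAdd by rw [hu]; rfl, hL, LinearMap.comp_apply, hL, hL]
    congr 2
    exact Subtype.ext (by simp [cj, mul_assoc])
  let K := AlgebraicClosure (ZMod p)
  haveI : CharP K p := charP_of_injective_algebraMap (algebraMap (ZMod p) K).injective p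
  let f := algebraMap (ZMod p) K
  let M : N →* Module.End K (Fin 2 → K) :=
    { toFun := fun n => Matrix.toLin' ((LinearMap.toMatrix' (L n)).map f)
      map_one' := by
        rw [hL1, LinearMap.toMatrix'_id, Matrix.map_one f (map_zero f) (map_one f), Matrix.toLin'_one]
        rfl
      map_mul' := fun n n' => by
        rw [hLm, LinearMap.toMatrix'_comp, Matrix.map_mul, Matrix.toLin'_mul]
        rfl }
  let ρ : N →* ((Fin 2 → K) ≃ₗ[K] (Fin 2 → K)) :=
    (LinearMap.GeneralLinearGroup.generalLinearEquiv K (Fin 2 → K)).toMonoidHom.comp M.toHomUnits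
  have hρ : ∀ (n : N) (u : ↥P), ρ n (f ∘ (φ u).toAdd) = f ∘ (φ (cj n u)).toAdd := by
    intro n u
    show Matrix.toLin' ((LinearMap.toMatrix' (L n)).map f) (f ∘ (φ u).toAdd) = _
    rw [Matrix.toLin'_apply, ← hL]
    funext k
    rw [← RingHom.map_mulVec]
    simp [LinearMap.toMatrix'_mulVec]
  haveI : Finite ρ.range := Finite.of_surjective _ ρ.rangeRestrict_surjective
  have hR : (Nat.card ρ.range : K) ≠ 0 := by
    rw [Ne, CharP.cast_eq_zero_iff K p, ← Subgroup.index_ker]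
    intro hdvd
    refine (P.subtype hPN).not_dvd_index (hdvd.trans (index_dvd_of_le ?_))
    intro n hn
    have hn' : (n : G) ∈ P := hn
    have hid : L n = LinearMap.id := LinearMap.ext fun w => by
      obtain ⟨u, hu⟩ := hφ (Multiplicative.ofAdd w)
      rw [show w = (φ u).toAdd by rw [hu]; rfl, hL, LinearMap.id_apply]
      rw [show cj n u = ⟨n, hn'⟩ * u * ⟨n, hn'⟩⁻¹ from Subtype.ext rfl]
      simp only [map_mul, map_inv, mul_comm (φ ⟨n, hn'⟩) (φ u), mul_inv_cancel_right]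
    refine MonoidHom.mem_ker.2 (LinearEquiv.ext fun v => ?_)
    show Matrix.toLin' ((LinearMap.toMatrix' (L n)).map f) v = v
    rw [hid, LinearMap.toMatrix'_id, Matrix.map_one f (map_zero f) (map_one f), Matrix.toLin'_one]
    rfl
  -- independence of the marked vectors
  have hscal : ∀ (a b : Fin 2 → ZMod p) (c : K), a ≠ 0 → f ∘ b = c • (f ∘ a) → ∃ c₀ : ZMod p, b = c₀ • a := by
    intro a b c ha h
    obtain ⟨k, hk⟩ := Function.ne_iff.1 ha
    have hk' : f (a k) ≠ 0 := (map_ne_zero f).2 hk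
    have hc : c = f (b k / a k) := by
      rw [map_div₀, eq_div_iff hk']
      exact (congrFun h k).symm
    refine ⟨b k / a k, funext fun l => f.injective ?_⟩
    have := congrFun h l
    simpa [hc] using this
  have hx' : ∀ i, (φ (x i)).toAdd ≠ 0 := fun i h => hx i (Multiplicative.toAdd.injective h)
  refine PlaneCount.line_bound ρ.range hR (fun i => f ∘ (φ (x i)).toAdd) (fun i h => hx' i ?_) ?_ _ he4 ?_
  · exact funext fun k => f.injective ((congrFun h k).trans (map_zero f).symm)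
  · intro i j c h
    obtain ⟨c₀, hc₀⟩ := hscal _ _ c (hx' i) h
    exact hind i j c₀ (Multiplicative.toAdd.injective (by rw [map_pow_val, hc₀]))
  intro i
  obtain ⟨g', j, hj, hgx, hgz⟩ := hg i
  have hF : Frame p (z : G) (x i : G) := ⟨by rw [← SubmonoidClass.coe_pow, hpow]; rfl,
    by rw [← SubmonoidClass.coe_pow, hpow]; rfl,
    (congrArg Subtype.val (mem_center_iff.1 hzc (x i))).symm⟩
  have hinj : ∀ a c a' c' : ZMod p, ev (z : G) (x i) a c = ev (z : G) (x i) a' c' → a = a' ∧ c = c' := by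
    intro a c a' c' h
    rw [ev_coe, ev_coe] at h
    have h' := Subtype.ext h
    have hc : c = c' := by
      have := congrArg (fun w => (φ w).toAdd) h'
      simp only [map_mul, hφz, one_mul, map_pow_val] at this
      exact smul_left_injective _ (hx' i) this
    rw [hc, mul_left_inj, pow_inj_mod, orderOf_eq_prime (hpow z) hz1,
      Nat.mod_eq_of_lt (ZMod.val_lt a), Nat.mod_eq_of_lt (ZMod.val_lt a')] at h'
    exact ⟨ZMod.val_injective p h', hc⟩
  have hP : ∀ u ∈ P, ∃ s : ZMod p, Acts (z : G) (x i) u 1 0 s 1 := by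
    intro u hu
    have hc : (⟨u, hu⟩ : ↥P) * x i * ⟨u, hu⟩⁻¹ * (x i)⁻¹ ∈ zpowers z := by
      rw [hzz, ← hker, MonoidHom.mem_ker]
      simp [mul_comm (φ ⟨u, hu⟩)]
    obtain ⟨s, hs⟩ := exists_pow_val (hpow z) hc
    refine ⟨s, ?_, ?_⟩
    · rw [ev_one_zero]
      exact congrArg Subtype.val (show (⟨u, hu⟩ : ↥P) * z * ⟨u, hu⟩⁻¹ = z by
        rw [mem_center_iff.1 hzc, mul_inv_cancel_right])
    · rw [ev_coe]
      refine congrArg Subtype.val (?_ : (⟨u, hu⟩ : ↥P) * x i * ⟨u, hu⟩⁻¹ = _)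
      haveI : Fact (1 < p) := ⟨hp.out.one_lt⟩
      rw [ZMod.val_one, pow_one, hs, inv_mul_cancel_right]
  obtain ⟨y, hy⟩ : ∃ y : ↥P, y * x i ≠ x i * y := by
    by_contra hcon
    push Not at hcon
    exact hx i (MonoidHom.mem_ker.1 (hker ▸ mem_center_iff.2 hcon))
  obtain ⟨i₀, hi₀⟩ := hP y y.2
  have hi : i₀ ≠ 0 := by
    rintro rfl
    have h := hi₀.2
    rw [ev_zero_one, mul_inv_eq_iff_eq_mul] at h
    exact hy (Subtype.ext h)
  have hg' : Acts (z : G) (x i) g' 1 j 0 1 := by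
    refine ⟨?_, by rw [ev_zero_one, hgx]⟩
    haveI : Fact (1 < p) := ⟨hp.out.one_lt⟩
    rw [hgz, ev, ZMod.val_one, pow_one]
  obtain ⟨tu, htu⟩ := IsCyclic.exists_generator (α := (ZMod p)ˣ)
  set t : ZMod p := (tu : ZMod p)
  have ht : t ≠ 0 := tu.ne_zero
  obtain ⟨h, hN, s, hh⟩ := exists_normalizer_diag hF P hP y.2 hi hj hi₀ hg' t ht
  have hx1 : cj ⟨h, hN⟩ (x i) = z ^ s.val * x i ^ (t⁻¹).val := Subtype.ext (by simpa [cj, ev] using hh.2)
  -- coordinates of the image of y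
  have hli : LinearIndependent (ZMod p) ![(φ (x i)).toAdd, (φ y).toAdd] := by
    refine (LinearIndependent.pair_iff' (hx' i)).2 fun c hc => hy ?_
    have hm : y * (x i ^ c.val)⁻¹ ∈ center ↥P := by
      rw [← hker, MonoidHom.mem_ker, map_mul, map_inv, mul_inv_eq_one]
      exact Multiplicative.toAdd.injective (by rw [map_pow_val, hc])
    have h1 : Commute (y * (x i ^ c.val)⁻¹) (x i) := (mem_center_iff.1 hm (x i)).symm
    have h2 := h1.mul_left (Commute.pow_self (x i) c.val)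
    rwa [inv_mul_cancel_right] at h2
  have hspan := hli.span_eq_top_of_card_eq_finrank (by simp)
  rw [Matrix.range_cons, Matrix.range_cons, Matrix.range_empty, Set.union_empty, Set.singleton_union] at hspan
  obtain ⟨k, dd, hkd⟩ := Submodule.mem_span_pair.1 (hspan ▸ Submodule.mem_top :
    (φ (cj ⟨h, hN⟩ y)).toAdd ∈ Submodule.span (ZMod p) {(φ (x i)).toAdd, (φ y).toAdd})
  obtain ⟨c, hc, hyy⟩ : ∃ c ∈ center ↥P, cj ⟨h, hN⟩ y = x i ^ k.val * y ^ dd.val * c := by
    refine ⟨(x i ^ k.val * y ^ dd.val)⁻¹ * cj ⟨h, hN⟩ y, ?_, (mul_inv_cancel_left _ _).symm⟩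
    rw [← hker, MonoidHom.mem_ker, map_mul, map_inv, inv_mul_eq_one]
    exact Multiplicative.toAdd.injective (by rw [map_mul, toAdd_mul, map_pow_val, map_pow_val, hkd])
  have hdd : dd = t ^ 2 := by
    have hxA : Acts (p := p) (z : G) (x i) ((x i : G) ^ k.val) 1 0 0 1 := by
      constructor
      · rw [ev_one_zero, (hF.comm.symm.pow_left _).eq, mul_inv_cancel_right]
      · rw [ev_zero_one, (Commute.pow_self _ _).eq, mul_inv_cancel_right]
    have hcA : Acts (p := p) (z : G) (x i) (c : G) 1 0 0 1 := by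
      have hc1 : ∀ w : ↥P, (c : G) * w * (c : G)⁻¹ = w := fun w => by
        rw [← show (w : G) * c = c * w from congrArg Subtype.val (mem_center_iff.1 hc w), mul_inv_cancel_right]
      exact ⟨by rw [ev_one_zero, hc1], by rw [ev_zero_one, hc1]⟩
    have hA := (hxA.mul hF (hi₀.pow_U hF dd.val)).mul hF hcA
    rw [ZMod.natCast_zmod_val] at hA
    simp only [mul_one, mul_zero, one_mul, zero_mul, add_zero, zero_add] at hA
    have e1 : (cj ⟨h, hN⟩ y : G) * ev (z : G) (x i) s t⁻¹ * (cj ⟨h, hN⟩ y : G)⁻¹ =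
        ev (z : G) (x i) (s + dd * i₀ * t⁻¹) t⁻¹ := by
      rw [hyy, show ((x i ^ k.val * y ^ dd.val * c : ↥P) : G) = (x i : G) ^ k.val * (y : G) ^ dd.val * c from rfl,
        hA.conj_ev hF]
      simp
    have e2 : (cj ⟨h, hN⟩ y : G) * ev (z : G) (x i) s t⁻¹ * (cj ⟨h, hN⟩ y : G)⁻¹ =
        ev (z : G) (x i) (t * i₀ + s) t⁻¹ := by
      show h * y * h⁻¹ * _ * (h * y * h⁻¹)⁻¹ = _
      rw [← hh.2, show h * (y : G) * h⁻¹ * (h * (x i : G) * h⁻¹) * (h * y * h⁻¹)⁻¹ =
        h * ((y : G) * (x i) * (y : G)⁻¹) * h⁻¹ by group, hi₀.2, hh.conj_ev hF]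
      simp
    have := (hinj _ _ _ _ (e1.symm.trans e2)).1
    field_simp at this
    apply mul_left_cancel₀ hi
    linear_combination this
  refine ⟨ρ ⟨h, hN⟩, ⟨_, rfl⟩, f ∘ (φ y).toAdd, f t, f k, ?_, ?_, ?_, (map_ne_zero f).2 ht, ?_⟩
  · intro c hc
    obtain ⟨c₀, hc₀⟩ := hscal _ _ c (hx' i) hc
    exact (LinearIndependent.pair_iff' (hx' i)).1 hli c₀ hc₀.symm
  · rw [hρ, hx1, map_mul, hφz, one_mul, map_pow_val]
    funext l
    simp
  · rw [hρ, ← hkd, hdd]
    funext l
    simp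
    ring
  · rw [← map_pow, show f (t ^ 3) = f.toMonoidHom (t ^ 3) from rfl,
      orderOf_injective f.toMonoidHom f.injective, ← Units.val_pow_eq_pow_val, orderOf_units,
      orderOf_pow, orderOf_eq_card_of_forall_mem_zpowers htu, Nat.card_eq_fintype_card,
      ZMod.card_units_eq_totient, Nat.totient_prime hp.out]

end Cfsg.Agent.Core.ExtraspecialPlane
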