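/-
Core library: converse of Hall's theorem.
-/
import Cfsg.Agent.Core.BurnsidePQ
import Cfsg.Agent.Core.HallSystem
import Cfsg.Agent.S0019

set_option autoImplicit false
set_option linter.style.haveILetI false

namespace Cfsg.Agent.Core

open Subgroup
open scoped Pointwise

universe u

theorem isSolvable_of_isCompl'_aux : ∀ (n : ℕ) {G : Type u} [Group G] [Finite G],
    Nat.card G = n → ∀ K : ℕ → Subgroup G, IsCompl' K → Group.IsSolvable G := by
  intro n
  induction n using Nat.strong_induction_on with
  | _ n ih =>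
  intro G _ _ hn K hK
  by_cases h2 : (Nat.card G).primeFactors.card ≤ 2
  · exact isSolvable_of_primeFactors_card_le_two h2
  obtain ⟨p, hp, q, hq, r, hr, hpq, hpr, hqr⟩ := Finset.two_lt_card.mp (not_le.mp h2)
  have hsol : ∀ p ∈ (Nat.card G).primeFactors, Group.IsSolvable (K p) := by
    intro p hp
    have hpp := Nat.prime_of_mem_primeFactors hp
    have hpe : 1 ≤ (Nat.card G).factorization p :=
      hpp.factorization_pos_of_dvd Nat.card_pos.ne' (Nat.dvd_of_mem_primeFactors hp)
    have hcard : Nat.card G = Nat.card (K p) * p ^ (Nat.card G).factorization p := by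
      rw [← hK p hpp, card_mul_index]
    have hfac : ∀ s : ℕ, (Nat.card G).factorization s = (Nat.card (K p)).factorization s +
        (Finsupp.single p ((Nat.card G).factorization p)) s := fun s => by
      conv_lhs => rw [hcard, Nat.factorization_mul Nat.card_pos.ne' (pow_ne_zero _ hpp.ne_zero),
        hpp.factorization_pow, Finsupp.add_apply]
    have hlt : Nat.card (K p) < n := by
      rw [← hn, hcard]
      exact lt_mul_of_one_lt_right Nat.card_pos (Nat.one_lt_pow (by omega) hpp.one_lt)
    refine ih _ hlt rfl (fun s => if s = p then ⊤ else (K s).subgroupOf (K p)) fun s hs => ?_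
    by_cases hsp : s = p
    · subst hsp
      have h0 : (Nat.card (K s)).factorization s = 0 := by
        have := hfac s
        rw [Finsupp.single_eq_same] at this
        omega
      simp only [↓reduceIte, index_top, h0, pow_zero]
    · have h0 : (Nat.card (K p)).factorization s = (Nat.card G).factorization s := by
        rw [hfac s, Finsupp.single_eq_of_ne hsp, add_zero]
      simp only [if_neg hsp]
      rw [h0, ← hK s hs, ← relIndex]
      refine relIndex_eq_index_of_forall (exists_mul_of_coprime_index ?_)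
      rw [hK s hs, hK p hpp]
      exact ((Nat.coprime_primes hs hpp).mpr hsp).pow _ _
  have hcop : ∀ p ∈ (Nat.card G).primeFactors, ∀ q ∈ (Nat.card G).primeFactors, p ≠ q →
      (K p).index.Coprime (K q).index := fun p hp q hq h => by
    rw [hK p (Nat.prime_of_mem_primeFactors hp), hK q (Nat.prime_of_mem_primeFactors hq)]
    exact ((Nat.coprime_primes (Nat.prime_of_mem_primeFactors hp)
      (Nat.prime_of_mem_primeFactors hq)).mpr h).pow _ _
  exact Cfsg.Agent.S0019.result (K p) (K q) (K r) (hsol p hp) (hsol q hq) (hsol r hr)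
    (exists_mul_of_coprime_index (hcop p hp q hq hpq))
    (exists_mul_of_coprime_index (hcop p hp r hr hpr)) (hcop q hq r hr hqr)

/-- **Hall**: a finite group with a `p`-complement for every prime `p` is solvable. -/
theorem isSolvable_of_forall_exists_compl {G : Type*} [Group G] [Finite G]
    (h : ∀ p : ℕ, p.Prime → ∃ H : Subgroup G, H.index = p ^ (Nat.card G).factorization p) :
    Group.IsSolvable G := by
  classical
  have : ∀ p : ℕ, ∃ H : Subgroup G, p.Prime → H.index = p ^ (Nat.card G).factorization p := fun p => by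
    by_cases hp : p.Prime
    · obtain ⟨H, hH⟩ := h p hp; exact ⟨H, fun _ => hH⟩
    · exact ⟨⊤, fun h => absurd h hp⟩
  choose K hK using this
  exact isSolvable_of_isCompl'_aux _ rfl K hK

/-- Finitely many pairwise permuting Sylow subgroups generate a subgroup of the expected order. -/
theorem exists_subgroup_card_prod {G : Type*} [Group G] [Finite G]
    (S : (p : Nat.Primes) → Sylow (p : ℕ) G)
    (hS : ∀ p q : Nat.Primes, (S p : Set G) * (S q : Set G) = (S q : Set G) * (S p : Set G))
    (T : Finset Nat.Primes) :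
    ∃ X : Subgroup G, Nat.card X = ∏ p ∈ T, Nat.card (S p) ∧
      ∀ r : Nat.Primes, (S r : Set G) * (X : Set G) = (X : Set G) * (S r : Set G) := by
  classical
  induction T using Finset.induction_on with
  | empty => exact ⟨⊥, by simp, fun r => by simp⟩
  | @insert a T ha ih =>
    obtain ⟨X, hX, hperm⟩ := ih
    obtain ⟨A, hA⟩ : ∃ A : Subgroup G, A = (S a : Subgroup G) := ⟨_, rfl⟩
    have hcA : (S a : Set G) = (A : Set G) := hA ▸ rfl
    have hAX := hperm a
    rw [hcA] at hAX
    have hswap : ∀ x ∈ X, ∀ y ∈ A, ∃ u ∈ A, ∃ v ∈ X, u * v = x * y := fun x hx y hy =>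
      Set.mem_mul.mp (hAX ▸ Set.mul_mem_mul (SetLike.mem_coe.mpr hx) (SetLike.mem_coe.mpr hy))
    let Y : Subgroup G :=
      { carrier := (A : Set G) * (X : Set G)
        mul_mem' := by
          rintro _ _ ⟨a₁, ha₁, x₁, hx₁, rfl⟩ ⟨a₂, ha₂, x₂, hx₂, rfl⟩
          obtain ⟨u, hu, v, hv, e⟩ := hswap x₁ hx₁ a₂ ha₂
          refine ⟨a₁ * u, A.mul_mem ha₁ hu, v * x₂, X.mul_mem hv hx₂, ?_⟩
          show a₁ * u * (v * x₂) = a₁ * x₁ * (a₂ * x₂)
          calc a₁ * u * (v * x₂) = a₁ * (u * v) * x₂ := by group
            _ = a₁ * (x₁ * a₂) * x₂ := by rw [e]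
            _ = _ := by group
        one_mem' := ⟨1, A.one_mem, 1, X.one_mem, mul_one 1⟩
        inv_mem' := by
          rintro _ ⟨a₁, ha₁, x₁, hx₁, rfl⟩
          obtain ⟨u, hu, v, hv, e⟩ := hswap x₁⁻¹ (X.inv_mem hx₁) a₁⁻¹ (A.inv_mem ha₁)
          exact ⟨u, hu, v, hv, e.trans (mul_inv_rev _ _).symm⟩ }
    refine ⟨Y, ?_, fun r => ?_⟩
    · rw [Finset.prod_insert ha, ← hX, ← hA]
      have hdisj : Disjoint A X := disjoint_of_coprime_natCard (by
        haveI := Fact.mk a.2
        obtain ⟨k, hk⟩ := IsPGroup.iff_card.mp (S a).2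
        rw [hA, hk, hX]
        refine Nat.Coprime.prod_right fun p hp => ?_
        haveI := Fact.mk p.2
        obtain ⟨l, hl⟩ := IsPGroup.iff_card.mp (S p).2
        rw [hl]
        exact ((Nat.coprime_primes a.2 p.2).mpr fun e => ha (Subtype.ext e ▸ hp)).pow _ _)
      rw [← Nat.card_prod, ← Nat.card_range_of_injective (Subgroup.mul_injective_of_disjoint hdisj)]
      refine Nat.card_congr (Equiv.setCongr ?_)
      ext g
      exact ⟨fun ⟨u, hu, v, hv, e⟩ => ⟨(⟨u, hu⟩, ⟨v, hv⟩), e⟩,
        fun ⟨z, hz⟩ => ⟨z.1, z.1.2, z.2, z.2.2, hz⟩⟩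
    · show (S r : Set G) * ((A : Set G) * (X : Set G)) = (A : Set G) * (X : Set G) * (S r : Set G)
      rw [← mul_assoc, ← hcA, hS r a, mul_assoc, hperm r, mul_assoc]

theorem isSolvable_of_sylow_system {G : Type*} [Group G] [Finite G]
    (S : (p : Nat.Primes) → Sylow (p : ℕ) G)
    (hS : ∀ p q : Nat.Primes, (S p : Set G) * (S q : Set G) = (S q : Set G) * (S p : Set G)) :
    Group.IsSolvable G := by
  classical
  refine isSolvable_of_forall_exists_compl fun p hp => ?_
  obtain ⟨X, hX, -⟩ := exists_subgroup_card_prod S hS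
    (((Nat.card G).primeFactors.erase p).subtype Nat.Prime)
  refine ⟨X, ?_⟩
  have h1 : Nat.card X = ∏ r ∈ (Nat.card G).primeFactors.erase p, r ^ (Nat.card G).factorization r := by
    rw [hX]
    have h2 : ∀ q : Nat.Primes, Nat.card (S q) = (q : ℕ) ^ (Nat.card G).factorization q := fun q => by
      haveI := Fact.mk q.2
      exact (S q).card_eq_multiplicity
    simp only [h2]
    refine (Finset.prod_subtype_eq_prod_filter (p := Nat.Prime) (fun r => r ^ (Nat.card G).factorization r)).trans ?_
    refine Finset.prod_congr ?_ fun _ _ => rfl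
    exact Finset.filter_true_of_mem fun r hr => Nat.prime_of_mem_primeFactors (Finset.mem_of_mem_erase hr)
  have h3 := X.card_mul_index
  have h4 : Nat.card X * p ^ (Nat.card G).factorization p = Nat.card G := by
    rw [h1]
    by_cases hmem : p ∈ (Nat.card G).primeFactors
    · rw [Finset.prod_erase_mul _ (fun r => r ^ (Nat.card G).factorization r) hmem]
      exact Nat.prod_factorization_pow_eq_self Nat.card_pos.ne'
    · rw [Finset.erase_eq_of_notMem hmem, Nat.factorization_eq_zero_of_not_dvd (fun hd =>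
        hmem (Nat.mem_primeFactors.mpr ⟨hp, hd, Nat.card_pos.ne'⟩)), pow_zero, mul_one]
      exact Nat.prod_factorization_pow_eq_self Nat.card_pos.ne'
  exact Nat.eq_of_mul_eq_mul_left Nat.card_pos (h3.trans h4.symm)

end Cfsg.Agent.Core
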