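/-
Core library: Kegel's lemma on permuting subgroups.
-/
import Cfsg.Agent.Core.Products

set_option autoImplicit false
set_option linter.style.haveILetI false
set_option linter.unusedSectionVars false

namespace Cfsg.Agent.Core

open Subgroup
open scoped Pointwise

variable {G : Type*} [Group G]

/-- If the elements of `C` move past those of `J`, the set `JC` is a subgroup. -/
theorem exists_subgroup_eq_mul {J C : Subgroup G}
    (h : ∀ c ∈ C, ∀ j ∈ J, ∃ j' ∈ J, ∃ c' ∈ C, c * j = j' * c') :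
    ∃ S : Subgroup G, (S : Set G) = (J : Set G) * (C : Set G) := by
  refine ⟨{ carrier := (J : Set G) * (C : Set G)
            one_mem' := ⟨1, J.one_mem, 1, C.one_mem, one_mul 1⟩
            mul_mem' := ?_
            inv_mem' := ?_ }, rfl⟩
  · rintro _ _ ⟨j, hj, c, hc, rfl⟩ ⟨i, hi, d, hd, rfl⟩
    obtain ⟨j', hj', c', hc', e⟩ := h c hc i hi
    exact ⟨j * j', J.mul_mem hj hj', c' * d, C.mul_mem hc' hd, by
      show j * j' * (c' * d) = j * c * (i * d)
      calc j * j' * (c' * d) = j * (j' * c') * d := by group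
        _ = j * c * (i * d) := by rw [← e]; group⟩
  · rintro _ ⟨j, hj, c, hc, rfl⟩
    obtain ⟨j', hj', c', hc', e⟩ := h c⁻¹ (C.inv_mem hc) j⁻¹ (J.inv_mem hj)
    exact ⟨j', hj', c', hc', by show j' * c' = (j * c)⁻¹; rw [← e, mul_inv_rev]⟩

variable [Finite G]

/-- **Kegel**: if `A Bˣ` is a proper subgroup for all `x`, some factor has a proper normal closure. -/
theorem kegel_lemma (A B : Subgroup G) (_hA : A ≠ ⊥) (_hB : B ≠ ⊥)
    (h : ∀ x : G, ∃ S : Subgroup G, S ≠ ⊤ ∧ (S : Set G) = (A : Set G) * ((MulAut.conj x • B : Subgroup G) : Set G)) :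
    ∃ N : Subgroup G, N.Normal ∧ N ≠ ⊤ ∧ (A ≤ N ∨ B ≤ N) := by
  obtain ⟨A', ⟨hAA', hA'⟩, hmax⟩ := (Set.toFinite ({A' : Subgroup G | A ≤ A' ∧ ∀ x : G, ∃ S : Subgroup G,
      S ≠ ⊤ ∧ (S : Set G) = (A' : Set G) * ((MulAut.conj x • B : Subgroup G) : Set G)} : Set (Subgroup G))).exists_maximalFor
    (fun A' : Subgroup G => Nat.card A') _ ⟨A, le_rfl, h⟩
  have hle : ∀ {S X Y : Subgroup G}, (S : Set G) = (X : Set G) * (Y : Set G) → X ≤ S ∧ Y ≤ S := fun {S X Y} hS =>
    ⟨fun a ha => by rw [← SetLike.mem_coe, hS]; exact ⟨a, ha, 1, Y.one_mem, mul_one a⟩,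
      fun c hc => by rw [← SetLike.mem_coe, hS]; exact ⟨1, X.one_mem, c, hc, one_mul c⟩⟩
  have hnorm : ∀ x : G, MulAut.conj x • B ≤ normalizer (A' : Set G) := by
    intro x b hb
    set A'' := MulAut.conj b • A' with hA''
    set J := A' ⊔ A'' with hJ
    obtain ⟨Sx, hSx, hSxe⟩ := hA' x
    have hJS : J ≤ Sx := by
      refine sup_le (hle hSxe).1 ?_
      intro z hz
      rw [mem_conj_smul_iff] at hz
      have hb' := (hle hSxe).2 hb
      simpa [mul_assoc] using Sx.mul_mem (Sx.mul_mem hb' ((hle hSxe).1 hz)) (Sx.inv_mem hb')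
    have hperm : ∀ (y : G), ∀ c ∈ MulAut.conj y • B, ∀ j ∈ J,
        ∃ j' ∈ J, ∃ c' ∈ MulAut.conj y • B, c * j = j' * c' := by
      intro y c hc j hj
      rw [hJ, sup_eq_closure] at hj
      induction hj using Subgroup.closure_induction'' generalizing c with
      | mem j hj =>
        rcases hj with hj | hj
        · obtain ⟨S, -, hS⟩ := hA' y
          have hmem := S.mul_mem ((hle hS).2 hc) ((hle hS).1 hj)
          rw [← SetLike.mem_coe, hS] at hmem
          obtain ⟨j', hj', c', hc', e⟩ := hmem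
          exact ⟨j', mem_sup_left hj', c', hc', e.symm⟩
        · obtain ⟨S, -, hS⟩ := hA' (b⁻¹ * y)
          have hc₀ : b⁻¹ * c * b ∈ MulAut.conj (b⁻¹ * y) • B := by
            rw [conj_mul_smul, mem_conj_smul_iff, inv_inv]; simpa [mul_assoc] using hc
          have hj₀ : b⁻¹ * j * b ∈ A' := mem_conj_smul_iff.mp hj
          have hmem := S.mul_mem ((hle hS).2 hc₀) ((hle hS).1 hj₀)
          rw [← SetLike.mem_coe, hS] at hmem
          obtain ⟨j', hj', c', hc', e⟩ := hmem
          refine ⟨b * j' * b⁻¹, mem_sup_right (mem_conj_smul_iff.mpr (by simpa [mul_assoc] using hj')),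
            b * c' * b⁻¹, ?_, ?_⟩
          · rw [SetLike.mem_coe, conj_mul_smul, mem_conj_smul_iff, inv_inv] at hc'
            exact hc'
          · rw [show b * j' * b⁻¹ * (b * c' * b⁻¹) = b * (j' * c') * b⁻¹ by group,
              show j' * c' = b⁻¹ * c * b * (b⁻¹ * j * b) from e]
            group
      | inv_mem j hj =>
        rcases hj with hj | hj
        · obtain ⟨S, -, hS⟩ := hA' y
          have hmem := S.mul_mem ((hle hS).2 hc) ((hle hS).1 (A'.inv_mem hj))
          rw [← SetLike.mem_coe, hS] at hmem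
          obtain ⟨j', hj', c', hc', e⟩ := hmem
          exact ⟨j', mem_sup_left hj', c', hc', e.symm⟩
        · obtain ⟨S, -, hS⟩ := hA' (b⁻¹ * y)
          have hc₀ : b⁻¹ * c * b ∈ MulAut.conj (b⁻¹ * y) • B := by
            rw [conj_mul_smul, mem_conj_smul_iff, inv_inv]; simpa [mul_assoc] using hc
          have hj₀ : b⁻¹ * j⁻¹ * b ∈ A' := mem_conj_smul_iff.mp ((MulAut.conj b • A').inv_mem hj)
          have hmem := S.mul_mem ((hle hS).2 hc₀) ((hle hS).1 hj₀)
          rw [← SetLike.mem_coe, hS] at hmem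
          obtain ⟨j', hj', c', hc', e⟩ := hmem
          refine ⟨b * j' * b⁻¹, mem_sup_right (mem_conj_smul_iff.mpr (by simpa [mul_assoc] using hj')),
            b * c' * b⁻¹, ?_, ?_⟩
          · rw [SetLike.mem_coe, conj_mul_smul, mem_conj_smul_iff, inv_inv] at hc'
            exact hc'
          · rw [show b * j' * b⁻¹ * (b * c' * b⁻¹) = b * (j' * c') * b⁻¹ by group,
              show j' * c' = b⁻¹ * c * b * (b⁻¹ * j⁻¹ * b) from e]
            group
      | one => exact ⟨1, J.one_mem, c, hc, by rw [mul_one, one_mul]⟩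
      | mul u v hu hv ihu ihv =>
        obtain ⟨u', hu', c', hc', e⟩ := ihu c hc
        obtain ⟨v', hv', c'', hc'', e'⟩ := ihv c' hc'
        exact ⟨u' * v', J.mul_mem hu' hv', c'', hc'', by rw [← mul_assoc, e, mul_assoc, e', ← mul_assoc]⟩
    have hJA : J = A' := by
      refine (eq_of_le_of_card_ge le_sup_left (hmax ⟨hAA'.trans le_sup_left, fun y => ?_⟩ ?_)).symm
      · obtain ⟨S, hS⟩ := exists_subgroup_eq_mul (hperm y)
        refine ⟨S, fun htop => hSx (eq_top_iff.mpr fun g _ => ?_), hS⟩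
        have hall : ∀ g : G, ∃ j ∈ J, ∃ c ∈ MulAut.conj y • B, g = j * c := fun g => by
          have hg : g ∈ (S : Set G) := htop ▸ mem_top g
          rw [hS] at hg
          obtain ⟨j, hj, c, hc, e⟩ := hg
          exact ⟨j, hj, c, hc, e.symm⟩
        obtain ⟨j, hj, c, hc, rfl⟩ := forall_exists_mul_conj_smul hall 1 (x * y⁻¹) g
        rw [map_one, one_smul] at hj
        rw [← conj_mul_smul, inv_mul_cancel_right] at hc
        exact Sx.mul_mem (hJS hj) ((hle hSxe).2 hc)
      · exact card_le_of_le le_sup_left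
    rw [mem_normalizer_iff_map_conj_eq]
    refine eq_of_le_of_card_ge ?_ (card_conj_smul b A').ge
    exact le_sup_right.trans hJA.le
  by_cases htop : normalClosure ((B : Subgroup G) : Set G) = ⊤
  · obtain ⟨S, hS, hSe⟩ := hA' 1
    have hn : A'.Normal := by
      rw [← normalizer_eq_top_iff, eq_top_iff, ← htop]
      refine (closure_le _).mpr fun z hz => ?_
      obtain ⟨b, hb, hc⟩ := Group.mem_conjugatesOfSet_iff.mp hz
      obtain ⟨c, rfl⟩ := isConj_iff.mp hc
      exact hnorm c (mem_conj_smul_iff.mpr (by simpa [mul_assoc] using hb))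
    exact ⟨A', hn, fun e => hS (top_le_iff.mp (e ▸ (hle hSe).1)), Or.inl hAA'⟩
  · exact ⟨_, normalClosure_normal, htop, Or.inr le_normalClosure⟩

end Cfsg.Agent.Core
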