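import Cfsg.Agent.S5469
import Cfsg.Agent.S0303
import Cfsg.Agent.Forms.OrthBridgeSimple

set_option autoImplicit false
set_option linter.unusedSimpArgs false

/-!
# The automorphism group of `PSU₄(2)` is `O₆⁻(2)`
-/

namespace Cfsg.Agent.Core.OrthSixMinus

open Cfsg.Agent.Forms

/-- The elliptic form in dimension six over two elements. -/
noncomputable abbrev qSix : QuadraticForm (ZMod 2) ((Fin 2 ⊕ Fin 2) ⊕ Fin 2 → ZMod 2) := qMinus 2 (ZMod 2) 1 1

theorem aniso : ∀ z₁ z₂ : ZMod 2, z₁ ^ 2 + 1 * z₁ * z₂ + 1 * z₂ ^ 2 = 0 → z₁ = 0 ∧ z₂ = 0 := by decide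

theorem nonsing_cover : ∀ i : (Fin 2 ⊕ Fin 2) ⊕ Fin 2,
    Cfsg.quadFormMinus 2 (ZMod 2) 1 1 (Pi.single i 1) ≠ 0 ∨
      (Cfsg.quadFormMinus 2 (ZMod 2) 1 1 (Pi.single i 1 + Pi.single (.inr 0) 1) ≠ 0 ∧
        Cfsg.quadFormMinus 2 (ZMod 2) 1 1 (Pi.single (.inr 0) 1) ≠ 0) := by
  intro i
  simp only [Cfsg.quadFormMinus]
  revert i
  decide +kernel

/-- `Aut(PSU₄(2)) ≅ O₆⁻(2)`. -/
theorem aut_psu_equiv {F : Type} [Field F] [Fintype F] (hF : Fintype.card F = 2 ^ 2) :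
    Nonempty (MulAut (Cfsg.PSU 4 F 2) ≃* Cfsg.isometryGroup (ZMod 2) (Cfsg.quadFormMinus 2 (ZMod 2) 1 1)) := by
  classical
  rw [← coe_qMinus (F := ZMod 2) (m := 2) 1 1]
  set Q := qSix with hQdef
  have h2 : (2 : ZMod 2) = 0 := by decide
  have hdisc : (1 : ZMod 2) ^ 2 - 4 * 1 ≠ 0 := by decide
  have hQ : (QuadraticMap.polarBilin Q).Nondegenerate := qMinus_nondegenerate 1 1 hdisc
  have hfr : Module.finrank (ZMod 2) ((Fin 2 ⊕ Fin 2) ⊕ Fin 2 → ZMod 2) = 6 := by simp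
  set P := commutator (orthGroup Q) with hP
  have hO : Nat.card (Cfsg.isometryGroup (ZMod 2) ⇑Q) = 51840 := by
    rw [coe_qMinus, card_isometryGroup_minus (m := 2) (q := 2) (ZMod.card 2) 1 1 aniso]
    simp [Finset.prod_range_succ]
  have hidx : P.index = 2 := (commutator_index_two h2 hQ (Or.inr (by omega)) (by omega)).1
  have hPcard : Nat.card P = 25920 := by
    have h := Subgroup.card_mul_index P
    rw [hidx, ← Nat.card_congr (isometryEquiv Q).toEquiv, hO] at h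
    omega
  obtain ⟨e⟩ : Nonempty (Cfsg.POmega (ZMod 2) ⇑Q ≃* Cfsg.PSU 4 F 2) := by
    rw [coe_qMinus]
    exact S0303.result (by simp) hF 1 1 aniso
  have hPO : Nat.card (Cfsg.POmega (ZMod 2) ⇑Q) = 25920 := by
    rw [Nat.card_congr e.toEquiv, ← Nat.card_congr (S5469.toPSU4 hF).toEquiv, S5469.su4_card hF]
  have hΩ : Nat.card (Cfsg.Omega (ZMod 2) ⇑Q) = 25920 := by
    rw [Nat.card_congr (omegaEquiv Q).toEquiv, hPcard]
  have hZ : Subgroup.center (Cfsg.Omega (ZMod 2) ⇑Q) = ⊥ := by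
    refine Subgroup.eq_bot_of_card_eq _ ?_
    have h := Subgroup.card_eq_card_quotient_mul_card_subgroup (Subgroup.center (Cfsg.Omega (ZMod 2) ⇑Q))
    rw [hΩ, show Nat.card (Cfsg.Omega (ZMod 2) ⇑Q ⧸ Subgroup.center (Cfsg.Omega (ZMod 2) ⇑Q)) = 25920 from hPO] at h
    omega
  let eΩ : Cfsg.Omega (ZMod 2) ⇑Q ≃* Cfsg.POmega (ZMod 2) ⇑Q :=
    MulEquiv.ofBijective (QuotientGroup.mk' _)
      ⟨(MonoidHom.ker_eq_bot_iff _).1 (by rw [QuotientGroup.ker_mk', hZ]), QuotientGroup.mk'_surjective _⟩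
  let f : ↥P ≃* Cfsg.PSU 4 F 2 := ((omegaEquiv Q).symm.trans eΩ).trans e
  have hPc : ∀ z : ↥P, (∀ x : ↥P, x * z = z * x) → z = 1 := by
    intro z hz
    have h : (omegaEquiv Q).symm z ∈ Subgroup.center (Cfsg.Omega (ZMod 2) ⇑Q) := by
      rw [Subgroup.mem_center_iff]
      intro x
      obtain ⟨x, rfl⟩ := (omegaEquiv Q).symm.surjective x
      rw [← map_mul, ← map_mul, hz]
    rw [hZ, Subgroup.mem_bot] at h
    simpa using congrArg (omegaEquiv Q) h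
  let Λ : orthGroup Q →* MulAut (Cfsg.PSU 4 F 2) :=
    (MulAut.congr f).toMonoidHom.comp (MulAut.conjNormal (H := P))
  have hinj : Function.Injective Λ := by
    refine (injective_iff_map_eq_one Λ).2 fun z hz => ?_
    have hz1 : MulAut.conjNormal (H := P) z = 1 :=
      (map_eq_one_iff (MulAut.congr f) (MulEquiv.injective _)).1 hz
    have hzP : ∀ x : ↥P, z * (x : orthGroup Q) * z⁻¹ = x := fun x => by
      rw [← MulAut.conjNormal_apply, hz1]; rfl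
    have hcen : ∀ g : orthGroup Q, g * z = z * g := by
      intro g
      have hmem : g * z * g⁻¹ * z⁻¹ ∈ P := Subgroup.commutator_mem_commutator (Subgroup.mem_top g) (Subgroup.mem_top z)
      have hconj : ∀ x : ↥P, (g * z * g⁻¹) * (x : orthGroup Q) * (g * z * g⁻¹)⁻¹ = x := by
        intro x
        have hx' : g⁻¹ * (x : orthGroup Q) * g ∈ P := by
          simpa using (inferInstance : P.Normal).conj_mem _ x.2 g⁻¹
        calc (g * z * g⁻¹) * (x : orthGroup Q) * (g * z * g⁻¹)⁻¹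
            = g * (z * (g⁻¹ * (x : orthGroup Q) * g) * z⁻¹) * g⁻¹ := by group
          _ = g * (g⁻¹ * (x : orthGroup Q) * g) * g⁻¹ := by
              have h := hzP ⟨_, hx'⟩
              rw [show z * (g⁻¹ * (x : orthGroup Q) * g) * z⁻¹ = g⁻¹ * (x : orthGroup Q) * g from h]
          _ = x := by group
      have h1 := hPc ⟨_, hmem⟩ fun x => Subtype.ext (by
        have hzi : z⁻¹ * (x : orthGroup Q) * z = x := by
          conv_lhs => rw [← hzP x]
          group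
        show (x : orthGroup Q) * (g * z * g⁻¹ * z⁻¹) = g * z * g⁻¹ * z⁻¹ * x
        calc (x : orthGroup Q) * (g * z * g⁻¹ * z⁻¹)
            = ((g * z * g⁻¹) * (x : orthGroup Q) * (g * z * g⁻¹)⁻¹) * (g * z * g⁻¹ * z⁻¹) := by rw [hconj x]
          _ = g * z * g⁻¹ * z⁻¹ * (z * ((x : orthGroup Q)) * z⁻¹) := by group
          _ = g * z * g⁻¹ * z⁻¹ * x := by rw [hzP x])
      have h2 : g * z * g⁻¹ * z⁻¹ = 1 := congrArg Subtype.val h1
      calc g * z = (g * z * g⁻¹ * z⁻¹) * (z * g) := by group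
        _ = z * g := by rw [h2, one_mul]
    have hfix : ∀ v, Q v ≠ 0 → (z : ((Fin 2 ⊕ Fin 2) ⊕ Fin 2 → ZMod 2) ≃ₗ[ZMod 2] ((Fin 2 ⊕ Fin 2) ⊕ Fin 2 → ZMod 2)) v = v := by
      intro v hv
      have h := conj_reflection (Q := Q) z v
      rw [← hcen, mul_inv_cancel_right] at h
      have hv0 : v ≠ 0 := fun h0 => hv (by rw [h0]; exact QuadraticMap.map_zero Q)
      obtain ⟨x, hx⟩ : ∃ x, QuadraticMap.polar Q v x ≠ 0 := by
        by_contra hh
        push Not at hh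
        exact hv0 (hQ.1 v fun x => hh x)
      have hb : ∀ t : ZMod 2, t ≠ 0 → t = 1 := by decide
      have h' := congrArg (fun k : orthGroup Q => (k : ((Fin 2 ⊕ Fin 2) ⊕ Fin 2 → ZMod 2) ≃ₗ[ZMod 2] ((Fin 2 ⊕ Fin 2) ⊕ Fin 2 → ZMod 2)) x) h
      simp only [reflection_apply, sub_right_inj] at h'
      rw [hb _ hv, inv_one, one_mul, hb _ hx, one_smul] at h'
      generalize (Q ((z : ((Fin 2 ⊕ Fin 2) ⊕ Fin 2 → ZMod 2) ≃ₗ[ZMod 2] ((Fin 2 ⊕ Fin 2) ⊕ Fin 2 → ZMod 2)) v))⁻¹ * QuadraticMap.polar Q ((z : ((Fin 2 ⊕ Fin 2) ⊕ Fin 2 → ZMod 2) ≃ₗ[ZMod 2] ((Fin 2 ⊕ Fin 2) ⊕ Fin 2 → ZMod 2)) v) x = t at h'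
      by_cases ht : t = 0
      · rw [ht, zero_smul] at h'
        exact absurd h' hv0
      · rw [hb t ht, one_smul] at h'
        exact h'.symm
    refine orth_ext fun x => ?_
    have hall : ∀ i, (z : ((Fin 2 ⊕ Fin 2) ⊕ Fin 2 → ZMod 2) ≃ₗ[ZMod 2] ((Fin 2 ⊕ Fin 2) ⊕ Fin 2 → ZMod 2)) (Pi.single i 1) = Pi.single i 1 := by
      intro i
      rcases nonsing_cover i with h | ⟨h, h'⟩
      · exact hfix _ (by rwa [coe_qMinus])
      · have e1 := hfix (Pi.single i 1 + Pi.single (.inr 0) 1) (by rwa [coe_qMinus])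
        rw [map_add, hfix (Pi.single (.inr 0) 1) (by rwa [coe_qMinus])] at e1
        exact add_right_cancel e1
    have hx : (x : (Fin 2 ⊕ Fin 2) ⊕ Fin 2 → ZMod 2) = ∑ j, x j • (Pi.single j (1 : ZMod 2)) := by
      funext k; simp [Pi.single_apply]
    show (z : ((Fin 2 ⊕ Fin 2) ⊕ Fin 2 → ZMod 2) ≃ₗ[ZMod 2] ((Fin 2 ⊕ Fin 2) ⊕ Fin 2 → ZMod 2)) x = x
    conv_lhs => rw [hx]
    rw [map_sum]
    simp only [map_smul, hall]
    exact hx.symm
  have hbij : Function.Bijective Λ := (Nat.bijective_iff_injective_and_card Λ).2 ⟨hinj, by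
    rw [S5469.card_aut4 hF, ← Nat.card_congr (isometryEquiv Q).toEquiv, hO]⟩
  exact ⟨((isometryEquiv Q).trans (MulEquiv.ofBijective Λ hbij)).symm⟩

end Cfsg.Agent.Core.OrthSixMinus
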