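/-
Core library: the spin double cover of the alternating group, inside signed monomial operators.
-/
import Mathlib.GroupTheory.Perm.Sign
import Mathlib.GroupTheory.SpecificGroups.Alternating
import Mathlib.LinearAlgebra.Pi
import Mathlib.Algebra.Module.LinearMap.End
import Mathlib.Algebra.BigOperators.Field
import Mathlib.Data.Finset.SymmDiff
import Mathlib.Tactic

set_option autoImplicit false
set_option linter.style.haveILetI false
set_option linter.unusedSectionVars false

open scoped symmDiff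

namespace Cfsg.Agent.Core.Spin

variable {n : ℕ}

/-- The space of the regular representation. -/
abbrev V (n : ℕ) : Type := Finset (Fin n) → ℚ

variable (r r' : Fin n → Fin n → Prop) [DecidableRel r] [DecidableRel r']

/-- The elementary sign. -/
def eps (a b : Fin n) : ℚ := if r b a then -1 else 1

/-- The sign of a monomial operator. -/
def sgn (a : Fin n) (S : Finset (Fin n)) : ℚ := ∏ b ∈ S, eps r a b

theorem eps_mul_self (a b : Fin n) : eps r a b * eps r a b = 1 := by
  unfold eps; split <;> norm_num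

theorem sgn_mul_self (a : Fin n) (S : Finset (Fin n)) : sgn r a S * sgn r a S = 1 := by
  rw [sgn, ← Finset.prod_mul_distrib]
  exact Finset.prod_eq_one fun b _ => eps_mul_self r a b

theorem sgn_symmDiff (a b : Fin n) (S : Finset (Fin n)) : sgn r a (S ∆ {b}) = eps r a b * sgn r a S := by
  by_cases hb : b ∈ S
  · have h1 : S ∆ {b} = S.erase b := by
      ext x; simp only [Finset.mem_symmDiff, Finset.mem_singleton, Finset.mem_erase]; grind
    rw [h1, sgn, sgn, ← Finset.mul_prod_erase S _ hb, ← mul_assoc, eps_mul_self, one_mul]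
  · have h1 : S ∆ {b} = insert b S := by
      ext x; simp only [Finset.mem_symmDiff, Finset.mem_singleton, Finset.mem_insert]; grind
    rw [h1, sgn, sgn, Finset.prod_insert hb]

/-- A signed monomial operator. -/
def op (a : Fin n) : Module.End ℚ (V n) where
  toFun f S := sgn r a (S ∆ {a}) * f (S ∆ {a})
  map_add' f g := funext fun S => by simp [mul_add]
  map_smul' c f := funext fun S => by simp only [Pi.smul_apply, smul_eq_mul, RingHom.id_apply]; ring

theorem op_apply (a : Fin n) (f : V n) (S : Finset (Fin n)) :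
    op r a f S = sgn r a (S ∆ {a}) * f (S ∆ {a}) := rfl

theorem op_mul_apply (a b : Fin n) (f : V n) (S : Finset (Fin n)) (haa : eps r a a = 1) (hbb : eps r' b b = 1) :
    (op r a * op r' b) f S = sgn r a S * sgn r' b S * eps r' b a * f (S ∆ {a} ∆ {b}) := by
  rw [Module.End.mul_apply, op_apply, op_apply, sgn_symmDiff, sgn_symmDiff, sgn_symmDiff, haa, hbb]
  ring

/-- Left multiplications. -/
abbrev L (a : Fin n) : Module.End ℚ (V n) := op (· < ·) a

/-- Right multiplications. -/
abbrev R (a : Fin n) : Module.End ℚ (V n) := op (· > ·) a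

theorem eps_self_lt (a : Fin n) : eps (· < ·) a a = 1 := by simp [eps]
theorem eps_self_gt (a : Fin n) : eps (· > ·) a a = 1 := by simp [eps]

theorem L_sq (a : Fin n) : L a * L a = 1 := by
  refine LinearMap.ext fun f => funext fun S => ?_
  rw [op_mul_apply _ _ _ _ _ _ (eps_self_lt a) (eps_self_lt a), eps_self_lt, sgn_mul_self, symmDiff_assoc,
    symmDiff_self, symmDiff_bot]
  simp

theorem L_anticomm {a b : Fin n} (h : a ≠ b) : L a * L b = -(L b * L a) := by
  refine LinearMap.ext fun f => funext fun S => ?_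
  rw [LinearMap.neg_apply, Pi.neg_apply, op_mul_apply _ _ _ _ _ _ (eps_self_lt a) (eps_self_lt b),
    op_mul_apply _ _ _ _ _ _ (eps_self_lt b) (eps_self_lt a), symmDiff_right_comm S {a} {b}]
  rcases lt_or_gt_of_ne h with h1 | h1
  · simp only [eps, h1, not_lt.mpr h1.le, if_true, if_false]; ring
  · simp only [eps, h1, not_lt.mpr h1.le, if_true, if_false]; ring

theorem L_comm_R (a b : Fin n) : L a * R b = R b * L a := by
  refine LinearMap.ext fun f => funext fun S => ?_
  rw [op_mul_apply _ _ _ _ _ _ (eps_self_lt a) (eps_self_gt b),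
    op_mul_apply _ _ _ _ _ _ (eps_self_gt b) (eps_self_lt a), symmDiff_right_comm S {a} {b}]
  rcases lt_trichotomy a b with h1 | h1 | h1
  · simp only [eps, gt_iff_lt, not_lt.mpr h1.le, if_false]; ring
  · subst h1; simp only [eps, gt_iff_lt, lt_irrefl, if_false]; ring
  · simp only [eps, gt_iff_lt, h1, if_true]; ring

/-- The parity operator. -/
def Par : Module.End ℚ (V n) where
  toFun f S := (-1) ^ S.card * f S
  map_add' f g := funext fun S => by simp [mul_add]
  map_smul' c f := funext fun S => by simp only [Pi.smul_apply, smul_eq_mul, RingHom.id_apply]; ring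

theorem sign_card_symmDiff (S : Finset (Fin n)) (a : Fin n) :
    ((-1 : ℚ)) ^ (S ∆ {a}).card = -(-1) ^ S.card := by
  by_cases hb : a ∈ S
  · have h1 : S ∆ {a} = S.erase a := by
      ext x; simp only [Finset.mem_symmDiff, Finset.mem_singleton, Finset.mem_erase]; grind
    rw [h1, ← Finset.card_erase_add_one hb, pow_succ]; ring
  · have h1 : S ∆ {a} = insert a S := by
      ext x; simp only [Finset.mem_symmDiff, Finset.mem_singleton, Finset.mem_insert]; grind
    rw [h1, Finset.card_insert_of_notMem hb, pow_succ]; ring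

theorem L_Par (a : Fin n) : L a * Par = -(Par * L a) := by
  refine LinearMap.ext fun f => funext fun S => ?_
  show sgn _ a (S ∆ {a}) * ((-1) ^ (S ∆ {a}).card * f (S ∆ {a})) =
    -((-1) ^ S.card * (sgn _ a (S ∆ {a}) * f (S ∆ {a})))
  rw [sign_card_symmDiff]; ring

/-- The inner product. -/
def inner' (f g : V n) : ℚ := ∑ S, f S * g S

theorem L_adjoint (a : Fin n) (f g : V n) : inner' (L a f) g = inner' f (L a g) := by
  refine (Fintype.sum_equiv (Function.Involutive.toPerm (fun S : Finset (Fin n) => S ∆ {a})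
    fun S => symmDiff_symmDiff_cancel_right {a} S) _ _ fun S => ?_)
  show sgn _ a (S ∆ {a}) * f (S ∆ {a}) * g S = f (S ∆ {a}) * (sgn _ a (S ∆ {a} ∆ {a}) * g (S ∆ {a} ∆ {a}))
  rw [symmDiff_symmDiff_cancel_right, sgn_symmDiff, eps_self_lt]; ring

/-- The vector of a transposition. -/
abbrev vec (i j : Fin n) : Module.End ℚ (V n) := L i - L j

theorem vec_sq {i j : Fin n} (h : i ≠ j) : vec i j * vec i j = 2 := by
  have h1 : vec i j * vec i j = L i * L i - L i * L j - (L j * L i - L j * L j) := by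
    simp only [vec, sub_mul, mul_sub]; abel
  rw [h1, L_sq, L_sq, L_anticomm h, show (2 : Module.End ℚ (V n)) = 1 + 1 by norm_num]
  abel

theorem vec_L {i j : Fin n} (h : i ≠ j) (c : Fin n) : vec i j * L c = -(L (Equiv.swap i j c) * vec i j) := by
  simp only [vec, sub_mul, mul_sub, neg_sub]
  by_cases hi : c = i
  · subst hi
    rw [Equiv.swap_apply_left, L_sq, L_sq]
  by_cases hj : c = j
  · subst hj
    rw [Equiv.swap_apply_right, L_sq, L_sq]
  rw [Equiv.swap_apply_of_ne_of_ne hi hj, L_anticomm (Ne.symm hi), L_anticomm (Ne.symm hj)]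
  abel

theorem vec_R (i j c : Fin n) : vec i j * R c = R c * vec i j := by
  simp only [vec, sub_mul, mul_sub, L_comm_R]

theorem vec_Par (i j : Fin n) : vec i j * Par = -(Par * vec i j) := by
  simp only [vec, sub_mul, mul_sub, L_Par]; abel

theorem vec_adjoint (i j : Fin n) (f g : V n) : inner' (vec i j f) g = inner' f (vec i j g) := by
  have h1 := L_adjoint i f g
  have h2 := L_adjoint j f g
  simp only [inner', vec, LinearMap.sub_apply, Pi.sub_apply, sub_mul, mul_sub, Finset.sum_sub_distrib] at *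
  rw [h1, h2]

/-- The ambient group. -/
abbrev Amb (n : ℕ) : Type := (Module.End ℚ (V n))ˣ × Equiv.Perm (Fin n)

/-- The invariant satisfied by the spin group. -/
def good (n : ℕ) : Subgroup (Amb n) where
  carrier := {x | Equiv.Perm.sign x.2 = 1 ∧ (∀ c, x.1.1 * L c = L (x.2 c) * x.1.1) ∧
    (∀ c, x.1.1 * R c = R c * x.1.1) ∧ x.1.1 * Par = Par * x.1.1 ∧
    ∀ f g, inner' (x.1.1 f) (x.1.1 g) = inner' f g}
  one_mem' := ⟨by simp, by simp, by simp, by simp, by simp⟩
  mul_mem' := by
    rintro x y ⟨a1, a2, a3, a4, a5⟩ ⟨b1, b2, b3, b4, b5⟩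
    refine ⟨by simp [a1, b1], fun c => ?_, fun c => ?_, ?_, fun f g => ?_⟩
    · show x.1.1 * y.1.1 * L c = L (x.2 (y.2 c)) * (x.1.1 * y.1.1)
      rw [mul_assoc, b2, ← mul_assoc, a2, mul_assoc]
    · show x.1.1 * y.1.1 * R c = R c * (x.1.1 * y.1.1)
      rw [mul_assoc, b3, ← mul_assoc, a3, mul_assoc]
    · show x.1.1 * y.1.1 * Par = Par * (x.1.1 * y.1.1)
      rw [mul_assoc, b4, ← mul_assoc, a4, mul_assoc]
    · show inner' (x.1.1 (y.1.1 f)) (x.1.1 (y.1.1 g)) = _
      rw [a5, b5]
  inv_mem' := by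
    rintro ⟨u, σ⟩ ⟨a1, a2, a3, a4, a5⟩
    refine ⟨by simp [a1], fun c => ?_, fun c => ?_, ?_, fun f g => ?_⟩
    · show (u⁻¹ : (Module.End ℚ (V n))ˣ).1 * L c = L (σ⁻¹ c) * (u⁻¹ : (Module.End ℚ (V n))ˣ).1
      rw [Units.inv_mul_eq_iff_eq_mul, ← mul_assoc, Units.eq_mul_inv_iff_mul_eq]
      have := a2 (σ⁻¹ c)
      simpa using this.symm
    · show (u⁻¹ : (Module.End ℚ (V n))ˣ).1 * R c = R c * (u⁻¹ : (Module.End ℚ (V n))ˣ).1
      rw [Units.inv_mul_eq_iff_eq_mul, ← mul_assoc, Units.eq_mul_inv_iff_mul_eq]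
      exact (a3 c).symm
    · show (u⁻¹ : (Module.End ℚ (V n))ˣ).1 * Par = Par * (u⁻¹ : (Module.End ℚ (V n))ˣ).1
      rw [Units.inv_mul_eq_iff_eq_mul, ← mul_assoc, Units.eq_mul_inv_iff_mul_eq]
      exact a4.symm
    · have := a5 ((u⁻¹ : (Module.End ℚ (V n))ˣ).1 f) ((u⁻¹ : (Module.End ℚ (V n))ˣ).1 g)
      rwa [← Module.End.mul_apply, ← Module.End.mul_apply, Units.mul_inv, Module.End.one_apply,
        Module.End.one_apply, eq_comm] at this

/-- The unit of a pair of transpositions. -/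
def genU {i j k l : Fin n} (h : i ≠ j) (h' : k ≠ l) : (Module.End ℚ (V n))ˣ where
  val := (1 / 2 : ℚ) • (vec i j * vec k l)
  inv := (1 / 2 : ℚ) • (vec k l * vec i j)
  val_inv := by
    rw [smul_mul_smul_comm, mul_assoc, ← mul_assoc (vec k l), vec_sq h', two_mul (vec i j), mul_add, vec_sq h,
      show (2 : Module.End ℚ (V n)) + 2 = (4 : ℚ) • 1 by rw [Algebra.smul_def, mul_one, map_ofNat]; norm_num, smul_smul]
    norm_num
  inv_val := by
    rw [smul_mul_smul_comm, mul_assoc, ← mul_assoc (vec i j), vec_sq h, two_mul (vec k l), mul_add, vec_sq h',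
      show (2 : Module.End ℚ (V n)) + 2 = (4 : ℚ) • 1 by rw [Algebra.smul_def, mul_one, map_ofNat]; norm_num, smul_smul]
    norm_num

theorem flip_two {S : Type*} [Ring S] {a b c d e : S} (h1 : b * d = -(c * b)) (h2 : a * c = -(e * a)) :
    a * b * d = e * (a * b) := by
  rw [mul_assoc, h1, mul_neg, ← mul_assoc, h2, neg_mul, neg_neg, mul_assoc]

theorem sq_two {S : Type*} [Ring S] {v w : S} (h : w * v = -(v * w)) (hv : v * v = 2) (hw : w * w = 2) :
    v * w * (v * w) = -4 := by
  rw [mul_assoc, ← mul_assoc w, h, neg_mul, mul_neg, mul_assoc v w w, hw, ← mul_assoc, hv]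
  norm_num

/-- The lift of a pair of transpositions. -/
def gen {i j k l : Fin n} (h : i ≠ j) (h' : k ≠ l) : Amb n :=
  (genU h h', Equiv.swap i j * Equiv.swap k l)

theorem gen_mem_good {i j k l : Fin n} (h : i ≠ j) (h' : k ≠ l) : gen h h' ∈ good n := by
  refine ⟨by simp [gen, Equiv.Perm.sign_swap h, Equiv.Perm.sign_swap h'], fun c => ?_, fun c => ?_, ?_, fun f g => ?_⟩
  · show (1 / 2 : ℚ) • (vec i j * vec k l) * L c = L (Equiv.swap i j (Equiv.swap k l c)) * ((1 / 2 : ℚ) • (vec i j * vec k l))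
    rw [smul_mul_assoc, mul_smul_comm, flip_two (vec_L h' c) (vec_L h _)]
  · show (1 / 2 : ℚ) • (vec i j * vec k l) * R c = R c * ((1 / 2 : ℚ) • (vec i j * vec k l))
    rw [smul_mul_assoc, mul_smul_comm, mul_assoc, vec_R, ← mul_assoc, vec_R, mul_assoc]
  · show (1 / 2 : ℚ) • (vec i j * vec k l) * Par = Par * ((1 / 2 : ℚ) • (vec i j * vec k l))
    rw [smul_mul_assoc, mul_smul_comm, flip_two (vec_Par k l) (vec_Par i j)]
  · show inner' ((1 / 2 : ℚ) • vec i j (vec k l f)) ((1 / 2 : ℚ) • vec i j (vec k l g)) = _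
    have e : ∀ (a b : ℚ) (x y : V n), inner' (a • x) (b • y) = a * b * inner' x y := fun a b x y => by
      simp only [inner', Pi.smul_apply, smul_eq_mul, Finset.mul_sum]
      exact Finset.sum_congr rfl fun S _ => by ring
    have e2 : ∀ x : V n, (2 : Module.End ℚ (V n)) x = (2 : ℚ) • x := fun x => by
      rw [show (2 : Module.End ℚ (V n)) = (2 : ℚ) • 1 by rw [Algebra.smul_def, mul_one, map_ofNat]]
      rfl
    rw [e, vec_adjoint, ← Module.End.mul_apply, vec_sq h, e2, ← one_smul ℚ (vec k l f), e, vec_adjoint,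
      ← Module.End.mul_apply, vec_sq h', e2]
    rw [← one_smul ℚ f, e, one_smul]
    ring

/-- The spin group. -/
def spin (n : ℕ) : Subgroup (Amb n) :=
  Subgroup.closure {x | ∃ (i j k l : Fin n) (h : i ≠ j) (h' : k ≠ l), x = gen h h'}

theorem gen_mem {i j k l : Fin n} (h : i ≠ j) (h' : k ≠ l) : gen h h' ∈ spin n :=
  Subgroup.subset_closure ⟨i, j, k, l, h, h', rfl⟩

theorem spin_le_good : spin n ≤ good n := by
  refine (Subgroup.closure_le _).mpr ?_
  rintro x ⟨i, j, k, l, h, h', rfl⟩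
  exact gen_mem_good h h'

/-- The central element. -/
def negOne : Amb n := (-1, 1)

theorem negOne_ne_one : (negOne : Amb n) ≠ 1 := fun h => by
  have h1 := congrFun (LinearMap.congr_fun (congrArg (fun x : Amb n => x.1.1) h) (fun _ => (1 : ℚ))) ∅
  simp [negOne] at h1
  norm_num at h1

theorem eq_or_eq_of_snd_eq_one {x : Amb n} (hx : x ∈ spin n) (h : x.2 = 1) : x = 1 ∨ x = negOne := by
  obtain ⟨-, hL, hR, hP, hI⟩ := spin_le_good hx
  obtain ⟨u, σ⟩ := x
  simp only at h hL hR hP hI
  subst h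
  let δ : Finset (Fin n) → V n := fun S => Pi.single S 1
  set w := u.1 (δ ∅) with hw
  have hδ : ∀ (s : Fin n → Fin n → Prop) [DecidableRel s] (a : Fin n), eps s a a = 1 → ∀ S,
      op s a (δ S) = sgn s a S • δ (S ∆ {a}) := by
    intro s _ a _ S
    funext T
    rw [op_apply, Pi.smul_apply, smul_eq_mul]
    by_cases hT : T = S ∆ {a}
    · subst hT
      rw [symmDiff_symmDiff_cancel_right]
      simp [δ]
    · rw [show δ (S ∆ {a}) T = 0 from Pi.single_eq_of_ne hT _,
        show δ S (T ∆ {a}) = 0 from Pi.single_eq_of_ne (fun e => hT (by rw [← e, symmDiff_symmDiff_cancel_right])) _]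
      simp
  have heven : ∀ S, (-1 : ℚ) ^ S.card * w S = w S := by
    intro S
    have h1 := congrFun (LinearMap.congr_fun hP (δ ∅)) S
    have h2 : Par (δ ∅) = δ ∅ := by
      funext T
      show (-1 : ℚ) ^ T.card * δ ∅ T = δ ∅ T
      by_cases hT : T = ∅
      · subst hT; simp
      · simp [δ, hT]
    rw [Module.End.mul_apply, Module.End.mul_apply, h2, ← hw] at h1
    exact h1.symm
  have hLR : ∀ a, L a w = R a w := by
    intro a
    have h1 := LinearMap.congr_fun (hL a) (δ ∅)
    have h2 := LinearMap.congr_fun (hR a) (δ ∅)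
    simp only [Module.End.mul_apply, Equiv.Perm.coe_one, id_eq, hδ _ a (eps_self_lt a) ∅] at h1
    simp only [Module.End.mul_apply, hδ _ a (eps_self_gt a) ∅] at h2
    simp only [sgn, Finset.prod_empty] at h1 h2
    rw [hw, ← h1, h2]
  have hzero : ∀ S, S ≠ ∅ → w S = 0 := by
    intro S hS
    rcases Nat.even_or_odd S.card with he | ho
    · obtain ⟨a, ha⟩ := Finset.nonempty_iff_ne_empty.mpr hS
      have h1 := congrFun (hLR a) (S ∆ {a})
      rw [op_apply, op_apply, symmDiff_symmDiff_cancel_right] at h1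
      have h2 : sgn (· < ·) a S * sgn (· > ·) a S = -1 := by
        rw [sgn, sgn, ← Finset.prod_mul_distrib, ← Finset.mul_prod_erase S _ ha, eps_self_lt, eps_self_gt]
        rw [Finset.prod_congr rfl (g := fun _ => (-1 : ℚ)) fun b hb => ?_, Finset.prod_const,
          Finset.card_erase_of_mem ha, Odd.neg_one_pow]
        · norm_num
        · rcases he with ⟨k, hk⟩
          have := Finset.card_pos.mpr ⟨a, ha⟩
          exact ⟨k - 1, by omega⟩
        · rcases lt_or_gt_of_ne (Finset.ne_of_mem_erase hb) with h3 | h3 <;>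
            simp [eps, h3, not_lt.mpr h3.le]
      have h3 := sgn_mul_self (· > ·) a S
      linear_combination -(sgn (· > ·) a S / 2) * h1 + (w S / 2) * h2 - (w S / 2) * h3
    · have h1 := heven S
      rw [Odd.neg_one_pow ho] at h1
      linarith
  set c := w ∅ with hc
  have hwc : w = c • δ ∅ := by
    funext S
    by_cases hS : S = ∅
    · subst hS; simp [δ, c]
    · rw [hzero S hS]; simp [δ, hS]
  have hu : ∀ S, u.1 (δ S) = c • δ S := by
    intro S
    induction S using Finset.induction_on with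
    | empty => exact hw.symm.trans hwc
    | @insert a S ha ih =>
      have e1 : S ∆ {a} = insert a S := by
        ext x; simp only [Finset.mem_symmDiff, Finset.mem_singleton, Finset.mem_insert]; grind
      have h1 := LinearMap.congr_fun (hL a) (δ S)
      simp only [Module.End.mul_apply, Equiv.Perm.coe_one, id_eq, ih, map_smul, hδ _ a (eps_self_lt a) S, e1,
        smul_comm c (sgn (· < ·) a S)] at h1
      have h2 := congrArg (fun y => sgn (· < ·) a S • y) h1
      simpa only [smul_smul, ← mul_assoc, sgn_mul_self, one_mul, one_smul, map_smul] using h2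
  have huv : u.1 = c • 1 := by
    refine LinearMap.pi_ext fun S q => ?_
    have e : Pi.single S q = q • δ S := by
      rw [← Pi.single_smul, smul_eq_mul, mul_one]
    rw [e, map_smul, map_smul, hu]
    rfl
  have hc2 : c * c = 1 := by
    have h1 := hI (δ ∅) (δ ∅)
    rw [hu] at h1
    simpa [inner', δ, Pi.single_apply] using h1
  rcases mul_self_eq_one_iff.mp hc2 with h | h
  · left
    exact Prod.ext (Units.ext (by rw [huv, h, one_smul]; rfl)) rfl
  · right
    exact Prod.ext (Units.ext (by rw [huv, h]; ext; simp [negOne])) rfl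

theorem vec_anticomm {i j k l : Fin n} (h : i ≠ j) (hki : k ≠ i) (hkj : k ≠ j) (hli : l ≠ i) (hlj : l ≠ j) :
    vec i j * vec k l = -(vec k l * vec i j) := by
  calc vec i j * vec k l = vec i j * L k - vec i j * L l := mul_sub _ _ _
    _ = -(vec k l * vec i j) := by
      rw [vec_L h, vec_L h, Equiv.swap_apply_of_ne_of_ne hki hkj, Equiv.swap_apply_of_ne_of_ne hli hlj]
      simp only [vec, sub_mul]; abel

/-- The commutator of two lifts in a four-group. -/
theorem gen_conj {a b c d : Fin n} (hab : a ≠ b) (hac : a ≠ c) (had : a ≠ d) (hbc : b ≠ c) (hbd : b ≠ d)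
    (hcd : c ≠ d) : gen hac hbd * gen hab hcd = negOne * gen hab hcd * gen hac hbd := by
  refine Prod.ext (Units.ext ?_) ?_
  · show (1 / 2 : ℚ) • (vec a c * vec b d) * ((1 / 2 : ℚ) • (vec a b * vec c d)) =
      -1 * ((1 / 2 : ℚ) • (vec a b * vec c d)) * ((1 / 2 : ℚ) • (vec a c * vec b d))
    have hg := (spin_le_good (gen_mem hac hbd)).2.1
    have hb : ∀ z, vec a c * vec b d * L z = L (Equiv.swap a c (Equiv.swap b d z)) * (vec a c * vec b d) := fun z =>
      flip_two (vec_L hbd z) (vec_L hac _)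
    have hb' : ∀ x y, vec a c * vec b d * vec x y =
        vec (Equiv.swap a c (Equiv.swap b d x)) (Equiv.swap a c (Equiv.swap b d y)) * (vec a c * vec b d) :=
      fun x y => by rw [show vec x y = L x - L y from rfl, mul_sub, hb, hb, ← sub_mul]
    have h1 : vec a c * vec b d * vec a b = vec c d * (vec a c * vec b d) := by
      rw [hb' a b, Equiv.swap_apply_of_ne_of_ne hab had, Equiv.swap_apply_left, Equiv.swap_apply_left,
        Equiv.swap_apply_of_ne_of_ne had.symm hcd.symm]
    have h2 : vec a c * vec b d * vec c d = vec a b * (vec a c * vec b d) := by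
      rw [hb' c d, Equiv.swap_apply_of_ne_of_ne hbc.symm hcd, Equiv.swap_apply_right, Equiv.swap_apply_right,
        Equiv.swap_apply_of_ne_of_ne hab.symm hbc]
    rw [smul_mul_smul_comm, ← mul_assoc, h1, mul_assoc (vec c d), h2, ← mul_assoc,
      vec_anticomm hcd hac had hbc hbd]
    refine LinearMap.ext fun f => ?_
    simp only [Module.End.mul_apply, LinearMap.smul_apply, LinearMap.neg_apply, map_smul, Module.End.one_apply, smul_smul, smul_neg]
  · show Equiv.swap a c * Equiv.swap b d * (Equiv.swap a b * Equiv.swap c d) =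
      1 * (Equiv.swap a b * Equiv.swap c d) * (Equiv.swap a c * Equiv.swap b d)
    refine Equiv.ext fun x => ?_
    simp only [Equiv.Perm.mul_apply, one_mul]
    by_cases xa : x = a
    · simp [xa, Equiv.swap_apply_of_ne_of_ne, hab, hab.symm, hac, hac.symm, had, had.symm, hbc, hbc.symm, hbd, hbd.symm, hcd, hcd.symm]
    by_cases xb : x = b
    · simp [xb, Equiv.swap_apply_of_ne_of_ne, hab, hab.symm, hac, hac.symm, had, had.symm, hbc, hbc.symm, hbd, hbd.symm, hcd, hcd.symm]
    by_cases xc : x = c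
    · simp [xc, Equiv.swap_apply_of_ne_of_ne, hab, hab.symm, hac, hac.symm, had, had.symm, hbc, hbc.symm, hbd, hbd.symm, hcd, hcd.symm]
    by_cases xd : x = d
    · simp [xd, Equiv.swap_apply_of_ne_of_ne, hab, hab.symm, hac, hac.symm, had, had.symm, hbc, hbc.symm, hbd, hbd.symm, hcd, hcd.symm]
    simp [Equiv.swap_apply_of_ne_of_ne, xa, xb, xc, xd]

theorem gen_sq {a b c d : Fin n} (hab : a ≠ b) (hac : a ≠ c) (had : a ≠ d) (hbc : b ≠ c) (hbd : b ≠ d)
    (hcd : c ≠ d) : gen hab hcd * gen hab hcd = negOne := by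
  refine Prod.ext (Units.ext ?_) ?_
  · show (1 / 2 : ℚ) • (vec a b * vec c d) * ((1 / 2 : ℚ) • (vec a b * vec c d)) = -1
    rw [smul_mul_smul_comm, sq_two (vec_anticomm hcd hac had hbc hbd) (vec_sq hab) (vec_sq hcd)]
    refine LinearMap.ext fun f => funext fun S => ?_
    rw [show (4 : Module.End ℚ (V n)) = (4 : ℚ) • 1 by rw [Algebra.smul_def, mul_one, map_ofNat]]
    simp only [LinearMap.smul_apply, LinearMap.neg_apply, Pi.smul_apply, Pi.neg_apply, Module.End.one_apply, smul_eq_mul]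
    ring
  · show Equiv.swap a b * Equiv.swap c d * (Equiv.swap a b * Equiv.swap c d) = 1
    refine Equiv.ext fun x => ?_
    simp only [Equiv.Perm.mul_apply, Equiv.Perm.coe_one, id_eq]
    by_cases xa : x = a
    · simp [xa, Equiv.swap_apply_of_ne_of_ne, hab, hab.symm, hac, hac.symm, had, had.symm, hbc, hbc.symm, hbd, hbd.symm, hcd, hcd.symm]
    by_cases xb : x = b
    · simp [xb, Equiv.swap_apply_of_ne_of_ne, hab, hab.symm, hac, hac.symm, had, had.symm, hbc, hbc.symm, hbd, hbd.symm, hcd, hcd.symm]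
    by_cases xc : x = c
    · simp [xc, Equiv.swap_apply_of_ne_of_ne, hab, hab.symm, hac, hac.symm, had, had.symm, hbc, hbc.symm, hbd, hbd.symm, hcd, hcd.symm]
    by_cases xd : x = d
    · simp [xd, Equiv.swap_apply_of_ne_of_ne, hab, hab.symm, hac, hac.symm, had, had.symm, hbc, hbc.symm, hbd, hbd.symm, hcd, hcd.symm]
    simp [Equiv.swap_apply_of_ne_of_ne, xa, xb, xc, xd]

theorem gen_commute {a b c d i j k l : Fin n} (hab : a ≠ b) (hcd : c ≠ d) (hij : i ≠ j) (hkl : k ≠ l)
    (h1 : a ≠ i ∧ a ≠ j ∧ a ≠ k ∧ a ≠ l) (h2 : b ≠ i ∧ b ≠ j ∧ b ≠ k ∧ b ≠ l)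
    (h3 : c ≠ i ∧ c ≠ j ∧ c ≠ k ∧ c ≠ l) (h4 : d ≠ i ∧ d ≠ j ∧ d ≠ k ∧ d ≠ l) :
    gen hab hcd * gen hij hkl = gen hij hkl * gen hab hcd := by
  refine Prod.ext (Units.ext ?_) ?_
  · show (1 / 2 : ℚ) • (vec a b * vec c d) * ((1 / 2 : ℚ) • (vec i j * vec k l)) =
      (1 / 2 : ℚ) • (vec i j * vec k l) * ((1 / 2 : ℚ) • (vec a b * vec c d))
    rw [smul_mul_smul_comm, smul_mul_smul_comm]
    congr 1
    have e1 := flip_two (vec_anticomm hcd h3.1.symm h4.1.symm h3.2.1.symm h4.2.1.symm)
      (vec_anticomm hab h1.1.symm h2.1.symm h1.2.1.symm h2.2.1.symm)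
    have e2 := flip_two (vec_anticomm hcd h3.2.2.1.symm h4.2.2.1.symm h3.2.2.2.symm h4.2.2.2.symm)
      (vec_anticomm hab h1.2.2.1.symm h2.2.2.1.symm h1.2.2.2.symm h2.2.2.2.symm)
    rw [← mul_assoc, e1, mul_assoc, e2, ← mul_assoc]
  · show Equiv.swap a b * Equiv.swap c d * (Equiv.swap i j * Equiv.swap k l) =
      Equiv.swap i j * Equiv.swap k l * (Equiv.swap a b * Equiv.swap c d)
    have hd : ∀ {u v s t : Fin n}, u ≠ s → u ≠ t → v ≠ s → v ≠ t →
        Commute (Equiv.swap u v) (Equiv.swap s t) := fun {u v s t} p1 p2 p3 p4 => by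
      refine Equiv.ext fun x => ?_
      simp only [Equiv.Perm.mul_apply, Equiv.swap_apply_def]
      split_ifs <;> simp_all
    exact ((hd h1.1 h1.2.1 h2.1 h2.2.1).mul_left (hd h3.1 h3.2.1 h4.1 h4.2.1)).mul_right
      ((hd h1.2.2.1 h1.2.2.2 h2.2.2.1 h2.2.2.2).mul_left (hd h3.2.2.1 h3.2.2.2 h4.2.2.1 h4.2.2.2))

/-- The spin double cover of the alternating group. -/
abbrev Cover (n : ℕ) : Type := ↥(spin n)

theorem exists_lift (hn : 2 ≤ n) (σ : Equiv.Perm (Fin n)) (hσ : Equiv.Perm.sign σ = 1) :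
    ∃ x ∈ spin n, x.2 = σ := by
  have h01 : (⟨0, by omega⟩ : Fin n) ≠ ⟨1, by omega⟩ := by simp
  set w := Equiv.swap (⟨0, by omega⟩ : Fin n) ⟨1, by omega⟩
  suffices h : (Equiv.Perm.sign σ = 1 → ∃ x ∈ spin n, x.2 = σ) ∧
      (Equiv.Perm.sign σ = -1 → ∃ x ∈ spin n, x.2 = w * σ) from h.1 hσ
  clear hσ
  induction σ using Equiv.Perm.swap_induction_on with
  | one => exact ⟨fun _ => ⟨1, one_mem _, rfl⟩, fun h => by simp at h⟩
  | swap_mul f x y hxy ih =>
    constructor
    · intro h
      obtain ⟨z, hz, hz2⟩ := ih.2 (by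
        rw [map_mul, Equiv.Perm.sign_swap hxy, neg_one_mul] at h
        exact neg_eq_iff_eq_neg.mp h)
      refine ⟨gen hxy h01 * z, mul_mem (gen_mem hxy h01) hz, ?_⟩
      show Equiv.swap x y * w * z.2 = _
      rw [hz2, mul_assoc, ← mul_assoc w w, Equiv.swap_mul_self, one_mul]
    · intro h
      obtain ⟨z, hz, hz2⟩ := ih.1 (by
        rw [map_mul, Equiv.Perm.sign_swap hxy, neg_one_mul] at h
        exact neg_inj.mp h)
      refine ⟨gen h01 hxy * z, mul_mem (gen_mem h01 hxy) hz, ?_⟩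
      show w * Equiv.swap x y * z.2 = _
      rw [hz2, mul_assoc]

/-- The projection onto the alternating group. -/
def proj (n : ℕ) : Cover n →* alternatingGroup (Fin n) :=
  ((MonoidHom.snd _ _).comp (spin n).subtype).codRestrict _ fun x =>
    Equiv.Perm.mem_alternatingGroup.mpr (spin_le_good x.2).1

theorem proj_surjective (hn : 2 ≤ n) : Function.Surjective (proj n) := fun σ => by
  obtain ⟨x, hx, h⟩ := exists_lift hn σ.1 (Equiv.Perm.mem_alternatingGroup.mp σ.2)
  exact ⟨⟨x, hx⟩, Subtype.ext h⟩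

theorem negOne_mem (hn : 4 ≤ n) : (negOne : Amb n) ∈ spin n := by
  have hab : (⟨0, by omega⟩ : Fin n) ≠ ⟨1, by omega⟩ := by simp
  have hac : (⟨0, by omega⟩ : Fin n) ≠ ⟨2, by omega⟩ := by simp
  have had : (⟨0, by omega⟩ : Fin n) ≠ ⟨3, by omega⟩ := by simp
  have hbc : (⟨1, by omega⟩ : Fin n) ≠ ⟨2, by omega⟩ := by simp
  have hbd : (⟨1, by omega⟩ : Fin n) ≠ ⟨3, by omega⟩ := by simp
  have hcd : (⟨2, by omega⟩ : Fin n) ≠ ⟨3, by omega⟩ := by simp
  have h := gen_conj hab hac had hbc hbd hcd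
  have e : (negOne : Amb n) = gen hac hbd * gen hab hcd * (gen hac hbd)⁻¹ * (gen hab hcd)⁻¹ := by
    rw [h]; group
  rw [e]
  exact mul_mem (mul_mem (mul_mem (gen_mem _ _) (gen_mem _ _)) (inv_mem (gen_mem _ _))) (inv_mem (gen_mem _ _))

/-- The central involution of the cover. -/
def z (hn : 4 ≤ n) : Cover n := ⟨negOne, negOne_mem hn⟩

theorem z_sq (hn : 4 ≤ n) : z hn ^ 2 = 1 :=
  Subtype.ext (Prod.ext (Units.ext (by simp [z, negOne, pow_two])) (by simp [z, negOne]))

theorem orderOf_z (hn : 4 ≤ n) : orderOf (z hn) = 2 := by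
  haveI := Fact.mk Nat.prime_two
  exact orderOf_eq_prime (z_sq hn) fun h => negOne_ne_one (congrArg Subtype.val h)

theorem z_central (hn : 4 ≤ n) : z hn ∈ Subgroup.center (Cover n) :=
  Subgroup.mem_center_iff.mpr fun g => Subtype.ext (Prod.ext (Units.ext (by simp [z, negOne])) (by simp [z, negOne]))

theorem ker_proj (hn : 4 ≤ n) : (proj n).ker = Subgroup.zpowers (z hn) := by
  refine le_antisymm (fun x hx => ?_) (Subgroup.zpowers_le.mpr (Subtype.ext rfl))
  rcases eq_or_eq_of_snd_eq_one x.2 (congrArg Subtype.val (MonoidHom.mem_ker.mp hx)) with h | h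
  · rw [show x = 1 from Subtype.ext h]; exact one_mem _
  · rw [show x = z hn from Subtype.ext h]; exact Subgroup.mem_zpowers _

theorem finite_cover (hn : 4 ≤ n) : Finite (Cover n) := by
  classical
  choose sec hsec using proj_surjective (show 2 ≤ n by omega)
  refine Finite.of_injective (fun x => (proj n x, decide (x = sec (proj n x)))) fun x y h => ?_
  simp only [Prod.mk.injEq, decide_eq_decide] at h
  obtain ⟨h1, h2⟩ := h
  by_cases hx : x = sec (proj n x)
  · rw [hx, h2.mp hx, h1]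
  have key : ∀ w : Cover n, w ≠ sec (proj n w) → w = sec (proj n w) * z hn := fun w hw => by
    have h3 : (sec (proj n w))⁻¹ * w ∈ (proj n).ker := by
      rw [MonoidHom.mem_ker, map_mul, map_inv, hsec, inv_mul_cancel]
    rcases eq_or_eq_of_snd_eq_one ((sec (proj n w))⁻¹ * w).2 (congrArg Subtype.val (MonoidHom.mem_ker.mp h3)) with h4 | h4
    · exact absurd (inv_mul_eq_one.mp (Subtype.ext h4 : (sec (proj n w))⁻¹ * w = 1)).symm hw
    · exact (inv_mul_eq_iff_eq_mul.mp (Subtype.ext h4 : (sec (proj n w))⁻¹ * w = z hn))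
  rw [key x hx, key y (fun e => hx (h2.mpr e)), h1]

open scoped commutatorElement in
theorem z_mem_commutator (hn : 4 ≤ n) : z hn ∈ commutator (Cover n) := by
  have hab : (⟨0, by omega⟩ : Fin n) ≠ ⟨1, by omega⟩ := by simp
  have hac : (⟨0, by omega⟩ : Fin n) ≠ ⟨2, by omega⟩ := by simp
  have had : (⟨0, by omega⟩ : Fin n) ≠ ⟨3, by omega⟩ := by simp
  have hbc : (⟨1, by omega⟩ : Fin n) ≠ ⟨2, by omega⟩ := by simp
  have hbd : (⟨1, by omega⟩ : Fin n) ≠ ⟨3, by omega⟩ := by simp
  have hcd : (⟨2, by omega⟩ : Fin n) ≠ ⟨3, by omega⟩ := by simp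
  have h := gen_conj hab hac had hbc hbd hcd
  have e : z hn = ⁅(⟨gen hac hbd, gen_mem _ _⟩ : Cover n), ⟨gen hab hcd, gen_mem _ _⟩⁆ := by
    refine Subtype.ext ?_
    show negOne = gen hac hbd * gen hab hcd * (gen hac hbd)⁻¹ * (gen hab hcd)⁻¹
    rw [h]; group
  rw [e]
  exact Subgroup.commutator_mem_commutator (Subgroup.mem_top _) (Subgroup.mem_top _)

end Cfsg.Agent.Core.Spin
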