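/-
Core library: families of subnormal subgroups and Wielandt's uniqueness lemma.
-/
import Cfsg.Agent.Core.Subnormal

set_option autoImplicit false
set_option linter.style.haveILetI false

namespace Cfsg.Agent.Core

open Subgroup
open scoped Pointwise

variable {G : Type*} [Group G] [Finite G]

theorem isSubnormal_sSup {S : Set (Subgroup G)} (h : ∀ U ∈ S, U.IsSubnormal) : (sSup S).IsSubnormal := by
  refine Set.Finite.induction_on_subset _ (Set.toFinite S) ?_ ?_
  · rw [sSup_empty]; exact IsSubnormal.bot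
  · intro U T hU _ _ hT
    rw [sSup_insert]
    exact isSubnormal_sup (h U hU) hT

/-- A proper subfamily of a conjugation-closed family of subnormal subgroups is normalized by a
member outside it. -/
theorem exists_member_normalizing {S S₀ : Set (Subgroup G)} (hS : ∀ U ∈ S, U.IsSubnormal)
    (hconj : ∀ U ∈ S, ∀ g : G, MulAut.conj g • U ∈ S) (h₀ : S₀ ⊂ S) :
    ∃ X ∈ S, X ∉ S₀ ∧ X ≤ normalizer ((sSup S₀ : Subgroup G) : Set G) := by
  set J := sSup S₀ with hJdef
  have hJ : J.IsSubnormal := isSubnormal_sSup fun U hU => hS U (h₀.subset hU)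
  by_cases hn : J.Normal
  · obtain ⟨X, hX, hX₀⟩ := Set.exists_of_ssubset h₀
    exact ⟨X, hX, hX₀, le_top.trans_eq (normalizer_eq_top_iff.mpr hn).symm⟩
  obtain ⟨x, hne, hle⟩ := exists_conj_le_normalizer_of_isSubnormal hJ (S := J) le_rfl le_normalizer hn
  by_cases hall : ∀ U ∈ S₀, MulAut.conj x • U ∈ S₀
  · refine absurd ?_ hne
    refine eq_of_le_of_card_ge ?_ (card_conj_smul x J).ge
    rw [Subgroup.pointwise_smul_subset_iff]
    refine sSup_le fun U hU => ?_
    rw [← Subgroup.pointwise_smul_subset_iff]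
    exact le_sSup (hall U hU)
  · push Not at hall
    obtain ⟨U, hU, hUx⟩ := hall
    exact ⟨_, hconj U (h₀.subset hU) x, hUx,
      (pointwise_smul_le_pointwise_smul_iff.mpr (le_sSup hU)).trans hle⟩

/-- **Wielandt**: a family with the three closure conditions has a greatest member. -/
theorem exists_greatest_member (A : Subgroup G) (U : Set (Subgroup G)) (hU : U.Nonempty)
    (S : Subgroup G → Set (Subgroup G))
    (hS : ∀ V B : Subgroup G, B ∈ S V ↔ (∃ g : G, B = MulAut.conj g • A) ∧ B ≤ V ∧ (B.subgroupOf V).IsSubnormal)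
    (h2 : ∀ V ∈ U, ∀ W ∈ U, ∀ B ∈ S W, B ≤ V → B ∈ S V)
    (h3 : ∀ V ∈ U, ∀ W ∈ U, ∃ X ∈ U, normalizer ((sSup (S V ∩ S W) : Subgroup G) : Set G) ≤ X) :
    ∃ M ∈ U, ∀ V ∈ U, V ≤ M := by
  classical
  obtain ⟨M, hM, hMmax⟩ := (Set.toFinite U).exists_maximal hU
  refine ⟨M, hM, fun V hV => ?_⟩
  obtain ⟨V₁, hVV₁, hV₁, hV₁max⟩ := (Set.toFinite U).exists_le_maximal hV
  suffices hEq : ∀ P Q : Subgroup G, Maximal (· ∈ U) P → Maximal (· ∈ U) Q → P = Q from
    hVV₁.trans (hEq V₁ M ⟨hV₁, hV₁max⟩ ⟨hM, hMmax⟩).le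
  by_contra hcon
  push Not at hcon
  obtain ⟨P₀, Q₀, hP₀, hQ₀, hne₀⟩ := hcon
  obtain ⟨⟨P, Q⟩, ⟨hP, hQ, hne⟩, hmax⟩ :=
    (Set.toFinite {z : Subgroup G × Subgroup G | Maximal (· ∈ U) z.1 ∧ Maximal (· ∈ U) z.2 ∧ z.1 ≠ z.2}).exists_maximalFor
      (fun z => (S z.1 ∩ S z.2).ncard) _ ⟨(P₀, Q₀), hP₀, hQ₀, hne₀⟩
  simp only at hP hQ hne
  obtain ⟨X, hX, hJX⟩ := h3 P hP.1 Q hQ.1
  obtain ⟨X', hXX', hX'⟩ := (Set.toFinite U).exists_le_maximal hX
  set D := S P ∩ S Q with hD
  set J := sSup D with hJ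
  have hJN : normalizer (J : Set G) ≤ X' := hJX.trans hXX'
  -- a maximal member with `S` equal to `D` normalizes `J`
  have hnorm : ∀ R : Subgroup G, D = S R → R ≤ normalizer (J : Set G) := by
    intro R hR r hr
    rw [mem_normalizer_iff_map_conj_eq]
    refine eq_of_le_of_card_ge ?_ (Subgroup.card_map_of_injective (MulAut.conj r).injective).ge
    rw [Subgroup.map_le_iff_le_comap]
    refine sSup_le fun B hB => Subgroup.map_le_iff_le_comap.mp (le_sSup ?_)
    rw [hR, hS] at hB ⊢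
    obtain ⟨⟨g, rfl⟩, hle, hsub⟩ := hB
    refine ⟨⟨r * g, (conj_mul_smul r g A).symm⟩, ?_, ?_⟩
    · rintro _ ⟨z, hz, rfl⟩
      exact R.mul_mem (R.mul_mem hr (hle hz)) (R.inv_mem hr)
    · have h' := hsub.map (f := (MulAut.conj (⟨r, hr⟩ : R)).toMonoidHom) (MulAut.conj _).surjective
      convert h' using 1
      ext z
      rw [mem_subgroupOf]
      constructor
      · rintro ⟨w, hw, hwz⟩
        exact ⟨⟨w, hle hw⟩, hw, Subtype.ext hwz⟩
      · rintro ⟨w, hw, rfl⟩
        exact ⟨(w : G), hw, rfl⟩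
  -- outside `D`, a member of `S R` normalizing `J`
  have step : ∀ R : Subgroup G, R = P ∨ R = Q → D ≠ S R →
      ∃ B ∈ S R, B ∉ D ∧ B ≤ normalizer (J : Set G) ∧ R = X' := by
    intro R hR hDR
    have hRmax : Maximal (· ∈ U) R := by rcases hR with rfl | rfl <;> assumption
    have hDsub : D ⊆ S R := by
      rcases hR with rfl | rfl
      · exact Set.inter_subset_left
      · exact Set.inter_subset_right
    have hinj : ∀ {B C : Subgroup G}, B ≤ R → C ≤ R → B.subgroupOf R = C.subgroupOf R → B = C := by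
      intro B C hB hC h
      rw [← map_subgroupOf_eq_of_le hB, h, map_subgroupOf_eq_of_le hC]
    obtain ⟨B, hB, hBD, hBn⟩ : ∃ B ∈ S R, B ∉ D ∧ B ≤ normalizer (J : Set G) := by
      obtain ⟨Y, hY, hY₀, hYn⟩ := exists_member_normalizing (G := R)
        (S := (fun B => B.subgroupOf R) '' S R) (S₀ := (fun B => B.subgroupOf R) '' D)
        (by rintro _ ⟨B, hB, rfl⟩; exact ((hS R B).mp hB).2.2)
        (by
          rintro _ ⟨B, hB, rfl⟩ r
          obtain ⟨⟨g, rfl⟩, hle, hsub⟩ := (hS R B).mp hB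
          have hmap : (MulAut.conj r • (MulAut.conj g • A).subgroupOf R).map R.subtype =
              MulAut.conj ((r : G) * g) • A := by
            rw [map_conj_smul, map_subgroupOf_eq_of_le hle, conj_mul_smul]; rfl
          refine ⟨MulAut.conj ((r : G) * g) • A, (hS R _).mpr ⟨⟨_, rfl⟩, hmap ▸ map_subtype_le _, ?_⟩, ?_⟩
          · have : (MulAut.conj ((r : G) * g) • A).subgroupOf R = MulAut.conj r • (MulAut.conj g • A).subgroupOf R := by
              rw [← hmap]; exact comap_map_eq_self_of_injective R.subtype_injective _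
            rw [this, conj_smul_eq_map]
            exact hsub.map (MulAut.conj r).surjective
          · show (MulAut.conj ((r : G) * g) • A).subgroupOf R = _
            rw [← hmap]; exact comap_map_eq_self_of_injective R.subtype_injective _)
        (by
          refine Set.ssubset_iff_subset_ne.mpr ⟨Set.image_mono hDsub, fun h => hDR ?_⟩
          refine Set.Subset.antisymm hDsub fun B hB => ?_
          obtain ⟨C, hC, hCB⟩ := h.ge (Set.mem_image_of_mem _ hB)
          exact (hinj ((hS R C).mp (hDsub hC)).2.1 ((hS R B).mp hB).2.1 hCB) ▸ hC)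
      obtain ⟨B, hB, rfl⟩ := hY
      refine ⟨B, hB, fun h => hY₀ (Set.mem_image_of_mem _ h), ?_⟩
      have hBR := ((hS R B).mp hB).2.1
      have hJR : J ≤ R := sSup_le fun C hC => ((hS R C).mp (hDsub hC)).2.1
      have hmapJ : (sSup ((fun B : Subgroup G => B.subgroupOf R) '' D)).map R.subtype = J := by
        rw [hJ, sSup_eq_iSup, sSup_eq_iSup, Subgroup.map_iSup]
        simp only [Subgroup.map_iSup, iSup_image]
        refine iSup_congr fun C => iSup_congr fun hC => ?_
        exact map_subgroupOf_eq_of_le ((hS R C).mp (hDsub hC)).2.1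
      rw [← map_subgroupOf_eq_of_le hBR, ← hmapJ]
      exact (map_mono hYn).trans (le_normalizer_map _)
    refine ⟨B, hB, hBD, hBn, ?_⟩
    by_contra hne'
    have hlt : D ⊂ S R ∩ S X' := by
      refine Set.ssubset_iff_subset_ne.mpr ⟨fun C hC => ⟨hDsub hC, ?_⟩, fun h => hBD (h.symm ▸ ⟨hB, ?_⟩)⟩
      · exact h2 X' hX'.1 R hRmax.1 C (hDsub hC) ((le_sSup hC).trans (le_normalizer.trans hJN))
      · exact h2 X' hX'.1 R hRmax.1 B hB (hBn.trans hJN)
    have h1 := Set.ncard_lt_ncard hlt (Set.toFinite _)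
    exact absurd (hmax (show (R, X') ∈ _ from ⟨hRmax, hX', hne'⟩) h1.le) (not_le.mpr h1)
  have hX'eq : ∀ R : Subgroup G, R = P ∨ R = Q → R = X' := by
    intro R hR
    by_cases h : D = S R
    · have hRle : R ≤ X' := (hnorm R h).trans hJN
      have hRmax : Maximal (· ∈ U) R := by rcases hR with rfl | rfl <;> assumption
      exact le_antisymm hRle (hRmax.2 hX'.1 hRle)
    · obtain ⟨B, -, -, -, h'⟩ := step R hR h; exact h'
  exact hne ((hX'eq P (Or.inl rfl)).trans (hX'eq Q (Or.inr rfl)).symm)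

end Cfsg.Agent.Core
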