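/-
The transvection groups of a symplectic space form a degenerate class of root subgroups.
-/
import Cfsg.Agent.KnownB.Proj.Symp.Transv
import Cfsg.Agent.Fischer.SL2Pair
import Cfsg.Agent.Fischer.RootMember
import Cfsg.Agent.Forms.SympMatrix

set_option autoImplicit false
set_option linter.unusedSectionVars false

namespace Cfsg.Agent.Core.SympRootGroups

open Matrix Cfsg.Agent.KnownB.Proj.Symp
open scoped commutatorElement

universe u

variable {m : ℕ} {F : Type u} [Field F]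

local notation "Vm" => (Fin m ⊕ Fin m → F)
local notation "Spm" => Matrix.symplecticGroup (Fin m) F
local notation "B" => Cfsg.sympForm m F
local notation "SL2" => Matrix.SpecialLinearGroup (Fin 2) F

theorem map_rankOne {G H : Type*} [Group G] [Group H] (f : G →* H) (hf : Function.Injective f)
    {A A' : Subgroup G} (h : Cfsg.IsRankOnePair A A') : Cfsg.IsRankOnePair (A.map f) (A'.map f) := by
  have key : ∀ {A A' : Subgroup G}, Cfsg.RankOneCondition A A' →
      Cfsg.RankOneCondition (A.map f) (A'.map f) := by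
    intro A A' hc
    rintro _ ⟨a, ha, rfl⟩ ha1
    obtain ⟨b, hb, hb1, e⟩ := hc a ha (fun e => ha1 (by rw [e, map_one]))
    refine ⟨f b, ⟨b, hb, rfl⟩, fun e => hb1 (hf (e.trans (map_one f).symm)), ?_⟩
    have hcj : ∀ (C : Subgroup G) (g : G), Cfsg.conjBy (C.map f) (f g) = (Cfsg.conjBy C g).map f := by
      intro C g
      simp only [Cfsg.conjBy, Subgroup.map_map]
      congr 1
      ext x
      simp
    rw [← map_inv, ← map_inv, hcj, hcj, e]
  refine ⟨fun e => h.ne (Subgroup.map_injective hf e), ?_, ?_, key h.cond_left, key h.cond_right⟩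
  · haveI := h.nilpotent_left
    exact Group.nilpotent_of_mulEquiv (Subgroup.equivMapOfInjective A f hf)
  · haveI := h.nilpotent_right
    exact Group.nilpotent_of_mulEquiv (Subgroup.equivMapOfInjective A' f hf)

/-- The root group of a vector. -/
def X (v : Vm) : Subgroup Spm where
  carrier := {g | ∃ c : F, g = T v c}
  mul_mem' := by rintro _ _ ⟨a, rfl⟩ ⟨b, rfl⟩; exact ⟨a + b, T_add v a b⟩
  one_mem' := ⟨0, (T_zero v).symm⟩
  inv_mem' := by
    rintro _ ⟨a, rfl⟩
    exact ⟨-a, inv_eq_of_mul_eq_one_right (by rw [T_add, add_neg_cancel, T_zero])⟩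

/-- The class. -/
def rootClass (m : ℕ) (F : Type u) [Field F] : Set (Subgroup (Matrix.symplecticGroup (Fin m) F)) :=
  {A | ∃ v : Fin m ⊕ Fin m → F, v ≠ 0 ∧ A = X v}

theorem X_smul (v : Vm) {k : F} (hk : k ≠ 0) : X (k • v) = X v := by
  ext g
  constructor
  · rintro ⟨c, rfl⟩; exact ⟨c * k ^ 2, T_smul v k c⟩
  · rintro ⟨c, rfl⟩; exact ⟨c / k ^ 2, by rw [T_smul, div_mul_cancel₀ _ (pow_ne_zero 2 hk)]⟩

theorem conj_X (s : Spm) (v : Vm) : Cfsg.conjBy (X v) s = X (s.1 *ᵥ v) := by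
  ext g
  constructor
  · rintro ⟨_, ⟨c, rfl⟩, rfl⟩
    exact ⟨c, T_conj s v c⟩
  · rintro ⟨c, rfl⟩
    exact ⟨T v c, ⟨c, rfl⟩, T_conj s v c⟩

/-- The action of `g ∈ SL₂` on the plane spanned by `u`, `w`. -/
def act (u w : Vm) (g : SL2) : Vm →ₗ[F] Vm where
  toFun x := x + ((g.1 0 0 - 1) * B x w + g.1 0 1 * B u x) • u + (g.1 1 0 * B x w + (g.1 1 1 - 1) * B u x) • w
  map_add' x y := by simp only [B_add_left, B_add_right]; module
  map_smul' c x := by simp only [B_smul_left, B_smul_right, RingHom.id_apply]; module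

theorem act_apply (u w : Vm) (g : SL2) (x : Vm) : act u w g x =
    x + ((g.1 0 0 - 1) * B x w + g.1 0 1 * B u x) • u + (g.1 1 0 * B x w + (g.1 1 1 - 1) * B u x) • w := rfl

theorem act_mul {u w : Vm} (h : B u w = 1) (g g' : SL2) (x : Vm) :
    act u w (g * g') x = act u w g (act u w g' x) := by
  simp only [act_apply, Matrix.SpecialLinearGroup.coe_mul, Matrix.mul_apply, Fin.sum_univ_two, B_add_left,
    B_add_right, B_smul_left, B_smul_right, B_self, B_swap w u, h]
  module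

/-- The embedding of `SL₂` attached to a hyperbolic pair. -/
def hom {u w : Vm} (h : B u w = 1) : SL2 →* Spm where
  toFun g := ⟨LinearMap.toMatrix' (act u w g), Forms.mem_symplectic_iff.mpr fun x y => by
    simp only [← Matrix.toLin'_apply, Matrix.toLin'_toMatrix', act_apply, B_add_left, B_add_right, B_smul_left,
      B_smul_right, B_self, B_swap w u, h]
    rw [B_swap w y, B_swap x u]
    have hd : g.1 0 0 * g.1 1 1 - g.1 0 1 * g.1 1 0 = 1 := by rw [← Matrix.det_fin_two]; exact g.2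
    linear_combination (B x w * B u y - B u x * B y w) * hd⟩
  map_one' := sp_ext fun x => by
    show LinearMap.toMatrix' (act u w 1) *ᵥ x = _
    rw [sp_one_mulVec, LinearMap.toMatrix'_mulVec, act_apply]
    simp
  map_mul' g g' := sp_ext fun x => by
    rw [sp_mul_mulVec]
    show LinearMap.toMatrix' (act u w (g * g')) *ᵥ x = LinearMap.toMatrix' (act u w g) *ᵥ (LinearMap.toMatrix' (act u w g') *ᵥ x)
    rw [LinearMap.toMatrix'_mulVec, LinearMap.toMatrix'_mulVec, LinearMap.toMatrix'_mulVec, act_mul h]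

theorem hom_mulVec {u w : Vm} (h : B u w = 1) (g : SL2) (x : Vm) : (hom h g).1 *ᵥ x = act u w g x :=
  LinearMap.toMatrix'_mulVec (act u w g) x

theorem hom_injective {u w : Vm} (h : B u w = 1) : Function.Injective (hom h) := by
  refine (injective_iff_map_eq_one (hom h)).2 fun g hg => ?_
  have hu := hom_mulVec h g u
  have hw := hom_mulVec h g w
  rw [hg, sp_one_mulVec, act_apply, h, B_self] at hu hw
  simp only [mul_one, mul_zero, add_zero, zero_add, add_assoc, left_eq_add] at hu hw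
  have hli : ∀ a b : F, a • u + b • w = 0 → a = 0 ∧ b = 0 := fun a b e => by
    constructor
    · have := congrArg (fun z => B z w) e
      simpa [B_add_left, B_smul_left, B_self, B_zero_left, h] using this
    · have := congrArg (fun z => B u z) e
      simpa [B_add_right, B_smul_right, B_self, B_zero_right, h] using this
  obtain ⟨e1, e2⟩ := hli _ _ hu
  obtain ⟨e3, e4⟩ := hli _ _ hw
  rw [sub_eq_zero] at e1 e4
  ext i j
  fin_cases i <;> fin_cases j <;> simp [e1, e2, e3, e4]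

theorem hom_slU {u w : Vm} (h : B u w = 1) (s : F) : hom h (Fischer.slU s) = T u (-s) := sp_ext fun x => by
  rw [hom_mulVec, act_apply, T_mulVec, B_swap u x]
  simp [Fischer.slU_coe]

theorem hom_slL {u w : Vm} (h : B u w = 1) (s : F) : hom h (Fischer.slL s) = T w s := sp_ext fun x => by
  rw [hom_mulVec, act_apply, T_mulVec]
  simp [Fischer.slL_coe]

theorem map_upper {u w : Vm} (h : B u w = 1) : (Cfsg.upperUnipotentSL2 F).map (hom h) = X u := by
  ext g
  constructor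
  · rintro ⟨_, hg, rfl⟩
    obtain ⟨s, rfl⟩ := Fischer.mem_upper.1 hg
    exact ⟨-s, hom_slU h s⟩
  · rintro ⟨c, rfl⟩
    exact ⟨Fischer.slU (-c), Fischer.mem_upper.2 ⟨_, rfl⟩, by rw [hom_slU, neg_neg]⟩

theorem map_lower {u w : Vm} (h : B u w = 1) : (Cfsg.lowerUnipotentSL2 F).map (hom h) = X w := by
  ext g
  constructor
  · rintro ⟨_, hg, rfl⟩
    obtain ⟨s, rfl⟩ := Fischer.mem_lower.1 hg
    exact ⟨s, hom_slL h s⟩
  · rintro ⟨c, rfl⟩
    exact ⟨Fischer.slL c, Fischer.mem_lower.2 ⟨_, rfl⟩, hom_slL h c⟩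

theorem pair_of_ne {v w : Vm} (h : B v w ≠ 0) :
    Cfsg.IsRankOnePair (X v) (X w) ∧ Cfsg.IsPSL2PairOver F (X v) (X w) := by
  have h1 : B v ((B v w)⁻¹ • w) = 1 := by rw [B_smul_right, inv_mul_cancel₀ h]
  have hX : X ((B v w)⁻¹ • w) = X w := X_smul w (inv_ne_zero h)
  refine ⟨?_, hom h1, ?_, ?_, map_upper h1, hX ▸ map_lower h1⟩
  · rw [← hX, ← map_upper h1, ← map_lower h1]
    exact map_rankOne _ (hom_injective h1) (Cfsg.RankOnePair_symm Fischer.sl2_pair)
  · rw [← hX, ← map_upper h1, ← map_lower h1, ← Subgroup.map_sup, sup_comm, Fischer.sl2_sup,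
      MonoidHom.range_eq_map]
  · rw [(MonoidHom.ker_eq_bot_iff _).2 (hom_injective h1)]
    exact bot_le

theorem commute_of_eq {v w : Vm} (h : B v w = 0) : ⁅X v, X w⁆ = ⊥ := by
  refine Fischer.bot_of_commute ?_
  rintro _ ⟨a, rfl⟩ _ ⟨b, rfl⟩
  refine mul_inv_eq_iff_eq_mul.mp ?_
  rw [T_conj, T_mulVec, B_swap w v, h, neg_zero, mul_zero, zero_smul, add_zero]

theorem rootSet : Cfsg.IsRootSubgroupSet (rootClass m F) where
  commutative := by
    rintro _ ⟨v, -, rfl⟩
    refine ⟨⟨fun a b => ?_⟩⟩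
    obtain ⟨a, c, rfl⟩ := a
    obtain ⟨b, d, rfl⟩ := b
    exact Subtype.ext (show T v c * T v d = T v d * T v c by rw [T_add, T_add, add_comm])
  ne_bot := by
    rintro _ ⟨v, hv, rfl⟩ hb
    exact T_ne_one hv one_ne_zero (Subgroup.mem_bot.1 (hb ▸ (⟨1, rfl⟩ : T v 1 ∈ X v)))
  generates := by
    rw [eq_top_iff, ← Forms.symplectic_transvection_closure, Subgroup.closure_le]
    rintro A ⟨v, c, hA⟩
    by_cases hv : v = 0
    · have : A = 1 := sp_ext fun x => by
        rw [hA, hv, Forms.sympTransvection_mulVec, smul_zero, add_zero, sp_one_mulVec]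
      rw [this]
      exact one_mem _
    · exact le_biSup (fun A : Subgroup Spm => A) (show X v ∈ rootClass m F from ⟨v, hv, rfl⟩)
        ⟨c, Subtype.ext hA⟩
  conj_mem := by
    rintro _ ⟨v, hv, rfl⟩ g
    exact ⟨g.1 *ᵥ v, sp_mulVec_ne g hv, conj_X g v⟩
  pair := by
    rintro _ ⟨v, -, rfl⟩ _ ⟨w, -, rfl⟩
    by_cases h : B v w = 0
    · exact Or.inl (commute_of_eq h)
    · exact Or.inr (Or.inl (pair_of_ne h).1)

theorem transitive {v w : Vm} (hv : v ≠ 0) (hw : w ≠ 0) : ∃ g : Spm, g.1 *ᵥ v = w := by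
  obtain ⟨t, ⟨g, -, rfl⟩, hg⟩ := Forms.exists_mem_transitive (Forms.sympB_isAlt (F := F) (m := m))
    ((⊤ : Subgroup Spm).map (Forms.spEquiv m F).toMonoidHom)
    (fun z _ c _ => ⟨(Forms.spEquiv m F).symm _, Subgroup.mem_top _, MulEquiv.apply_symm_apply _ _⟩)
    Forms.isForm_symp hv hw
  refine ⟨g, ?_⟩
  rw [← hg]
  rfl

theorem isClass (hm : 1 ≤ m) : Cfsg.IsRootSubgroupClass (rootClass m F) := by
  refine ⟨rootSet, ⟨_, Pi.single (Sum.inl ⟨0, hm⟩) 1, fun h => ?_, rfl⟩, ?_⟩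
  · simpa using congrFun h (Sum.inl ⟨0, hm⟩)
  · rintro _ ⟨v, hv, rfl⟩ _ ⟨w, hw, rfl⟩
    obtain ⟨g, hg⟩ := transitive hv hw
    exact ⟨g, by rw [conj_X, hg]⟩

theorem degenerate : Cfsg.IsDegenerateRootSet (rootClass m F) := by
  rintro _ ⟨v, hv, rfl⟩ _ ⟨w, hw, rfl⟩ hc
  by_cases h : B v w = 0
  · exact Fischer.case_not_bot rootSet hc (commute_of_eq h)
  · exact Fischer.not_rankOne_of_member rootSet ⟨v, hv, rfl⟩ ⟨w, hw, rfl⟩ hc.1 (pair_of_ne h).1

theorem kRoot : Cfsg.IsKRootSubgroupSet F (rootClass m F) := by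
  refine ⟨rootSet, ?_⟩
  rintro _ ⟨v, -, rfl⟩ _ ⟨w, -, rfl⟩ hp
  by_cases h : B v w = 0
  · exact absurd (commute_of_eq h) (Fischer.not_commute hp)
  · exact (pair_of_ne h).2

theorem connected : Cfsg.IsConnectedFamily (Cfsg.FAdj (rootClass m F)) (rootClass m F) := by
  rintro _ ⟨v, hv, rfl⟩ _ ⟨w, hw, rfl⟩
  obtain ⟨a, ha⟩ := exists_B_one hv
  obtain ⟨b, hb⟩ := exists_B_one hw
  obtain ⟨z, hzv, hzw⟩ : ∃ z, B z v ≠ 0 ∧ B z w ≠ 0 := by
    by_cases h1 : B a w = 0
    · by_cases h2 : B b v = 0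
      · exact ⟨a + b, by rw [B_add_left, ha, h2]; simp, by rw [B_add_left, hb, h1]; simp⟩
      · exact ⟨b, h2, by simp [hb]⟩
    · exact ⟨a, by simp [ha], h1⟩
  have hz : z ≠ 0 := fun h => hzv (by rw [h, B_zero_left])
  exact (Relation.ReflTransGen.single (b := X z) ⟨⟨v, hv, rfl⟩, ⟨z, hz, rfl⟩,
      (pair_of_ne (by rwa [B_swap v z, neg_ne_zero])).1⟩).trans
    (Relation.ReflTransGen.single ⟨⟨z, hz, rfl⟩, ⟨w, hw, rfl⟩, (pair_of_ne hzw).1⟩)

theorem templateSet_eq :
    {A : Subgroup Spm | ∃ p : Vm, p ≠ 0 ∧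
        A = Subgroup.closure {g : Spm | ∃ c : F, ∀ v : Vm,
          g.1 *ᵥ v = v + (c * (v ⬝ᵥ (Matrix.J (Fin m) F *ᵥ p))) • p}} = rootClass m F := by
  have key : ∀ p : Vm, Subgroup.closure {g : Spm | ∃ c : F, ∀ v : Vm,
      g.1 *ᵥ v = v + (c * (v ⬝ᵥ (Matrix.J (Fin m) F *ᵥ p))) • p} = X p := by
    intro p
    refine le_antisymm ((Subgroup.closure_le _).2 ?_) fun g hg => ?_
    · rintro g ⟨c, hg⟩
      exact ⟨c, sp_ext fun x => (hg x).trans (T_mulVec p c x).symm⟩
    · obtain ⟨c, rfl⟩ := hg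
      exact Subgroup.subset_closure ⟨c, T_mulVec p c⟩
  ext A
  simp only [Set.mem_ofPred_eq, key, rootClass]

end Cfsg.Agent.Core.SympRootGroups
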