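/-
The transvection groups of a unitary space form a degenerate class of root subgroups of the group they generate.
-/
import Cfsg.Agent.Forms.UnitaryPoints
import Cfsg.Agent.Linear.SU2
import Cfsg.Agent.Fischer.SL2Pair
import Cfsg.Agent.Fischer.RootMember
import Cfsg.Agent.Core.SympRootGroups

set_option autoImplicit false
set_option linter.unusedSectionVars false

namespace Cfsg.Agent.Core.UnitaryRootGroups

open Cfsg.Agent.Forms (frobQ)
open Cfsg.Agent.KnownA
open scoped commutatorElement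

universe u

variable {F : Type u} [Field F] [Fintype F] {n q : ℕ}

/-- The scalars: the fixed field as the image of `L`, and a trace zero element. -/
structure Scalars (hF : Fintype.card F = q ^ 2) (L : Type) [Field L] where
  ι : L →+* F
  fix : ∀ x, frobQ hF (ι x) = ι x
  surj : ∀ a, frobQ hF a = a → ∃ x, ι x = a
  δ : F
  ne : δ ≠ 0
  skew : frobQ hF δ = -δ

variable {hF : Fintype.card F = q ^ 2} {L : Type} [Field L] (D : Scalars hF L)

local notation "Vn" => (Fin n → F)
local notation "SUn" => Cfsg.SU n F q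

/-- The element of `SU` of a unimodular isometry. -/
def mkSU (f : Vn →ₗ[F] Vn) (hB : ∀ x y, ub hF (f x) (f y) = ub hF x y) (hdet : LinearMap.det f = 1) : SUn :=
  ⟨⟨LinearMap.toMatrix' f, by rw [LinearMap.det_toMatrix', hdet]⟩, fun u v => by
    show Cfsg.hermForm n F q (Matrix.mulVec (LinearMap.toMatrix' f) u) (Matrix.mulVec (LinearMap.toMatrix' f) v) = _
    rw [LinearMap.toMatrix'_mulVec, LinearMap.toMatrix'_mulVec]
    exact hB v u⟩

theorem act_mkSU (f : Vn →ₗ[F] Vn) (hB : ∀ x y, ub hF (f x) (f y) = ub hF x y) (hdet : LinearMap.det f = 1)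
    (x : Vn) : act (mkSU f hB hdet) x = f x := by
  show Matrix.toLin' (LinearMap.toMatrix' f) x = f x
  rw [Matrix.toLin'_toMatrix']

theorem act_isometry (g : SUn) (x y : Vn) : ub hF (act g x) (act g y) = ub hF x y := g.2 y x

theorem act_inv_apply (g : SUn) (x : Vn) : act g (act g⁻¹ x) = x := by
  rw [← act_mul_apply, mul_inv_cancel, act_one]; rfl

theorem skew_mul (l : L) : frobQ hF (D.ι l * D.δ) = -(D.ι l * D.δ) := by
  rw [map_mul, D.fix, D.skew, mul_neg]

/-- The transvection. -/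
def tv {v : Vn} (hv : ub hF v v = 0) (l : L) : SUn :=
  mkSU (LinearMap.id + ((D.ι l * D.δ) • ubL hF v).smulRight v)
    (fun x y => by
      simp only [LinearMap.add_apply, LinearMap.id_apply, LinearMap.smulRight_apply, LinearMap.smul_apply,
        ubL_apply, smul_eq_mul, ub_add_left hF, ub_add_right hF, ub_smul_left hF, ub_smul_right hF, hv]
      rw [map_mul, skew_mul D, ub_symm hF v x]
      ring)
    (by rw [det_one_add_one]; simp [ubL_apply, hv])

theorem tv_act {v : Vn} (hv : ub hF v v = 0) (l : L) (x : Vn) :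
    act (tv D hv l) x = x + (D.ι l * D.δ * ub hF v x) • v := act_mkSU _ _ _ x

/-- The root group. -/
def tvHom {v : Vn} (hv : ub hF v v = 0) : Multiplicative L →* SUn where
  toFun l := tv D hv l.toAdd
  map_one' := su_ext fun x => by rw [tv_act, act_one]; simp
  map_mul' a b := su_ext fun x => by
    rw [act_mul_apply, tv_act, tv_act, tv_act, toAdd_mul, map_add, ub_add_right hF, ub_smul_right hF, hv]
    module

/-- The root group as a subgroup. -/
def X {v : Vn} (hv : ub hF v v = 0) : Subgroup SUn := (tvHom D hv).range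

theorem tv_mem_X {v : Vn} (hv : ub hF v v = 0) (l : L) : tv D hv l ∈ X D hv := ⟨Multiplicative.ofAdd l, rfl⟩

theorem tv_congr {v w : Vn} (hv : ub hF v v = 0) (hw : ub hF w w = 0) (e : v = w) (l : L) :
    tv D hv l = tv D hw l := by subst e; rfl

theorem X_congr {v w : Vn} (hv : ub hF v v = 0) (hw : ub hF w w = 0) (e : v = w) : X D hv = X D hw := by
  subst e; rfl

theorem conj_tv (g : SUn) {v : Vn} (hv : ub hF v v = 0) (l : L) :
    g * tv D hv l * g⁻¹ = tv D (v := act g v) (by rw [act_isometry, hv]) l := su_ext fun x => by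
  rw [act_mul_apply, act_mul_apply, tv_act, tv_act, map_add, map_smul, act_inv_apply]
  congr 3
  conv_rhs => rw [← act_inv_apply g x, act_isometry]

theorem conj_X (g : SUn) {v : Vn} (hv : ub hF v v = 0) :
    Cfsg.conjBy (X D hv) g = X D (v := act g v) (by rw [act_isometry, hv]) := by
  ext z
  constructor
  · rintro ⟨_, ⟨l, rfl⟩, rfl⟩
    exact ⟨l, (conj_tv D g hv l.toAdd).symm⟩
  · rintro ⟨l, rfl⟩
    exact ⟨_, ⟨l, rfl⟩, conj_tv D g hv l.toAdd⟩

theorem exists_norm_scalar {k : F} (hk : k ≠ 0) : ∃ r : L, r ≠ 0 ∧ D.ι r = k * frobQ hF k := by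
  obtain ⟨r, hr⟩ := D.surj (k * frobQ hF k) (by rw [map_mul, sig_sig hF, mul_comm])
  refine ⟨r, fun h => ?_, hr⟩
  rw [h, map_zero, eq_comm, mul_eq_zero, map_eq_zero, or_self] at hr
  exact hk hr

theorem X_smul {v : Vn} (hv : ub hF v v = 0) {k : F} (hk : k ≠ 0) (hkv : ub hF (k • v) (k • v) = 0) :
    X D hkv = X D hv := by
  obtain ⟨r, hr0, hr⟩ := exists_norm_scalar D hk
  have key : ∀ l, tv D hkv l = tv D hv (l * r) := fun l => su_ext fun x => by
    rw [tv_act, tv_act, map_mul, hr, ub_smul_left hF, smul_smul]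
    congr 2
    ring
  ext g
  constructor
  · rintro ⟨l, rfl⟩
    exact ⟨Multiplicative.ofAdd (l.toAdd * r), (key l.toAdd).symm⟩
  · rintro ⟨l, rfl⟩
    refine ⟨Multiplicative.ofAdd (l.toAdd / r), ?_⟩
    show tv D hkv (l.toAdd / r) = tv D hv l.toAdd
    rw [key, div_mul_cancel₀ _ hr0]

section Pair

variable {u w : Fin n → F} (hu : ub hF u u = 0) (hw : ub hF w w = 0) (h : ub hF u w = D.δ)

local notation "SL2L" => Matrix.SpecialLinearGroup (Fin 2) L

/-- The coefficient functional of `u`. -/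
def cu (g : SL2L) : Vn →ₗ[F] F :=
  ((D.ι (g.1 0 0) - 1) * (-D.δ⁻¹)) • ubL hF w + (D.ι (g.1 0 1) * D.δ⁻¹) • ubL hF u

/-- The coefficient functional of `w`. -/
def cw (g : SL2L) : Vn →ₗ[F] F :=
  (D.ι (g.1 1 0) * (-D.δ⁻¹)) • ubL hF w + ((D.ι (g.1 1 1) - 1) * D.δ⁻¹) • ubL hF u

theorem det_eq (g : SL2L) : D.ι (g.1 0 0) * D.ι (g.1 1 1) - D.ι (g.1 0 1) * D.ι (g.1 1 0) = 1 := by
  rw [← map_mul, ← map_mul, ← map_sub, ← Matrix.det_fin_two, g.2, map_one]

include hu hw h in
theorem wu : ub hF w u = -D.δ := by rw [← ub_symm hF, h, D.skew]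

include hu hw h in
theorem cu_cw (g : SL2L) :
    cu D (u := u) (w := w) g u = D.ι (g.1 0 0) - 1 ∧ cu D (u := u) (w := w) g w = D.ι (g.1 0 1) ∧
      cw D (u := u) (w := w) g u = D.ι (g.1 1 0) ∧ cw D (u := u) (w := w) g w = D.ι (g.1 1 1) - 1 := by
  have hne := D.ne
  simp only [cu, cw, LinearMap.add_apply, LinearMap.smul_apply, ubL_apply, smul_eq_mul, hu, hw, h, wu D hu hw h,
    mul_zero, add_zero, zero_add]
  refine ⟨?_, ?_, ?_, ?_⟩ <;> field_simp

/-- The linear map. -/
def lin (g : SL2L) : Vn →ₗ[F] Vn :=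
  LinearMap.id + (cu D (u := u) (w := w) g).smulRight u + (cw D (u := u) (w := w) g).smulRight w

theorem lin_apply (g : SL2L) (x : Vn) : lin D (u := u) (w := w) g x =
    x + cu D (u := u) (w := w) g x • u + cw D (u := u) (w := w) g x • w := rfl

include hu hw h in
theorem lin_isometry (g : SL2L) (x y : Vn) :
    ub hF (lin D (u := u) (w := w) g x) (lin D (u := u) (w := w) g y) = ub hF x y := by
  have hne := D.ne
  have hd := det_eq D g
  simp only [lin_apply, cu, cw, LinearMap.add_apply, LinearMap.smul_apply, ubL_apply, smul_eq_mul,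
    ub_add_left hF, ub_add_right hF, ub_smul_left hF, ub_smul_right hF, map_add, map_mul, map_sub, map_neg,
    map_inv₀, map_one, D.fix, D.skew, hu, hw, h, wu D hu hw h, ub_symm hF w x, ub_symm hF u x]
  field_simp
  linear_combination (D.δ * (ub hF x w * ub hF u y - ub hF x u * ub hF w y)) * hd

include hu hw h in
theorem lin_mul (g g' : SL2L) (x : Vn) :
    lin D (u := u) (w := w) (g * g') x = lin D (u := u) (w := w) g (lin D (u := u) (w := w) g' x) := by
  obtain ⟨a1, a2, a3, a4⟩ := cu_cw D hu hw h g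
  simp only [lin_apply, map_add, map_smul, smul_eq_mul, a1, a2, a3, a4]
  simp only [cu, cw, LinearMap.add_apply, LinearMap.smul_apply, ubL_apply, smul_eq_mul,
    Matrix.SpecialLinearGroup.coe_mul, Matrix.mul_apply, Fin.sum_univ_two, map_add, map_mul]
  module

/-- The embedding of `SL₂` attached to a pair. -/
def hom : SL2L →* SUn where
  toFun g := mkSU (lin D (u := u) (w := w) g) (lin_isometry D hu hw h g) (by
    obtain ⟨a1, a2, a3, a4⟩ := cu_cw D hu hw h g
    rw [lin, det_one_add_two, a1, a2, a3, a4]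
    linear_combination det_eq D g)
  map_one' := su_ext fun x => by
    rw [act_mkSU, act_one, lin_apply]
    simp [cu, cw]
  map_mul' g g' := su_ext fun x => by rw [act_mul_apply, act_mkSU, act_mkSU, act_mkSU, lin_mul D hu hw h]

theorem hom_act (g : SL2L) (x : Vn) : act (hom D hu hw h g) x =
    x + cu D (u := u) (w := w) g x • u + cw D (u := u) (w := w) g x • w := by
  simp only [hom, MonoidHom.coe_mk, OneHom.coe_mk, act_mkSU, lin_apply]

theorem hom_injective : Function.Injective (hom D hu hw h) := by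
  refine (injective_iff_map_eq_one (hom D hu hw h)).2 fun g hg => ?_
  obtain ⟨a1, a2, a3, a4⟩ := cu_cw D hu hw h g
  have e1 := hom_act D hu hw h g u
  have e2 := hom_act D hu hw h g w
  rw [hg, act_one, Module.End.one_apply, a1, a3, add_assoc, left_eq_add] at e1
  rw [hg, act_one, Module.End.one_apply, a2, a4, add_assoc, left_eq_add] at e2
  have hli : ∀ a b : F, a • u + b • w = 0 → a = 0 ∧ b = 0 := fun a b e => by
    constructor
    · have := congrArg (fun z => ub hF w z) e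
      simpa [ub_add_right hF, ub_smul_right hF, ub_zero_right hF, hw, wu D hu hw h, D.ne] using this
    · have := congrArg (fun z => ub hF u z) e
      simpa [ub_add_right hF, ub_smul_right hF, ub_zero_right hF, hu, h, D.ne] using this
  obtain ⟨b1, b3⟩ := hli _ _ e1
  obtain ⟨b2, b4⟩ := hli _ _ e2
  rw [sub_eq_zero] at b1 b4
  rw [← map_one D.ι] at b1 b4
  rw [← map_zero D.ι] at b2 b3
  have c1 := D.ι.injective b1
  have c2 := D.ι.injective b2
  have c3 := D.ι.injective b3
  have c4 := D.ι.injective b4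
  ext i j
  fin_cases i <;> fin_cases j <;> simp [c1, c2, c3, c4]

theorem map_unipotents :
    (Cfsg.upperUnipotentSL2 L).map (hom D hu hw h) = X D hu ∧
      (Cfsg.lowerUnipotentSL2 L).map (hom D hu hw h) = X D hw := by
  have hne := D.ne
  obtain ⟨e, he⟩ := D.surj (D.δ * D.δ) (by rw [map_mul, D.skew, neg_mul_neg])
  have he0 : e ≠ 0 := fun h0 => mul_ne_zero hne hne (by rw [← he, h0, map_zero])
  have kU : ∀ s, hom D hu hw h (Fischer.slU s) = tv D hu (s / e) := fun s => su_ext fun x => by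
    rw [hom_act, tv_act, map_div₀, he]
    simp [cu, cw, Fischer.slU_coe, ubL_apply]
    congr 1
    field_simp
  have kL : ∀ s, hom D hu hw h (Fischer.slL s) = tv D hw (-(s / e)) := fun s => su_ext fun x => by
    rw [hom_act, tv_act, map_neg, map_div₀, he]
    simp [cu, cw, Fischer.slL_coe, ubL_apply]
    congr 1
    field_simp
  constructor <;> ext g <;> constructor
  · rintro ⟨_, hg, rfl⟩
    obtain ⟨s, rfl⟩ := Fischer.mem_upper.1 hg
    rw [kU]
    exact tv_mem_X D hu _
  · rintro ⟨l, rfl⟩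
    refine ⟨Fischer.slU (l.toAdd * e), Fischer.mem_upper.2 ⟨_, rfl⟩, ?_⟩
    rw [kU, mul_div_cancel_right₀ _ he0]
    rfl
  · rintro ⟨_, hg, rfl⟩
    obtain ⟨s, rfl⟩ := Fischer.mem_lower.1 hg
    rw [kL]
    exact tv_mem_X D hw _
  · rintro ⟨l, rfl⟩
    refine ⟨Fischer.slL (-(l.toAdd * e)), Fischer.mem_lower.2 ⟨_, rfl⟩, ?_⟩
    rw [kL, neg_div, neg_neg, mul_div_cancel_right₀ _ he0]
    rfl

end Pair

/-- Pairs of non-orthogonal points. -/
theorem exists_hom {v w : Vn} (hv : ub hF v v = 0) (hw : ub hF w w = 0) (h : ub hF v w ≠ 0) :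
    ∃ φ : Matrix.SpecialLinearGroup (Fin 2) L →* SUn, Function.Injective φ ∧
      (Cfsg.upperUnipotentSL2 L).map φ = X D hv ∧ (Cfsg.lowerUnipotentSL2 L).map φ = X D hw := by
  have hk : D.δ / ub hF v w ≠ 0 := div_ne_zero D.ne h
  have hw' : ub hF ((D.δ / ub hF v w) • w) ((D.δ / ub hF v w) • w) = 0 := by
    rw [ub_smul_left hF, ub_smul_right hF, hw, mul_zero, mul_zero]
  have h1 : ub hF v ((D.δ / ub hF v w) • w) = D.δ := by rw [ub_smul_right hF, div_mul_cancel₀ _ h]
  obtain ⟨a, b⟩ := map_unipotents D hv hw' h1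
  exact ⟨hom D hv hw' h1, hom_injective D hv hw' h1, a, b.trans (X_smul D hw hk hw')⟩

theorem commute_of_orth {v w : Vn} (hv : ub hF v v = 0) (hw : ub hF w w = 0) (h : ub hF v w = 0) :
    ⁅X D hv, X D hw⁆ = ⊥ := by
  refine Fischer.bot_of_commute ?_
  rintro _ ⟨a, rfl⟩ _ ⟨b, rfl⟩
  refine su_ext fun x => ?_
  show act (tv D hv a.toAdd * tv D hw b.toAdd) x = act (tv D hw b.toAdd * tv D hv a.toAdd) x
  rw [act_mul_apply, act_mul_apply, tv_act, tv_act, tv_act, tv_act, ub_add_right hF, ub_smul_right hF, h,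
    ub_add_right hF, ub_smul_right hF, ub_eq_zero_symm hF h]
  module

/-- The class in `SU`. -/
def points : Set (Subgroup SUn) := {A | ∃ (v : Fin n → F) (hv : ub hF v v = 0), v ≠ 0 ∧ A = X D hv}

/-- The group generated. -/
def G₀ : Subgroup SUn := ⨆ A ∈ points D (n := n), A

/-- The class inside the group generated. -/
def cls : Set (Subgroup (G₀ D (n := n))) := (fun A => A.subgroupOf (G₀ D)) '' points D

theorem X_le {v : Vn} (hv : ub hF v v = 0) (hv0 : v ≠ 0) : X D hv ≤ G₀ D :=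
  le_biSup (fun A : Subgroup SUn => A) (show X D hv ∈ points D from ⟨v, hv, hv0, rfl⟩)

theorem subgroupOf_inj {A A' : Subgroup SUn} (hA : A ≤ G₀ D) (hA' : A' ≤ G₀ D)
    (e : A.subgroupOf (G₀ D) = A'.subgroupOf (G₀ D)) : A = A' := by
  have := congrArg (fun C : Subgroup (G₀ D (n := n)) => C.map (G₀ D (n := n)).subtype) e
  simpa [Subgroup.subgroupOf_map_subtype, hA, hA'] using this

theorem pair_of_ne {v w : Vn} (hv : ub hF v v = 0) (hw : ub hF w w = 0) (hv0 : v ≠ 0) (hw0 : w ≠ 0)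
    (h : ub hF v w ≠ 0) :
    Cfsg.IsRankOnePair ((X D hv).subgroupOf (G₀ D)) ((X D hw).subgroupOf (G₀ D)) ∧
      Cfsg.IsPSL2PairOver L ((X D hv).subgroupOf (G₀ D)) ((X D hw).subgroupOf (G₀ D)) := by
  obtain ⟨φ, hinj, hU, hL⟩ := exists_hom D hv hw h
  have hrange : φ.range ≤ G₀ D := by
    rw [MonoidHom.range_eq_map, ← Fischer.sl2_sup, Subgroup.map_sup, hU, hL]
    exact sup_le (X_le D hw hw0) (X_le D hv hv0)
  let φ₀ := φ.codRestrict (G₀ D) fun g => hrange ⟨g, rfl⟩
  have hinj₀ : Function.Injective φ₀ := fun a b e => hinj (congrArg Subtype.val e)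
  have hsub : ∀ S : Subgroup (Matrix.SpecialLinearGroup (Fin 2) L), S.map φ₀ = (S.map φ).subgroupOf (G₀ D) := by
    intro S
    apply Subgroup.map_injective (G₀ D (n := n)).subtype_injective
    rw [Subgroup.map_map, show (G₀ D (n := n)).subtype.comp φ₀ = φ from rfl, Subgroup.subgroupOf_map_subtype,
      inf_eq_left.2 (le_trans (Subgroup.map_le_range φ S) hrange)]
  rw [← hU, ← hL, ← hsub, ← hsub]
  refine ⟨Core.SympRootGroups.map_rankOne φ₀ hinj₀ (Cfsg.RankOnePair_symm Fischer.sl2_pair), φ₀, ?_, ?_, rfl, rfl⟩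
  · rw [← Subgroup.map_sup, sup_comm, Fischer.sl2_sup, MonoidHom.range_eq_map]
  · rw [(MonoidHom.ker_eq_bot_iff _).2 hinj₀]
    exact bot_le

theorem commute_sub {v w : Vn} (hv : ub hF v v = 0) (hw : ub hF w w = 0) (h : ub hF v w = 0) :
    ⁅(X D hv).subgroupOf (G₀ D), (X D hw).subgroupOf (G₀ D)⁆ = ⊥ := by
  refine Fischer.bot_of_commute fun a ha b hb => Subtype.ext ?_
  exact Fischer.commute_cb_right (commute_of_orth D hv hw h) ha hb

theorem rootSet : Cfsg.IsRootSubgroupSet (cls D (n := n)) where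
  commutative := by
    rintro _ ⟨_, ⟨v, hv, -, rfl⟩, rfl⟩
    refine ⟨⟨fun a b => ?_⟩⟩
    obtain ⟨c, hc⟩ := a.2
    obtain ⟨d, hd⟩ := b.2
    apply Subtype.ext
    apply Subtype.ext
    show a.1.1 * b.1.1 = b.1.1 * a.1.1
    change tvHom D hv c = a.1.1 at hc
    change tvHom D hv d = b.1.1 at hd
    rw [← hc, ← hd, ← map_mul, ← map_mul, mul_comm]
  ne_bot := by
    rintro _ ⟨_, ⟨v, hv, hv0, rfl⟩, rfl⟩ hb
    have h1 := subgroupOf_inj D (X_le D hv hv0) bot_le (hb.trans (Subgroup.bot_subgroupOf _).symm)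
    have h2 : tv D hv 1 = 1 := Subgroup.mem_bot.1 (h1 ▸ tv_mem_X D hv 1)
    obtain ⟨f, -, -, hf⟩ := exists_partner hF ⊤
      (fun x _ h => (Forms.hermB_nondegenerate hF).1 x fun y => h y trivial) (Submodule.mem_top (x := v)) hv0 hv
    have h3 := congrArg (fun g => act g f) h2
    simp only [tv_act, hf, act_one, Module.End.one_apply, add_eq_left, map_one, one_mul, mul_one, smul_eq_zero] at h3
    exact h3.elim D.ne hv0
  generates := by
    apply Subgroup.map_injective (G₀ D (n := n)).subtype_injective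
    rw [← MonoidHom.range_eq_map, Subgroup.range_subtype]
    refine le_antisymm (Subgroup.map_subtype_le _) (iSup₂_le fun A hA => ?_)
    obtain ⟨v, hv, hv0, rfl⟩ := hA
    have : (X D hv).subgroupOf (G₀ D) ≤ ⨆ A ∈ cls D (n := n), A :=
      le_biSup (fun A : Subgroup (G₀ D (n := n)) => A) ⟨_, ⟨v, hv, hv0, rfl⟩, rfl⟩
    refine le_trans (le_of_eq ?_) (Subgroup.map_mono this)
    rw [Subgroup.subgroupOf_map_subtype, inf_eq_left.2 (X_le D hv hv0)]
  conj_mem := by
    rintro _ ⟨_, ⟨v, hv, hv0, rfl⟩, rfl⟩ g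
    have hgv : act (g : SUn) v ≠ 0 := fun e => hv0 (by
      have := congrArg (act ((g : SUn)⁻¹)) e
      rwa [← act_mul_apply, inv_mul_cancel, act_one, Module.End.one_apply, map_zero] at this)
    refine ⟨_, ⟨_, _, hgv, conj_X D (g : SUn) hv⟩, ?_⟩
    ext z
    simp only [Subgroup.mem_subgroupOf, Fischer.mem_cb]
    simp
  pair := by
    rintro _ ⟨_, ⟨v, hv, hv0, rfl⟩, rfl⟩ _ ⟨_, ⟨w, hw, hw0, rfl⟩, rfl⟩
    by_cases h : ub hF v w = 0
    · exact Or.inl (commute_sub D hv hw h)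
    · exact Or.inr (Or.inl (pair_of_ne D hv hw hv0 hw0 h).1)

theorem step {v w : Vn} (hv : ub hF v v = 0) (hw : ub hF w w = 0) (hv0 : v ≠ 0) (hw0 : w ≠ 0) :
    Relation.ReflTransGen (Cfsg.FAdj (cls D)) ((X D hv).subgroupOf (G₀ D)) ((X D hw).subgroupOf (G₀ D)) := by
  have m : ∀ {x : Vn} (hx : ub hF x x = 0), x ≠ 0 → (X D hx).subgroupOf (G₀ D) ∈ cls D :=
    fun hx hx0 => ⟨_, ⟨_, hx, hx0, rfl⟩, rfl⟩
  by_cases h : ub hF v w = 0
  swap
  · exact Relation.ReflTransGen.single ⟨m hv hv0, m hw hw0, (pair_of_ne D hv hw hv0 hw0 h).1⟩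
  by_cases hs : v ∈ Submodule.span F {w}
  · obtain ⟨k, hk⟩ := Submodule.mem_span_singleton.1 hs
    have hk0 : k ≠ 0 := fun e => hv0 (by rw [← hk, e, zero_smul])
    subst hk
    rw [X_smul D hw hk0 hv]
  have hs' : w ∉ Submodule.span F {v} := fun hw' => by
    obtain ⟨k, hk⟩ := Submodule.mem_span_singleton.1 hw'
    have hk0 : k ≠ 0 := fun e => hw0 (by rw [← hk, e, zero_smul])
    exact hs (Submodule.mem_span_singleton.2 ⟨k⁻¹, by rw [← hk, inv_smul_smul₀ hk0]⟩)
  obtain ⟨f, hff, hvf, hwf⟩ := Forms.exists_partner_perp hF hv (ub_eq_zero_symm hF h) hs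
  obtain ⟨f', hff', hwf', hvf'⟩ := Forms.exists_partner_perp hF hw h hs'
  obtain ⟨k, hk0, hk⟩ : ∃ k : F, k ≠ 0 ∧ frobQ hF (k * ub hF f f') = -(k * ub hF f f') := by
    by_cases ha : ub hF f f' = 0
    · exact ⟨1, one_ne_zero, by rw [ha, mul_zero, map_zero, neg_zero]⟩
    · exact ⟨D.δ / ub hF f f', div_ne_zero D.ne ha, by rw [div_mul_cancel₀ _ ha]; exact D.skew⟩
  set z := f + k • f'
  have hz : ub hF z z = 0 := by
    simp only [z, ub_add_left hF, ub_add_right hF, ub_smul_left hF, ub_smul_right hF, hff, hff', mul_zero,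
      add_zero, zero_add]
    rw [map_mul, ub_symm hF f f'] at hk
    rw [hk]; ring
  have hvz : ub hF v z = 1 := by
    simp only [z, ub_add_right hF, ub_smul_right hF, hvf, hvf', mul_zero, add_zero]
  have hwz : ub hF w z = k := by
    simp only [z, ub_add_right hF, ub_smul_right hF, hwf, hwf', mul_one, zero_add]
  have hz0 : z ≠ 0 := fun e => one_ne_zero (α := F) (by rw [← hvz, e, ub_zero_right hF])
  refine (Relation.ReflTransGen.single ⟨m hv hv0, m hz hz0,
    (pair_of_ne D hv hz hv0 hz0 (by rw [hvz]; exact one_ne_zero)).1⟩).trans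
    (Relation.ReflTransGen.single ⟨m hz hz0, m hw hw0, (pair_of_ne D hz hw hz0 hw0 ?_).1⟩)
  intro e
  exact hk0 (hwz.symm.trans (ub_eq_zero_symm hF e))

theorem connected : Cfsg.IsConnectedFamily (Cfsg.FAdj (cls D (n := n))) (cls D) := by
  rintro _ ⟨_, ⟨v, hv, hv0, rfl⟩, rfl⟩ _ ⟨_, ⟨w, hw, hw0, rfl⟩, rfl⟩
  exact step D hv hw hv0 hw0

theorem isClass (hn : 2 ≤ n) : Cfsg.IsRootSubgroupClass (cls D (n := n)) := by
  obtain ⟨e, f, he, hf, hef⟩ := Forms.exists_iso_pair (n := n) hF hn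
  have he0 : e ≠ 0 := fun h0 => by rw [h0, ub_zero_left hF] at hef; exact zero_ne_one hef
  refine ⟨rootSet D, ⟨_, _, ⟨e, he, he0, rfl⟩, rfl⟩, fun A hA B hB => ?_⟩
  induction connected D A hA B hB with
  | refl => exact ⟨1, (Fischer.cb_one _).symm⟩
  | @tail P R _ h ih =>
    obtain ⟨g, hg⟩ := ih h.1
    obtain ⟨x, -, hx⟩ := Fischer.exists_conj h.2.2
    exact ⟨x * g, by rw [← Fischer.cb_cb, ← hg, hx]⟩

theorem degenerate : Cfsg.IsDegenerateRootSet (cls D (n := n)) := by
  rintro _ ⟨_, ⟨v, hv, hv0, rfl⟩, rfl⟩ _ ⟨_, ⟨w, hw, hw0, rfl⟩, rfl⟩ hc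
  by_cases h : ub hF v w = 0
  · exact Fischer.case_not_bot (rootSet D) hc (commute_sub D hv hw h)
  · exact Fischer.not_rankOne_of_member (rootSet D) ⟨_, ⟨v, hv, hv0, rfl⟩, rfl⟩ ⟨_, ⟨w, hw, hw0, rfl⟩, rfl⟩
      hc.1 (pair_of_ne D hv hw hv0 hw0 h).1

theorem kRoot : Cfsg.IsKRootSubgroupSet L (cls D (n := n)) := by
  refine ⟨rootSet D, ?_⟩
  rintro _ ⟨_, ⟨v, hv, hv0, rfl⟩, rfl⟩ _ ⟨_, ⟨w, hw, hw0, rfl⟩, rfl⟩ hp
  by_cases h : ub hF v w = 0
  · exact absurd (commute_sub D hv hw h) (Fischer.not_commute hp)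
  · exact (pair_of_ne D hv hw hv0 hw0 h).2

theorem template_eq (p : Vn) (hp : p ≠ 0) (hpp : ub hF p p = 0) :
    Subgroup.closure {g : SUn |
      (∀ v : Vn, ∃ c : F, Matrix.mulVec (((g : Matrix.SpecialLinearGroup (Fin n) F) : Matrix (Fin n) (Fin n) F)) v = v + c • p) ∧
      ∀ v : Vn, Cfsg.hermForm n F q v p = 0 →
        Matrix.mulVec (((g : Matrix.SpecialLinearGroup (Fin n) F) : Matrix (Fin n) (Fin n) F)) v = v} = X D hpp := by
  refine le_antisymm ((Subgroup.closure_le _).2 ?_) ?_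
  · rintro g ⟨h1, h2⟩
    have h1' : ∀ x, ∃ c : F, act g x = x + c • p := h1
    have h2' : ∀ x, ub hF p x = 0 → act g x = x := h2
    obtain ⟨f, -, hff, hpf⟩ := exists_partner hF ⊤
      (fun x _ h => (Forms.hermB_nondegenerate hF).1 x fun y => h y trivial) (Submodule.mem_top (x := p)) hp hpp
    have hfp : ub hF f p = 1 := by rw [← ub_symm hF, hpf, map_one]
    obtain ⟨c, hc⟩ := h1' f
    have hcc : frobQ hF c + c = 0 := by
      have := act_isometry (hF := hF) g f f
      rw [hc, ub_add_left hF, ub_smul_left hF, ub_add_right hF, ub_smul_right hF, ub_add_right hF,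
        ub_smul_right hF, hff, hpf, hfp, hpp] at this
      linear_combination this
    obtain ⟨l, hl⟩ := D.surj (c / D.δ) (by
      rw [map_div₀, D.skew, eq_neg_of_add_eq_zero_left hcc, neg_div_neg_eq])
    refine ⟨Multiplicative.ofAdd l, su_ext fun x => ?_⟩
    show act (tv D hpp l) x = _
    rw [tv_act, hl, div_mul_cancel₀ _ D.ne]
    have h3 := h2' (x - ub hF p x • f) (by rw [ub_sub_right hF, ub_smul_right hF, hpf, mul_one, sub_self])
    rw [map_sub, map_smul, hc, sub_eq_iff_eq_add] at h3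
    rw [h3]
    module
  · rintro _ ⟨l, rfl⟩
    refine Subgroup.subset_closure ⟨fun v => ⟨_, tv_act D hpp l.toAdd v⟩, fun v hv => ?_⟩
    refine (tv_act D hpp l.toAdd v).trans ?_
    rw [show ub hF p v = 0 from hv, mul_zero, zero_smul, add_zero]

theorem templateSet_eq (hF : Fintype.card F = q ^ 2) {L : Type} [Field L] (D : Scalars hF L) :
    {A : Subgroup SUn | ∃ p : Vn, p ≠ 0 ∧ Cfsg.hermForm n F q p p = 0 ∧
      A = Subgroup.closure {g : SUn |
        (∀ v : Vn, ∃ c : F, Matrix.mulVec (((g : Matrix.SpecialLinearGroup (Fin n) F) : Matrix (Fin n) (Fin n) F)) v = v + c • p) ∧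
        ∀ v : Vn, Cfsg.hermForm n F q v p = 0 →
          Matrix.mulVec (((g : Matrix.SpecialLinearGroup (Fin n) F) : Matrix (Fin n) (Fin n) F)) v = v}} = points D := by
  ext A
  constructor
  · rintro ⟨p, hp, hpp, rfl⟩
    exact ⟨p, hpp, hp, template_eq D p hp hpp⟩
  · rintro ⟨p, hpp, hp, rfl⟩
    exact ⟨p, hp, hpp, (template_eq D p hp hpp).symm⟩

theorem exists_scalars (hF : Fintype.card F = q ^ 2) :
    ∃ (L : Type) (_ : Field L) (_ : Fintype L), Fintype.card L = q ∧ Nonempty (Scalars hF L) := by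
  classical
  obtain ⟨p, k, hp, hcp, hq⟩ := Forms.exists_q_eq_pow hF
  haveI := Fact.mk hp
  have hk : k ≠ 0 := by
    rintro rfl
    have := Forms.two_le_q hF
    simp [hq] at this
  haveI : Fintype (GaloisField p k) := Fintype.ofFinite _
  have hc : Fintype.card (GaloisField p k) = q := by
    rw [← Nat.card_eq_fintype_card, GaloisField.card p k hk, hq]
  have hc' : Fintype.card (GaloisField p k) = Fintype.card (Linear.fixedQ hF) := by
    rw [hc, ← Nat.card_eq_fintype_card, Linear.card_fixedQ hF]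
  let e := FiniteField.ringEquivOfCardEq hc'
  obtain ⟨a, ha⟩ : ∃ a, frobQ hF a ≠ a := by
    by_contra h
    push Not at h
    exact Forms.frobQ_ne_id hF (RingHom.ext h)
  exact ⟨GaloisField p k, inferInstance, inferInstance, hc, ⟨{
    ι := (Linear.fixedQ hF).subtype.comp e.toRingHom
    fix := fun x => (e x).2
    surj := fun b hb => ⟨e.symm ⟨b, hb⟩, by simp⟩
    δ := a - frobQ hF a
    ne := sub_ne_zero.2 (Ne.symm ha)
    skew := by rw [map_sub, sig_sig hF, neg_sub] }⟩⟩

end Cfsg.Agent.Core.UnitaryRootGroups
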