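/-
The commuting graph on the involutions of the three-dimensional special unitary group in odd characteristic.
-/
import Cfsg.Agent.Forms.UnitaryPoints
import Cfsg.Agent.Core.UnitaryRootGroups

set_option autoImplicit false
set_option linter.unusedSectionVars false
set_option linter.unusedSimpArgs false
set_option linter.style.haveILetI false

namespace Cfsg.Agent.Core.UnitaryInvolutionGraph

open Cfsg.Agent.Forms (frobQ hermB perp)
open Cfsg.Agent.KnownA
open Module

variable {F : Type*} [Field F] [Fintype F] {q : ℕ} (hF : Fintype.card F = q ^ 2)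

local notation "V3" => (Fin 3 → F)
local notation "SU3" => Cfsg.SU 3 F q
local notation "B" => ub (n := 3) hF

include hF

theorem herm : Forms.IsHerm q (frobQ hF) (hermB 3 hF) := Forms.isHerm_std hF

theorem q_ne_zero : q ≠ 0 := by have := Forms.two_le_q hF; omega

theorem two_ne_zero' (hq : Odd q) : (2 : F) ≠ 0 := by
  refine Ring.two_ne_zero fun h => ?_
  have hc := FiniteField.even_card_of_char_two (F := F) h
  rw [hF] at hc
  obtain ⟨k, rfl⟩ := hq
  have : (2 * k + 1) ^ 2 % 2 = 1 := by simp [Nat.pow_mod, Nat.add_mod]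
  omega

/-- A norm is `0` only at `0`. -/
theorem norm_eq_zero {a : F} (h : a * frobQ hF a = 0) : a = 0 := by
  rcases mul_eq_zero.1 h with h | h
  · exact h
  · exact (map_eq_zero _).1 h

theorem norm_pow (a : F) : a ^ (q + 1) = a * frobQ hF a := by
  rw [Forms.frobQ_apply, pow_succ']

/-- An orthonormal frame through a unit vector. -/
theorem frame {v : V3} (hv : B v v = 1) : ∃ y u : V3, B y y = 1 ∧ B u u = 1 ∧ B v y = 0 ∧ B v u = 0 ∧
    B y u = 0 ∧ ∀ x, x = B v x • v + B y x • y + B u x • u := by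
  have h := herm hF
  set P := perp (hermB 3 hF) (Submodule.span F {v}) with hP
  have hfr : finrank F P = 2 := by
    have := h.finrank_unit_perp (v := v) hv
    rw [← hP, Module.finrank_fin_fun] at this
    omega
  obtain ⟨b₀, hb₀⟩ := (h.restrict (h.form.perp_nondeg (h.unit_span_nondeg (v := v) hv))).exists_orthonormal hF
  simp only [Forms.resForm_apply] at hb₀
  let b := b₀.reindex (finCongr hfr)
  have hb : ∀ i j, B (b i : V3) (b j : V3) = if i = j then 1 else 0 := fun i j => by
    simp only [b, Basis.reindex_apply]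
    rw [show B _ _ = _ from hb₀ _ _]
    simp
  have hperp : ∀ p : P, B v (p : V3) = 0 := fun p => Forms.mem_perp_span_singleton.1 p.2
  refine ⟨b 0, b 1, by simp [hb], by simp [hb], hperp _, hperp _, by simp [hb], fun x => ?_⟩
  obtain ⟨a, p, hp, rfl⟩ := h.exists_coords (v := v) hv x
  obtain ⟨c, d, hcd⟩ : ∃ c d : F, p = c • (b 0 : V3) + d • (b 1 : V3) := by
    refine ⟨b.repr ⟨p, hp⟩ 0, b.repr ⟨p, hp⟩ 1, ?_⟩
    have := congrArg Subtype.val (b.sum_repr ⟨p, hp⟩)
    rw [Fin.sum_univ_two] at this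
    exact this.symm
  subst hcd
  have e0 : B (b 0 : V3) v = 0 := ub_eq_zero_symm hF (hperp _)
  have e1 : B (b 1 : V3) v = 0 := ub_eq_zero_symm hF (hperp _)
  simp only [ub_add_right hF, ub_smul_right hF, hv, hb, hperp, e0, e1]
  simp
  module

/-- The third vector. -/
theorem third {v y : V3} (hv : B v v = 1) (hy : B y y = 1) (hvy : B v y = 0) :
    ∃ u : V3, B u u = 1 ∧ B v u = 0 ∧ B y u = 0 ∧ ∀ x, x = B v x • v + B y x • y + B u x • u := by
  obtain ⟨y', u', hy', hu', hvy', hvu', hyu', hexp⟩ := frame hF hv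
  have huy' : B u' y' = 0 := ub_eq_zero_symm hF hyu'
  have hyv' : B y' v = 0 := ub_eq_zero_symm hF hvy'
  have huv' : B u' v = 0 := ub_eq_zero_symm hF hvu'
  obtain ⟨c, d, rfl⟩ : ∃ c d : F, y = c • y' + d • u' := by
    refine ⟨B y' y, B u' y, ?_⟩
    conv_lhs => rw [hexp y, hvy, zero_smul, zero_add]
  have hn : frobQ hF c * c + frobQ hF d * d = 1 := by
    simp only [ub_add_left hF, ub_add_right hF, ub_smul_left hF, ub_smul_right hF, hy', hu', hyu', huy'] at hy
    linear_combination hy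
  refine ⟨(-frobQ hF d) • y' + (frobQ hF c) • u', ?_, ?_, ?_, fun x => ?_⟩
  · simp only [ub_add_left hF, ub_add_right hF, ub_smul_left hF, ub_smul_right hF, map_neg, sig_sig hF,
      hy', hu', hyu', huy']
    linear_combination hn
  · simp only [ub_add_right hF, ub_smul_right hF, hvy', hvu']; ring
  · simp only [ub_add_left hF, ub_add_right hF, ub_smul_left hF, ub_smul_right hF, hy', hu', hyu', huy']
    ring
  · conv_lhs => rw [hexp x]
    simp only [ub_add_left hF, ub_smul_left hF, map_neg, sig_sig hF]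
    match_scalars
    · ring
    · linear_combination -(B y' x) * hn
    · linear_combination -(B u' x) * hn

theorem refl_isometry {v : V3} (hv : B v v = 1) (x y : V3) :
    B (-x + (2 * B v x) • v) (-y + (2 * B v y) • v) = B x y := by
  rw [← sub_zero (-x + _), ← sub_zero (-y + _)]
  simp only [sub_zero]
  rw [show -x = (-1 : F) • x by simp, show -y = (-1 : F) • y by simp]
  simp only [ub_add_left hF, ub_add_right hF, ub_smul_left hF, ub_smul_right hF, hv, map_mul, map_neg,
    map_one, map_ofNat, ub_symm hF]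
  ring

/-- The involution attached to a unit vector. -/
def rv (v : V3) (hv : B v v = 1) : SU3 :=
  UnitaryRootGroups.mkSU (hF := hF) ((-1 : F) • LinearMap.id + ((2 : F) • ubL hF v).smulRight v)
    (fun x y => by
      simp only [LinearMap.add_apply, LinearMap.smul_apply, LinearMap.id_apply, LinearMap.smulRight_apply,
        ubL_apply, smul_eq_mul, neg_one_smul]
      exact refl_isometry hF hv x y)
    (by
      rw [show ((-1 : F) • LinearMap.id + ((2 : F) • ubL hF v).smulRight v : V3 →ₗ[F] V3) =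
        (-1 : F) • (LinearMap.id + ((-2 : F) • ubL hF v).smulRight v) from LinearMap.ext fun x => by
          simp [smul_smul]]
      rw [LinearMap.det_smul, det_one_add_one, Module.finrank_fin_fun]
      simp only [LinearMap.smul_apply, ubL_apply, hv, smul_eq_mul]
      ring)

theorem rv_act {v : V3} (hv : B v v = 1) (x : V3) : act (rv hF v hv) x = -x + (2 * B v x) • v := by
  rw [rv, UnitaryRootGroups.act_mkSU]
  simp [ubL_apply, mul_comm]

theorem act_inv_right (g : SU3) (x : V3) : act g (act g⁻¹ x) = x := by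
  rw [← act_mul_apply, mul_inv_cancel, act_one]; rfl

theorem B_act (g : SU3) (x y : V3) : B (act g x) (act g y) = B x y := g.2 y x

theorem B_act_left (g : SU3) (x y : V3) : B (act g x) y = B x (act g⁻¹ y) := by
  conv_lhs => rw [← act_inv_right hF g y]
  exact B_act hF g _ _

theorem rv_self {v : V3} (hv : B v v = 1) : act (rv hF v hv) v = v := by
  rw [rv_act, hv]; module

theorem rv_mul_self {v : V3} (hv : B v v = 1) : rv hF v hv * rv hF v hv = 1 := su_ext fun x => by
  rw [act_mul_apply, rv_act, rv_act, act_one, Module.End.one_apply, ub_add_right hF, ub_smul_right hF,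
    show -x = (-1 : F) • x by simp, ub_smul_right hF, hv]
  module

theorem rv_ne_one (hq : Odd q) {v : V3} (hv : B v v = 1) : rv hF v hv ≠ 1 := by
  intro e
  obtain ⟨y, u, hy, hu, hvy, -⟩ := frame hF hv
  have h1 := congrArg (fun g => B y (act g y)) e
  simp only [rv_act, hvy, mul_zero, zero_smul, add_zero, act_one, Module.End.one_apply] at h1
  rw [show -y = (-1 : F) • y by simp, ub_smul_right hF, hy] at h1
  exact two_ne_zero' hF hq (by linear_combination -h1)

theorem rv_eq_iff (hq : Odd q) {v w : V3} (hv : B v v = 1) (hw : B w w = 1) :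
    rv hF v hv = rv hF w hw ↔ ∃ a : F, w = a • v := by
  constructor
  · intro e
    have h1 := congrArg (fun g => act g w) e
    simp only [rv_self, rv_act] at h1
    refine ⟨B v w, ?_⟩
    have h2 : (2 : F) • w = (2 : F) • (B v w • v) := by
      conv_lhs => rw [two_smul]; arg 1; rw [← h1]
      module
    exact smul_right_injective V3 (two_ne_zero' hF hq) h2
  · rintro ⟨a, rfl⟩
    have ha : frobQ hF a * a = 1 := by
      rw [ub_smul_left hF, ub_smul_right hF, hv, mul_one] at hw; exact hw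
    refine su_ext fun x => ?_
    rw [rv_act, rv_act, ub_smul_left hF]
    match_scalars
    · ring
    · linear_combination -(2 * B v x) * ha

theorem conj_rv (g : SU3) {v : V3} (hv : B v v = 1) :
    g * rv hF v hv * g⁻¹ = rv hF (act g v) (by rw [B_act hF, hv]) := su_ext fun x => by
  rw [act_mul_apply, act_mul_apply, rv_act, rv_act, map_add, map_neg, map_smul, act_inv_right hF,
    B_act_left hF]

theorem commute_iff (hq : Odd q) {v w : V3} (hv : B v v = 1) (hw : B w w = 1) :
    Commute (rv hF v hv) (rv hF w hw) ↔ B v w = 0 ∨ ∃ a : F, w = a • v := by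
  constructor
  · intro h
    by_cases h0 : B v w = 0
    · exact Or.inl h0
    right
    have he : rv hF (act (rv hF v hv) w) (by rw [B_act hF, hw]) = rv hF w hw := by
      rw [← conj_rv hF (rv hF v hv) hw, h.eq, mul_inv_cancel_right]
    obtain ⟨a, ha⟩ := (rv_eq_iff hF hq _ hw).1 he
    rw [rv_act] at ha
    have hva : a ≠ 0 := by
      intro e
      rw [e, zero_smul] at ha
      rw [ha, ub_zero_left hF] at hw
      exact zero_ne_one hw
    have h1 := congrArg (B v) ha
    rw [show -w = (-1 : F) • w by simp] at h1 ha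
    simp only [ub_smul_right hF, ub_add_right hF, hv] at h1
    have ha1 : a = 1 := by
      have : (a - 1) * B v w = 0 := by linear_combination -h1
      exact sub_eq_zero.1 ((mul_eq_zero.1 this).resolve_right h0)
    rw [ha1, one_smul] at ha
    refine ⟨B v w, ?_⟩
    have h2 : (2 : F) • w = (2 : F) • (B v w • v) := by
      conv_lhs => rw [two_smul]; arg 1; rw [ha]
      module
    exact smul_right_injective V3 (two_ne_zero' hF hq) h2
  · rintro (h | ⟨a, ha⟩)
    · refine su_ext fun x => ?_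
      simp only [act_mul_apply, rv_act]
      rw [show -x = (-1 : F) • x by simp]
      simp only [← neg_one_smul F ((-1 : F) • x + _), ub_smul_right hF, ub_add_right hF, h, ub_eq_zero_symm hF h]
      module
    · rw [(rv_eq_iff hF hq hv hw).2 ⟨a, ha⟩]

/-- A unit fixed vector in an invariant non-degenerate subspace. -/
theorem exists_fixed_unit (hq : Odd q) (g : SU3) (hg : g * g = 1) (P : Submodule F V3)
    (hinv : ∀ x ∈ P, act g x ∈ P) (hnd : ∀ u ∈ P, (∀ x ∈ P, B u x = 0) → u = 0)
    (hne : ∃ x ∈ P, x + act g x ≠ 0) : ∃ w ∈ P, act g w = w ∧ B w w = 1 := by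
  have hgg : ∀ x, act g (act g x) = x := fun x => by rw [← act_mul_apply, hg, act_one]; rfl
  let X : Submodule F V3 := P ⊓ LinearMap.ker (act g - 1)
  have memX : ∀ x, x ∈ X ↔ x ∈ P ∧ act g x = x := fun x => by
    simp [X, sub_eq_zero]
  have hX : ∀ u ∈ X, (∀ x ∈ X, hermB 3 hF u x = 0) → u = 0 := by
    intro u hu h
    obtain ⟨huP, hug⟩ := (memX u).1 hu
    refine hnd u huP fun x hx => ?_
    have h1 : B u (x + act g x) = 0 :=
      h _ ((memX _).2 ⟨add_mem hx (hinv x hx), by rw [map_add, hgg, add_comm]⟩)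
    have h2 : B u (act g x) = B u x := by
      conv_lhs => rw [← hug]
      exact B_act hF g u x
    rw [ub_add_right hF, h2, ← two_mul] at h1
    exact (mul_eq_zero.1 h1).resolve_left (two_ne_zero' hF hq)
  obtain ⟨x, hx, hxne⟩ := hne
  haveI : Nontrivial X := ⟨⟨⟨x + act g x, (memX _).2 ⟨add_mem hx (hinv x hx), by
    rw [map_add, hgg, add_comm]⟩⟩, 0, fun e => hxne (congrArg Subtype.val e)⟩⟩
  obtain ⟨w, hw⟩ := ((herm hF).restrict hX).exists_self_eq_one hF
  rw [Forms.resForm_apply] at hw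
  exact ⟨w, ((memX _).1 w.2).1, ((memX _).1 w.2).2, hw⟩

theorem surj (hq : Odd q) {g : SU3} (hg1 : g ≠ 1) (hg : g * g = 1) :
    ∃ (v : V3) (hv : B v v = 1), g = rv hF v hv := by
  have h2 := two_ne_zero' hF hq
  obtain ⟨v, -, hgv, hv⟩ := exists_fixed_unit hF hq g hg ⊤ (fun _ _ => trivial)
    (fun u _ h => (herm hF).form.nondeg u fun x => h x trivial) (by
      by_contra hh
      push Not at hh
      have hneg : act g = (-1 : F) • (1 : Module.End F V3) := LinearMap.ext fun x => by
        rw [LinearMap.smul_apply, Module.End.one_apply, neg_one_smul]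
        exact eq_neg_of_add_eq_zero_right (hh x trivial)
      have hd : LinearMap.det (act g) = 1 := by
        rw [act, LinearMap.det_toLin']; exact g.1.2
      rw [hneg, LinearMap.det_smul, Module.finrank_fin_fun, map_one] at hd
      exact h2 (by linear_combination -hd))
  refine ⟨v, hv, ?_⟩
  by_contra hne
  set r := rv hF v hv with hr
  have hrr : r * r = 1 := rv_mul_self hF hv
  have hcomm : g * r = r * g := by
    have e : g * r * g⁻¹ = r := by
      rw [hr, conj_rv hF]
      exact (rv_eq_iff hF hq _ hv).2 ⟨1, by rw [one_smul, hgv]⟩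
    exact mul_inv_eq_iff_eq_mul.1 e
  set h := g * r with hh
  have hhh : h * h = 1 := by
    rw [hh, mul_assoc, ← mul_assoc r g r, ← hcomm, mul_assoc g r r, hrr, mul_one, hg]
  have hhv : act h v = v := by rw [hh, act_mul_apply, hr, rv_self, hgv]
  have hperp : ∀ x, B v x = 0 → act h x = - act g x := fun x hx => by
    rw [hh, act_mul_apply, hr, rv_act, hx, mul_zero, zero_smul, add_zero, map_neg]
  obtain ⟨y, u, hy, hu, hvy, hvu, hyu, hexp⟩ := frame hF hv
  let P := perp (hermB 3 hF) (Submodule.span F {v})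
  have hPmem : ∀ x, x ∈ P ↔ B v x = 0 := fun x => Forms.mem_perp_span_singleton
  obtain ⟨w, hwP, hhw, hw⟩ := exists_fixed_unit hF hq h hhh P
    (fun x hx => by
      rw [hPmem] at hx ⊢
      rw [← hhv, B_act hF, hx])
    (fun p hp h0 => by
      have := hexp p
      rw [(hPmem p).1 hp, zero_smul, zero_add, ← ub_symm hF p y, h0 y ((hPmem y).2 hvy), ← ub_symm hF p u,
        h0 u ((hPmem u).2 hvu)] at this
      rw [this, map_zero, zero_smul, zero_smul, add_zero])
    (by
      by_contra hh'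
      push Not at hh'
      refine hg1 (su_ext fun x => ?_)
      have fy : act g y = y := by
        have := hh' y ((hPmem y).2 hvy)
        rw [hperp y hvy, ← sub_eq_add_neg, sub_eq_zero] at this
        exact this.symm
      have fu : act g u = u := by
        have := hh' u ((hPmem u).2 hvu)
        rw [hperp u hvu, ← sub_eq_add_neg, sub_eq_zero] at this
        exact this.symm
      conv_lhs => rw [hexp x]
      rw [map_add, map_add, map_smul, map_smul, map_smul, hgv, fy, fu, act_one, Module.End.one_apply]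
      exact (hexp x).symm)
  obtain ⟨z, hz, hvz, hwz, hexp'⟩ := third hF hv hw ((hPmem w).1 hwP)
  set l := B z (act h z) with hl
  have hz' : act h z = l • z := by
    conv_lhs => rw [hexp' (act h z)]
    rw [show B v (act h z) = 0 by rw [← hhv, B_act hF, hvz],
      show B w (act h z) = 0 by rw [← hhw, B_act hF, hwz]]
    simp [hl]
  have hmap : act h = LinearMap.id + ((l - 1) • ubL hF z).smulRight z := by
    refine LinearMap.ext fun x => ?_
    simp only [LinearMap.add_apply, LinearMap.id_apply, LinearMap.smulRight_apply, LinearMap.smul_apply,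
      ubL_apply, smul_eq_mul]
    conv_lhs => rw [hexp' x, map_add, map_add, map_smul, map_smul, map_smul, hhv, hhw, hz']
    nth_rewrite 4 [hexp' x]
    module
  have hd : LinearMap.det (act h) = 1 := by
    rw [act, LinearMap.det_toLin']; exact h.1.2
  rw [hmap, det_one_add_one, LinearMap.smul_apply, ubL_apply, hz, smul_eq_mul, mul_one,
    add_sub_cancel] at hd
  have h1 : h = 1 := su_ext fun x => by
    rw [hmap, hd, sub_self, zero_smul]
    simp [act_one]
  apply hne
  have := congrArg (· * r) h1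
  simp only [hh, mul_assoc, hrr, mul_one, one_mul] at this
  exact this

/-- Counting involutions through unit vectors. -/
theorem card_through (hq : Odd q) (S : SU3 → Prop) (hS : ∀ g, S g → g ≠ 1 ∧ g * g = 1) :
    Nat.card {w : V3 // ∃ hw : B w w = 1, S (rv hF w hw)} = (q + 1) * Nat.card {g : SU3 // S g} := by
  classical
  choose s hs1 hs2 using fun g : {g : SU3 // S g} => surj hF hq (hS g.1 g.2).1 (hS g.1 g.2).2
  have hnorm : ∀ a : F, a ^ (q + 1) = 1 → frobQ hF a * a = 1 := fun a ha => by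
    rw [mul_comm, ← norm_pow hF, ha]
  let f : {a : F // a ^ (q + 1) = 1} × {g : SU3 // S g} → {w : V3 // ∃ hw : B w w = 1, S (rv hF w hw)} :=
    fun x => ⟨x.1.1 • s x.2, by
      have hw : B (x.1.1 • s x.2) (x.1.1 • s x.2) = 1 := by
        rw [ub_smul_left hF, ub_smul_right hF, hs1, mul_one, hnorm _ x.1.2]
      refine ⟨hw, ?_⟩
      rw [← (rv_eq_iff hF hq (hs1 x.2) hw).2 ⟨_, rfl⟩, ← hs2]
      exact x.2.2⟩
  have hf : Function.Bijective f := by
    constructor
    · rintro ⟨⟨a, ha⟩, g⟩ ⟨⟨a', ha'⟩, g'⟩ e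
      have e' : a • s g = a' • s g' := congrArg Subtype.val e
      have hane : a ≠ 0 := fun h => by simp [h] at ha
      have hg : g = g' := by
        refine Subtype.ext ?_
        rw [hs2 g, hs2 g', rv_eq_iff hF hq]
        refine ⟨a'⁻¹ * a, ?_⟩
        have ha'0 : a' ≠ 0 := fun h => by simp [h] at ha'
        rw [mul_smul, e', smul_smul, inv_mul_cancel₀ ha'0, one_smul]
      subst hg
      have hs0 : s g ≠ 0 := fun h => by
        have := hs1 g; rw [h, ub_zero_left hF] at this; exact zero_ne_one this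
      have := smul_left_injective F hs0 e'
      subst this; rfl
    · rintro ⟨w, hw, hSw⟩
      obtain ⟨a, ha⟩ := (rv_eq_iff hF hq (hs1 ⟨_, hSw⟩) hw).1 (hs2 ⟨_, hSw⟩).symm
      have han : a ^ (q + 1) = 1 := by
        have := hw
        rw [ha, ub_smul_left hF, ub_smul_right hF, hs1, mul_one] at this
        rw [norm_pow hF, mul_comm, this]
      exact ⟨⟨⟨a, han⟩, ⟨_, hSw⟩⟩, Subtype.ext ha.symm⟩
  rw [← Nat.card_congr (Equiv.ofBijective f hf), Nat.card_prod,
    Forms.card_norm_eq hF 1 one_ne_zero (one_pow q)]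

theorem card_unit : Nat.card {w : V3 // B w w = 1} = q ^ 5 + q ^ 2 := by
  have h := ((herm hF).card_levels hF).2 (by rw [Module.finrank_fin_fun]; decide)
  rw [Module.finrank_fin_fun] at h
  refine Nat.eq_of_mul_eq_mul_left (Nat.pos_of_ne_zero (q_ne_zero hF)) ?_
  refine Eq.trans h.1 ?_
  ring

theorem plane_levels {v : V3} (hv : B v v = 1) :
    Nat.card {p : perp (hermB 3 hF) (Submodule.span F {v}) // B (p : V3) (p : V3) = 1} + q = q ^ 3 ∧
    Nat.card {p : perp (hermB 3 hF) (Submodule.span F {v}) // B (p : V3) (p : V3) = 0} + q =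
      q ^ 3 + q ^ 2 := by
  have h := herm hF
  have hfr : finrank F (perp (hermB 3 hF) (Submodule.span F {v})) = 2 := by
    have := h.finrank_unit_perp (v := v) hv
    rw [Module.finrank_fin_fun] at this
    omega
  obtain ⟨h1, h0⟩ := ((h.restrict (h.form.perp_nondeg (h.unit_span_nondeg (v := v) hv))).card_levels hF).1
    (by rw [hfr]; decide)
  rw [hfr] at h1 h0
  simp only [Forms.resForm_apply] at h1 h0
  have hq0 := Nat.pos_of_ne_zero (q_ne_zero hF)
  constructor
  · refine Nat.eq_of_mul_eq_mul_left hq0 ?_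
    rw [mul_add]
    refine Eq.trans (Eq.trans ?_ h1) (by ring)
    rw [show q * q = q ^ 2 from (sq q).symm]
    rfl
  · refine Nat.eq_of_mul_eq_mul_left hq0 ?_
    rw [mul_add]
    refine Eq.trans (Eq.trans ?_ h0) (by ring)
    rw [show q * q = q ^ 2 from (sq q).symm]
    rfl

theorem card_perp_unit {v : V3} (hv : B v v = 1) :
    Nat.card {w : V3 // B w w = 1 ∧ B v w = 0} + q = q ^ 3 := by
  rw [← (plane_levels hF hv).1]
  congr 1
  exact Nat.card_congr
    { toFun := fun w => ⟨⟨w.1, Forms.mem_perp_span_singleton.2 w.2.2⟩, w.2.1⟩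
      invFun := fun p => ⟨p.1.1, p.2, Forms.mem_perp_span_singleton.1 p.1.2⟩ }

/-- `w` is a unit vector spanning a degenerate plane with `v`. -/
def Far (v w : V3) : Prop := B w w = 1 ∧ frobQ hF (B v w) * B v w = 1 ∧ ∀ a : F, w ≠ a • v

theorem card_far {v : V3} (hv : B v v = 1) :
    Nat.card {w : V3 // Far hF v w} + (q + 1) * (q + 1) = (q + 1) * (q ^ 3 + q ^ 2) := by
  classical
  set P := perp (hermB 3 hF) (Submodule.span F {v}) with hP
  let I : Set P := {p | B (p : V3) (p : V3) = 0}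
  have h0I : (0 : P) ∈ I := ub_zero_left hF _
  have hI : Nat.card ↥(I \ {0}) + (q + 1) = q ^ 3 + q ^ 2 := by
    have e := Set.ncard_sdiff_singleton_add_one h0I
    have e2 := (plane_levels hF hv).2
    rw [Nat.card_coe_set_eq]
    have e3 : I.ncard = Nat.card {p : P // B (p : V3) (p : V3) = 0} := (Nat.card_coe_set_eq I).symm
    rw [← hP] at e2
    omega
  let f : {a : F // a ^ (q + 1) = 1} × ↥(I \ {0}) → {w : V3 // Far hF v w} :=
    fun x => ⟨x.1.1 • v + ((x.2 : P) : V3), by
      have hp : B v ((x.2 : P) : V3) = 0 := Forms.mem_perp_span_singleton.1 (x.2 : P).2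
      have hp' := ub_eq_zero_symm hF hp
      have hp0 : B ((x.2 : P) : V3) ((x.2 : P) : V3) = 0 := x.2.2.1
      have hn : frobQ hF x.1.1 * x.1.1 = 1 := by rw [mul_comm, ← norm_pow hF, x.1.2]
      refine ⟨?_, ?_, fun b hb => x.2.2.2 ?_⟩
      · simp only [ub_add_left hF, ub_add_right hF, ub_smul_left hF, ub_smul_right hF, hv, hp, hp', hp0]
        linear_combination hn
      · simp only [ub_add_right hF, ub_smul_right hF, hv, hp, mul_one, add_zero, hn]
      · have h1 := congrArg (B v) hb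
        simp only [ub_add_right hF, ub_smul_right hF, hv, hp, mul_one, add_zero] at h1
        rw [h1] at hb
        exact Subtype.ext (by simpa using hb)⟩
  have hf : Function.Bijective f := by
    constructor
    · rintro ⟨⟨a, ha⟩, p, hp⟩ ⟨⟨a', ha'⟩, p', hp'⟩ e
      have e' : a • v + (p : V3) = a' • v + (p' : V3) := congrArg Subtype.val e
      have k1 : B v (p : V3) = 0 := Forms.mem_perp_span_singleton.1 p.2
      have k2 : B v (p' : V3) = 0 := Forms.mem_perp_span_singleton.1 p'.2
      have h1 := congrArg (B v) e'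
      simp only [ub_add_right hF, ub_smul_right hF, hv, k1, k2, mul_one, add_zero] at h1
      subst h1
      obtain rfl : p = p' := Subtype.ext (add_left_cancel e')
      rfl
    · rintro ⟨w, hw, hn, hne⟩
      obtain ⟨a, p, hp, rfl⟩ := (herm hF).exists_coords (v := v) hv w
      have hvp : B v p = 0 := Forms.mem_perp_span_singleton.1 hp
      simp only [ub_add_right hF, ub_smul_right hF, hv, hvp, mul_one, add_zero] at hn
      have hpp : B p p = 0 := by
        simp only [ub_add_left hF, ub_add_right hF, ub_smul_left hF, ub_smul_right hF, hv, hvp,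
          ub_eq_zero_symm hF hvp] at hw
        linear_combination hw - hn
      refine ⟨⟨⟨a, by rw [norm_pow hF, mul_comm, hn]⟩, ⟨p, hp⟩, hpp, fun h => hne a ?_⟩, rfl⟩
      rw [show p = 0 from congrArg Subtype.val h, add_zero]
  rw [← Nat.card_congr (Equiv.ofBijective f hf), Nat.card_prod,
    Forms.card_norm_eq hF 1 one_ne_zero (one_pow q), ← mul_add, hI]

theorem exists_common {v w : V3} (hv : B v v = 1) (hw : B w w = 1) (h : frobQ hF (B v w) * B v w ≠ 1) :
    ∃ u, B u u = 1 ∧ B v u = 0 ∧ B w u = 0 := by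
  set c := B v w with hc
  set z := w - c • v with hz
  have hvz : B v z = 0 := by rw [hz, ub_sub_right hF, ub_smul_right hF, hv, mul_one, hc, sub_self]
  have hzz : B z z ≠ 0 := by
    rw [hz]
    simp only [ub_sub_left hF, ub_sub_right hF, ub_smul_left hF, ub_smul_right hF, hv, hw, ← hc,
      ← ub_symm hF v w]
    intro e
    exact h (by linear_combination -e)
  obtain ⟨a, ha⟩ := Forms.exists_norm_eq hF (B z z)⁻¹ (by
    rw [inv_pow, show B z z ^ q = B z z from (herm hF).self_fixed z])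
  have haz : B (a • z) (a • z) = 1 := by
    rw [ub_smul_left hF, ub_smul_right hF, ← mul_assoc, mul_comm (frobQ hF a), ← norm_pow hF, ha,
      inv_mul_cancel₀ hzz]
  obtain ⟨u, hu, hvu, hzu, -⟩ := third hF hv haz (by rw [ub_smul_right hF, hvz, mul_zero])
  refine ⟨u, hu, hvu, ?_⟩
  have ha0 : frobQ hF a ≠ 0 := fun e => by
    rw [(map_eq_zero _).1 e, zero_smul, ub_zero_left hF] at haz
    exact zero_ne_one haz
  rw [ub_smul_left hF] at hzu
  rw [show w = z + c • v by rw [hz]; abel, ub_add_left hF, ub_smul_left hF,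
    (mul_eq_zero.1 hzu).resolve_left ha0, hvu, mul_zero, add_zero]

theorem norm_ne_of_common {v w u : V3} (hv : B v v = 1) (hw : B w w = 1) (hne : ∀ a : F, w ≠ a • v)
    (hu : B u u = 1) (hvu : B v u = 0) (hwu : B w u = 0) : frobQ hF (B v w) * B v w ≠ 1 := by
  intro h
  obtain ⟨y, hy, hvy, huy, hexp⟩ := third hF hv hu hvu
  have he := hexp w
  rw [ub_eq_zero_symm hF hwu, zero_smul, add_zero] at he
  have h0 : B y w * frobQ hF (B y w) = 0 := by
    have h1 : B w (B v w • v + B y w • y) = 1 := by rw [← he]; exact hw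
    rw [ub_add_right hF, ub_smul_right hF, ub_smul_right hF, ← ub_symm hF v w, ← ub_symm hF y w] at h1
    linear_combination h1 - h
  refine hne (B v w) ?_
  rw [norm_eq_zero hF h0, zero_smul, add_zero] at he
  exact he

/-- The main statement. -/
theorem main (hq : Odd q) (t : SU3) (ht : t ≠ 1) (ht2 : t * t = 1) :
    Nat.card {x : SU3 // x ≠ 1 ∧ x * x = 1 ∧ x ≠ t ∧ Commute t x} = q * (q - 1) ∧
    Nat.card {x : SU3 // x ≠ 1 ∧ x * x = 1 ∧ ¬ Commute t x ∧
        ∃ y : SU3, y ≠ 1 ∧ y * y = 1 ∧ Commute t y ∧ Commute y x} = q * (q - 2) * (q ^ 2 - 1) ∧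
    Nat.card {x : SU3 // x ≠ 1 ∧ x * x = 1 ∧ ¬ Commute t x ∧
        ∀ y : SU3, y ≠ 1 → y * y = 1 → ¬ (Commute t y ∧ Commute y x)} = (q + 1) * (q ^ 2 - 1) ∧
    ∀ x : SU3, x ≠ 1 → x * x = 1 →
      ∃ y z : SU3, y ≠ 1 ∧ y * y = 1 ∧ z ≠ 1 ∧ z * z = 1 ∧
        Commute t y ∧ Commute y z ∧ Commute z x := by
  classical
  obtain ⟨v, hv, rfl⟩ := surj hF hq ht ht2
  set t := rv hF v hv with htv
  have hr : ∀ {w : V3} (hw : B w w = 1), rv hF w hw ≠ 1 ∧ rv hF w hw * rv hF w hw = 1 :=
    fun hw => ⟨rv_ne_one hF hq hw, rv_mul_self hF hw⟩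
  have hline : ∀ {w : V3} (hw : B w w = 1), rv hF w hw ≠ t ↔ ∀ a : F, w ≠ a • v := fun hw => by
    rw [ne_eq, eq_comm, rv_eq_iff hF hq hv hw, not_exists]
  have hfar : ∀ {w : V3} (hw : B w w = 1), ¬ Commute t (rv hF w hw) →
      ((∀ y : SU3, y ≠ 1 → y * y = 1 → ¬ (Commute t y ∧ Commute y (rv hF w hw))) ↔ Far hF v w) := by
    intro w hw hnc
    rw [commute_iff hF hq hv hw, not_or, not_exists] at hnc
    obtain ⟨h0, hne⟩ := hnc
    constructor
    · intro hall
      refine ⟨hw, ?_, hne⟩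
      by_contra hn
      obtain ⟨u, hu, hvu, hwu⟩ := exists_common hF hv hw hn
      exact hall _ (hr hu).1 (hr hu).2 ⟨(commute_iff hF hq hv hu).2 (Or.inl hvu),
        (commute_iff hF hq hu hw).2 (Or.inl (ub_eq_zero_symm hF hwu))⟩
    · rintro ⟨-, hn, -⟩ y hy1 hy2 ⟨hty, hyx⟩
      obtain ⟨u, hu, rfl⟩ := surj hF hq hy1 hy2
      rcases (commute_iff hF hq hv hu).1 hty with hvu | ⟨a, rfl⟩
      · rcases (commute_iff hF hq hu hw).1 hyx with huw | ⟨b, rfl⟩
        · exact norm_ne_of_common hF hv hw hne hu hvu (ub_eq_zero_symm hF huw) hn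
        · rw [ub_smul_right hF, hvu, mul_zero] at h0
          exact h0 rfl
      · rw [← (rv_eq_iff hF hq hv hu).2 ⟨a, rfl⟩, commute_iff hF hq hv hw] at hyx
        rcases hyx with h | ⟨b, hb⟩
        · exact h0 h
        · exact hne b hb
  -- commuting involutions
  have c1 := card_through hF hq (fun x => x ≠ 1 ∧ x * x = 1 ∧ x ≠ t ∧ Commute t x) (fun g h => ⟨h.1, h.2.1⟩)
  have e1 : Nat.card {w : V3 // ∃ hw : B w w = 1,
      rv hF w hw ≠ 1 ∧ rv hF w hw * rv hF w hw = 1 ∧ rv hF w hw ≠ t ∧ Commute t (rv hF w hw)} =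
      Nat.card {w : V3 // B w w = 1 ∧ B v w = 0} := by
    refine Nat.card_congr (Equiv.subtypeEquivRight fun w => ⟨?_, ?_⟩)
    · rintro ⟨hw, -, -, h3, h4⟩
      refine ⟨hw, ?_⟩
      rcases (commute_iff hF hq hv hw).1 h4 with h | ⟨a, ha⟩
      · exact h
      · exact absurd ha ((hline hw).1 h3 a)
    · rintro ⟨hw, h0⟩
      refine ⟨hw, (hr hw).1, (hr hw).2, (hline hw).2 fun a ha => ?_, (commute_iff hF hq hv hw).2 (Or.inl h0)⟩
      rw [ha, ub_smul_right hF, hv, mul_one] at h0
      rw [ha, h0, zero_smul, ub_zero_left hF] at hw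
      exact zero_ne_one hw
  rw [e1] at c1
  -- far involutions
  have c3 := card_through hF hq (fun x => x ≠ 1 ∧ x * x = 1 ∧ ¬ Commute t x ∧
    ∀ y : SU3, y ≠ 1 → y * y = 1 → ¬ (Commute t y ∧ Commute y x)) (fun g h => ⟨h.1, h.2.1⟩)
  have e3 : Nat.card {w : V3 // ∃ hw : B w w = 1, rv hF w hw ≠ 1 ∧ rv hF w hw * rv hF w hw = 1 ∧
      ¬ Commute t (rv hF w hw) ∧ ∀ y : SU3, y ≠ 1 → y * y = 1 → ¬ (Commute t y ∧ Commute y (rv hF w hw))} =
      Nat.card {w : V3 // Far hF v w} := by
    refine Nat.card_congr (Equiv.subtypeEquivRight fun w => ⟨?_, ?_⟩)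
    · rintro ⟨hw, -, -, h3, h4⟩
      exact (hfar hw h3).1 h4
    · intro hf
      obtain ⟨hw, hn, hne⟩ := hf
      have hnc : ¬ Commute t (rv hF w hw) := by
        rw [commute_iff hF hq hv hw, not_or, not_exists]
        exact ⟨fun e => by rw [e, mul_zero] at hn; exact zero_ne_one hn, hne⟩
      exact ⟨hw, (hr hw).1, (hr hw).2, hnc, (hfar hw hnc).2 ⟨hw, hn, hne⟩⟩
  rw [e3] at c3
  -- all involutions
  have c0 := card_through hF hq (fun x => x ≠ 1 ∧ x * x = 1) (fun g h => h)
  have e0 : Nat.card {w : V3 // ∃ hw : B w w = 1, rv hF w hw ≠ 1 ∧ rv hF w hw * rv hF w hw = 1} =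
      Nat.card {w : V3 // B w w = 1} :=
    Nat.card_congr (Equiv.subtypeEquivRight fun w => ⟨fun h => h.1, fun h => ⟨h, hr h⟩⟩)
  rw [e0, card_unit hF] at c0
  set N0 := Nat.card {x : SU3 // x ≠ 1 ∧ x * x = 1}
  set N1 := Nat.card {x : SU3 // x ≠ 1 ∧ x * x = 1 ∧ x ≠ t ∧ Commute t x}
  set N2 := Nat.card {x : SU3 // x ≠ 1 ∧ x * x = 1 ∧ ¬ Commute t x ∧
    ∃ y : SU3, y ≠ 1 ∧ y * y = 1 ∧ Commute t y ∧ Commute y x} with hN2
  set N3 := Nat.card {x : SU3 // x ≠ 1 ∧ x * x = 1 ∧ ¬ Commute t x ∧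
    ∀ y : SU3, y ≠ 1 → y * y = 1 → ¬ (Commute t y ∧ Commute y x)}
  have hsum : N0 = 1 + N1 + N2 + N3 := by
    let A1 : Set SU3 := {x | x ≠ 1 ∧ x * x = 1 ∧ x ≠ t ∧ Commute t x}
    let A2 : Set SU3 := {x | x ≠ 1 ∧ x * x = 1 ∧ ¬ Commute t x ∧
      ∃ y : SU3, y ≠ 1 ∧ y * y = 1 ∧ Commute t y ∧ Commute y x}
    let A3 : Set SU3 := {x | x ≠ 1 ∧ x * x = 1 ∧ ¬ Commute t x ∧
      ∀ y : SU3, y ≠ 1 → y * y = 1 → ¬ (Commute t y ∧ Commute y x)}
    show ({x : SU3 | x ≠ 1 ∧ x * x = 1}).ncard = 1 + A1.ncard + A2.ncard + A3.ncard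
    have hU : {x : SU3 | x ≠ 1 ∧ x * x = 1} = (({t} ∪ A1) ∪ A2) ∪ A3 := by
      ext x
      simp only [Set.mem_union, Set.mem_singleton_iff, A1, A2, A3, Set.mem_ofPred_eq]
      constructor
      · rintro ⟨h1, h2⟩
        by_cases hx : x = t
        · exact Or.inl (Or.inl (Or.inl hx))
        by_cases hc : Commute t x
        · exact Or.inl (Or.inl (Or.inr ⟨h1, h2, hx, hc⟩))
        by_cases hy : ∃ y : SU3, y ≠ 1 ∧ y * y = 1 ∧ Commute t y ∧ Commute y x
        · exact Or.inl (Or.inr ⟨h1, h2, hc, hy⟩)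
        · exact Or.inr ⟨h1, h2, hc, fun y a b c => hy ⟨y, a, b, c.1, c.2⟩⟩
      · rintro (((rfl | h) | h) | h)
        exacts [⟨ht, ht2⟩, ⟨h.1, h.2.1⟩, ⟨h.1, h.2.1⟩, ⟨h.1, h.2.1⟩]
    have d1 : Disjoint ({t} : Set SU3) A1 := Set.disjoint_singleton_left.2 fun h => h.2.2.1 rfl
    have d2 : Disjoint ({t} ∪ A1) A2 := by
      rw [Set.disjoint_left]
      rintro x (rfl | h) h'
      · exact h'.2.2.1 (Commute.refl _)
      · exact h'.2.2.1 h.2.2.2
    have d3 : Disjoint ({t} ∪ A1 ∪ A2) A3 := by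
      rw [Set.disjoint_left]
      rintro x ((rfl | h) | h) h'
      · exact h'.2.2.1 (Commute.refl _)
      · exact h'.2.2.1 h.2.2.2
      · obtain ⟨y, a, b, c, d⟩ := h.2.2.2
        exact h'.2.2.2 y a b ⟨c, d⟩
    rw [hU, Set.ncard_union_eq d3, Set.ncard_union_eq d2, Set.ncard_union_eq d1, Set.ncard_singleton]
  have hlast : ∀ x : SU3, x ≠ 1 → x * x = 1 → ∃ y z : SU3, y ≠ 1 ∧ y * y = 1 ∧ z ≠ 1 ∧ z * z = 1 ∧
      Commute t y ∧ Commute y z ∧ Commute z x := by
    intro x hx1 hx2
    by_cases hcx : Commute t x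
    · exact ⟨t, x, ht, ht2, hx1, hx2, Commute.refl _, hcx, Commute.refl _⟩
    by_cases hy : ∃ y : SU3, y ≠ 1 ∧ y * y = 1 ∧ Commute t y ∧ Commute y x
    · obtain ⟨y, a, b, c, d⟩ := hy
      exact ⟨y, y, a, b, a, b, c, Commute.refl _, d⟩
    obtain ⟨w, hw, rfl⟩ := surj hF hq hx1 hx2
    obtain ⟨-, hn, hne⟩ := (hfar hw hcx).1 fun y a b c => hy ⟨y, a, b, c.1, c.2⟩
    obtain ⟨y₀, y₁, hy0, hy1, hv0, hv1, h01, hexp⟩ := frame hF hv
    obtain ⟨y, hyu, hvy, hyn⟩ : ∃ y, B y y = 1 ∧ B v y = 0 ∧ frobQ hF (B y w) * B y w ≠ 1 := by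
      by_contra hcon
      push Not at hcon
      have a0 := hcon y₀ hy0 hv0
      have a1 := hcon y₁ hy1 hv1
      have h1 : B w (B v w • v + B y₀ w • y₀ + B y₁ w • y₁) = 1 := by rw [← hexp w]; exact hw
      rw [ub_add_right hF, ub_add_right hF, ub_smul_right hF, ub_smul_right hF, ub_smul_right hF,
        ← ub_symm hF v w, ← ub_symm hF y₀ w, ← ub_symm hF y₁ w] at h1
      exact two_ne_zero' hF hq (by linear_combination h1 - hn - a0 - a1)
    obtain ⟨z, hz, hyz, hwz⟩ := exists_common hF hyu hw hyn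
    exact ⟨rv hF y hyu, rv hF z hz, (hr hyu).1, (hr hyu).2, (hr hz).1, (hr hz).2,
      (commute_iff hF hq hv hyu).2 (Or.inl hvy), (commute_iff hF hq hyu hz).2 (Or.inl hyz),
      (commute_iff hF hq hz hw).2 (Or.inl (ub_eq_zero_symm hF hwz))⟩
  have hq2 : 2 ≤ q := Forms.two_le_q hF
  obtain ⟨k, rfl⟩ : ∃ k, q = k + 2 := ⟨q - 2, by omega⟩
  have n1 : N1 = (k + 2) * (k + 1) := by
    have := card_perp_unit hF hv
    rw [c1] at this
    refine Nat.eq_of_mul_eq_mul_left (show 0 < k + 2 + 1 by omega) ?_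
    refine Nat.add_right_cancel (m := k + 2) ?_
    rw [this]; ring
  have n3 : N3 = (k + 2 + 1) * ((k + 2) ^ 2 - 1) := by
    have h3 := card_far hF hv
    rw [c3, ← mul_add] at h3
    have := Nat.eq_of_mul_eq_mul_left (show 0 < k + 2 + 1 by omega) h3
    have e : (k + 2) ^ 2 - 1 = (k + 1) * (k + 3) := by
      rw [show (k + 2) ^ 2 = (k + 1) * (k + 3) + 1 by ring, Nat.add_sub_cancel]
    rw [e]
    refine Nat.add_right_cancel (m := k + 2 + 1) ?_
    rw [this]; ring
  have n2 : N2 = (k + 2) * k * ((k + 2) ^ 2 - 1) := by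
    have e : (k + 2) ^ 2 - 1 = (k + 1) * (k + 3) := by
      rw [show (k + 2) ^ 2 = (k + 1) * (k + 3) + 1 by ring, Nat.add_sub_cancel]
    rw [e] at n3 ⊢
    rw [n1, n3] at hsum
    rw [hsum] at c0
    refine Nat.eq_of_mul_eq_mul_left (show 0 < k + 2 + 1 by omega) ?_
    zify at c0 ⊢
    linear_combination -c0
  exact ⟨by rw [n1]; rfl, by rw [n2]; rfl, n3, hlast⟩

end Cfsg.Agent.Core.UnitaryInvolutionGraph
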