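/-
All involutions of the three-dimensional special unitary group in odd characteristic are conjugate.
-/
import Cfsg.Agent.Core.UnitaryInvolutionGraph
import Cfsg.Agent.Forms.UnitaryOrder

set_option autoImplicit false
set_option linter.unusedSectionVars false
set_option linter.unusedSimpArgs false

namespace Cfsg.Agent.Core.UnitaryInvolutionGraph

open Cfsg.Agent.Forms (frobQ hermB perp)
open Cfsg.Agent.KnownA
open Module

variable {F : Type*} [Field F] [Fintype F] {q : ℕ} (hF : Fintype.card F = q ^ 2)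

local notation "V3" => (Fin 3 → F)
local notation "SU3" => Cfsg.SU 3 F q
local notation "B" => ub (n := 3) hF

include hF

theorem unit_transitive {v w : V3} (hv : B v v = 1) (hw : B w w = 1) : ∃ g : SU3, act g v = w := by
  obtain ⟨y, u, hy, hu, hvy, hvu, hyu, hexp⟩ := frame hF hv
  obtain ⟨y', u', hy', hu', hvy', hvu', hyu', hexp'⟩ := frame hF hw
  have hyv' : B y' w = 0 := ub_eq_zero_symm hF hvy'
  have huv' : B u' w = 0 := ub_eq_zero_symm hF hvu'
  have huy' : B u' y' = 0 := ub_eq_zero_symm hF hyu'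
  let T : V3 →ₗ[F] V3 := (ubL hF v).smulRight w + (ubL hF y).smulRight y' + (ubL hF u).smulRight u'
  have hT : ∀ x, T x = B v x • w + B y x • y' + B u x • u' := fun x => by simp [T, ubL_apply]
  have hB : ∀ x z, B (T x) (T z) = B x z := fun x z => by
    rw [hT, hT]
    conv_rhs => rw [hexp x]
    simp only [ub_add_left hF, ub_add_right hF, ub_smul_left hF, ub_smul_right hF, hw, hy', hu', hvy', hvu',
      hyu', hyv', huv', huy']
    ring
  have hd : frobQ hF (LinearMap.det T) * LinearMap.det T = 1 := by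
    rw [mul_comm]; exact Forms.det_norm_one hF T hB
  set d := LinearMap.det T with hd'
  let M : V3 →ₗ[F] V3 := LinearMap.id + ((frobQ hF d - 1) • ubL hF u').smulRight u'
  have hM : ∀ x, M x = B w x • w + B y' x • y' + (frobQ hF d * B u' x) • u' := fun x => by
    simp only [M, LinearMap.add_apply, LinearMap.id_apply, LinearMap.smulRight_apply, LinearMap.smul_apply,
      ubL_apply, smul_eq_mul]
    nth_rewrite 1 [hexp' x]
    module
  have hMB : ∀ x z, B (M x) (M z) = B x z := fun x z => by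
    rw [hM, hM]
    conv_rhs => rw [hexp' x]
    simp only [ub_add_left hF, ub_add_right hF, ub_smul_left hF, ub_smul_right hF, hw, hy', hu', hvy', hvu',
      hyu', hyv', huv', huy', map_mul, sig_sig hF]
    linear_combination (frobQ hF (B u' x) * B u' z) * hd
  have hMd : LinearMap.det M = frobQ hF d := by
    rw [det_one_add_one, LinearMap.smul_apply, ubL_apply, hu', smul_eq_mul, mul_one, add_sub_cancel]
  refine ⟨UnitaryRootGroups.mkSU (hF := hF) (M ∘ₗ T) (fun x z => by
    rw [LinearMap.comp_apply, LinearMap.comp_apply, hMB, hB]) (by rw [LinearMap.det_comp, hMd]; exact hd), ?_⟩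
  have hTv : T v = w := by
    rw [hT, hv, ub_eq_zero_symm hF hvy, ub_eq_zero_symm hF hvu]; simp
  rw [UnitaryRootGroups.act_mkSU, LinearMap.comp_apply, hTv, hM, hw, hyv', huv']
  simp

theorem class_facts (hq : Odd q) (t : SU3) (ht : t ≠ 1) (ht2 : t * t = 1) :
    (∀ x : SU3, x ≠ 1 → x * x = 1 → ∃ g : SU3, g * t * g⁻¹ = x) ∧
    Nat.card {x : SU3 // x ≠ 1 ∧ x * x = 1} = q ^ 2 * (q ^ 2 - q + 1) ∧
    Nat.card (Subgroup.centralizer ({t} : Set SU3)) = q * (q + 1) * (q ^ 2 - 1) ∧
    ∀ x : SU3, x ≠ 1 → x * x = 1 → x ≠ t → Commute t x →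
      Nat.card {y : SU3 // y ≠ 1 ∧ y * y = 1 ∧ y ≠ t ∧ y ≠ x ∧ Commute t y ∧ Commute x y} = 1 := by
  classical
  obtain ⟨v, hv, rfl⟩ := surj hF hq ht ht2
  have hconj : ∀ x : SU3, x ≠ 1 → x * x = 1 → ∃ g : SU3, g * rv hF v hv * g⁻¹ = x := by
    intro x hx hx2
    obtain ⟨w, hw, rfl⟩ := surj hF hq hx hx2
    obtain ⟨g, hg⟩ := unit_transitive hF hv hw
    refine ⟨g, ?_⟩
    rw [conj_rv hF]
    exact (rv_eq_iff hF hq _ hw).2 ⟨1, by rw [one_smul, hg]⟩
  have h2q : 2 ≤ q := Forms.two_le_q hF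
  have hN : Nat.card {x : SU3 // x ≠ 1 ∧ x * x = 1} = q ^ 2 * (q ^ 2 - q + 1) := by
    have h := card_through hF hq (fun g => g ≠ 1 ∧ g * g = 1) (fun _ h => h)
    have e : Nat.card {w : V3 // ∃ hw : B w w = 1, (fun g : SU3 => g ≠ 1 ∧ g * g = 1) (rv hF w hw)} =
        q ^ 5 + q ^ 2 := by
      rw [← card_unit hF]
      exact Nat.card_congr (Equiv.subtypeEquivRight fun w =>
        ⟨fun ⟨hw, _⟩ => hw, fun hw => ⟨hw, rv_ne_one hF hq hw, rv_mul_self hF hw⟩⟩)
    rw [e] at h
    refine Nat.eq_of_mul_eq_mul_left (n := q + 1) (by omega) (h.symm.trans ?_)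
    obtain ⟨k, hk⟩ := Nat.exists_eq_add_of_le (show q ≤ q ^ 2 by nlinarith)
    rw [hk, Nat.add_sub_cancel_left]
    nlinarith [hk, congrArg (fun n => n * q ^ 3) hk, congrArg (fun n => n * q ^ 2) hk]
  refine ⟨hconj, hN, ?_, ?_⟩
  · set t := rv hF v hv
    set C := Subgroup.centralizer ({t} : Set SU3) with hC
    have hbij : Function.Bijective (fun g : SU3 ⧸ C => Quotient.liftOn' g
        (fun g => (⟨g * t * g⁻¹, by
          refine ⟨fun e => ht ?_, ?_⟩
          · rw [show t = g⁻¹ * (g * t * g⁻¹) * g by group, e]; group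
          · rw [show g * t * g⁻¹ * (g * t * g⁻¹) = g * (t * t) * g⁻¹ by group, ht2]; group⟩ :
          {x : SU3 // x ≠ 1 ∧ x * x = 1}))
        (fun a b hab => by
          have h := Subgroup.mem_centralizer_singleton_iff.1 (QuotientGroup.leftRel_apply.1 hab)
          refine Subtype.ext ?_
          show a * t * a⁻¹ = b * t * b⁻¹
          calc a * t * a⁻¹ = a * (t * (a⁻¹ * b)) * b⁻¹ := by group
            _ = a * (a⁻¹ * b * t) * b⁻¹ := by rw [h]
            _ = b * t * b⁻¹ := by group)) := by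
      constructor
      · intro a b
        induction a using QuotientGroup.induction_on
        induction b using QuotientGroup.induction_on
        rename_i a b
        intro e
        have e' : a * t * a⁻¹ = b * t * b⁻¹ := congrArg Subtype.val e
        refine QuotientGroup.eq.2 (Subgroup.mem_centralizer_singleton_iff.2 ?_)
        calc a⁻¹ * b * t = a⁻¹ * (b * t * b⁻¹) * b := by group
          _ = a⁻¹ * (a * t * a⁻¹) * b := by rw [e']
          _ = t * (a⁻¹ * b) := by group
      · rintro ⟨x, hx, hx2⟩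
        obtain ⟨g, hg⟩ := hconj x hx hx2
        exact ⟨QuotientGroup.mk g, Subtype.ext hg⟩
    have hidx : C.index = q ^ 2 * (q ^ 2 - q + 1) := by
      rw [← hN, Subgroup.index]; exact Nat.card_eq_of_bijective _ hbij
    have hSU := Forms.card_SU hF (n := 3) (by norm_num)
    rw [← Subgroup.card_mul_index C, hidx] at hSU
    simp [Finset.prod_range_succ, Nat.even_iff, -Nat.card_eq_fintype_card] at hSU
    obtain ⟨k, hk⟩ := Nat.exists_eq_add_of_le (show q ≤ q ^ 2 by nlinarith)
    rw [hk, Nat.add_sub_cancel_left] at hSU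
    obtain ⟨m, hm⟩ := Nat.exists_eq_add_of_le (show 1 ≤ q ^ 2 by nlinarith)
    rw [show q + k - 1 = m by omega] at hSU
    rw [show q ^ 2 - 1 = m by omega]
    refine Nat.eq_of_mul_eq_mul_right (m := (q + 1) * ((q + k) * (k + 1))) (Nat.mul_pos (by omega) (Nat.mul_pos (by omega) (by omega))) ?_
    have e3 : q ^ 3 + 1 = (q + 1) * (k + 1) := by nlinarith [hk, congrArg (fun n => n * q) hk]
    rw [e3] at hSU
    linear_combination hSU + (q * (q + 1) * (q + 1) * m * (k + 1)) * hk
  · intro x hx hx2 hne hcomm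
    obtain ⟨w, hw, rfl⟩ := surj hF hq hx hx2
    rcases (commute_iff hF hq hv hw).1 hcomm with hvw | ⟨a, ha⟩
    swap
    · exact absurd ((rv_eq_iff hF hq hv hw).2 ⟨a, ha⟩).symm hne
    obtain ⟨u, hu, hvu, hwu, hexp⟩ := third hF hv hw hvw
    have hu0 : u ≠ 0 := fun e => by rw [e, ub_zero_left hF] at hu; exact zero_ne_one hu
    have notmul : ∀ {z : V3} (hz : B z z = 1), B z u = 0 → rv hF u hu ≠ rv hF z hz := by
      intro z hz hzu e
      obtain ⟨a, ha⟩ := (rv_eq_iff hF hq hu hz).1 e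
      rw [ha, ub_smul_left hF, hu, mul_one, map_eq_zero] at hzu
      rw [ha, hzu, zero_smul, ub_zero_left hF] at hz
      exact zero_ne_one hz
    rw [Nat.card_eq_one_iff_unique]
    refine ⟨⟨fun y y' => Subtype.ext ?_⟩, ⟨⟨rv hF u hu, rv_ne_one hF hq hu, rv_mul_self hF hu,
      notmul hv hvu, notmul hw hwu, (commute_iff hF hq hv hu).2 (Or.inl hvu),
      (commute_iff hF hq hw hu).2 (Or.inl hwu)⟩⟩⟩
    suffices key : ∀ y : SU3, y ≠ 1 ∧ y * y = 1 ∧ y ≠ rv hF v hv ∧ y ≠ rv hF w hw ∧
        Commute (rv hF v hv) y ∧ Commute (rv hF w hw) y → y = rv hF u hu by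
      exact (key _ y.2).trans (key _ y'.2).symm
    rintro y ⟨hy1, hy2, hyv, hyw, hcv, hcw⟩
    obtain ⟨z, hz, rfl⟩ := surj hF hq hy1 hy2
    have h1 : B v z = 0 := ((commute_iff hF hq hv hz).1 hcv).resolve_right fun h =>
      hyv ((rv_eq_iff hF hq hv hz).2 h).symm
    have h2 : B w z = 0 := ((commute_iff hF hq hw hz).1 hcw).resolve_right fun h =>
      hyw ((rv_eq_iff hF hq hw hz).2 h).symm
    refine ((rv_eq_iff hF hq hu hz).2 ⟨B u z, ?_⟩).symm
    conv_lhs => rw [hexp z, h1, h2]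
    simp

end Cfsg.Agent.Core.UnitaryInvolutionGraph
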